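import Cfsg.Agent.Lib.TwistedE6Involutions.Levi

/-!
`²E₆(q)`, `q` even: every involution of `U¹` is conjugate to one of thirteen products of orthogonal root
elements.
-/

set_option autoImplicit false
set_option linter.all false
set_option maxRecDepth 20000
set_option maxHeartbeats 2000000

namespace CfsgLib.TwistedE6Involutions

open Cfsg.Lie CfsgLib.Chevalley CfsgLib.Twisted

variable {K : Type*} [Field K] [CharP K 2]

/-- The products of orthogonal root elements are conjugate to representatives. -/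
structure Base (σ : K →+* K) (q : ℕ) : Prop where
  z : ∀ c : K, σ c = c → c ≠ 0 → Good q (X 71 c)
  a : ∀ c : K, σ c = c → c ≠ 0 → Good q (X 46 c)
  ab : ∀ c h : K, σ c = c → σ h = h → c ≠ 0 → h ≠ 0 → Good q (X 46 c * X 69 h)
  abc : ∀ c m h : K, σ c = c → σ m = m → σ h = h → c ≠ 0 → m ≠ 0 → h ≠ 0 →
    Good q (X 46 c * X 65 m * X 69 h)
  abcd : ∀ c l m h : K, σ c = c → σ l = l → σ m = m → σ h = h → c ≠ 0 → l ≠ 0 → m ≠ 0 → h ≠ 0 →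
    Good q (X 46 c * X 53 l * X 65 m * X 69 h)
  b : ∀ c : K, σ c = c → c ≠ 0 → Good q (X 60 c)
  bs : ∀ c x : K, σ c = c → c ≠ 0 → x ≠ 0 → Good q (X 60 c * D 49 61 x (σ x))
  bz : ∀ c z : K, σ c = c → σ z = z → c ≠ 0 → z ≠ 0 → Good q (X 60 c * X 71 z)
  cc : ∀ m h : K, σ m = m → σ h = h → m ≠ 0 → h ≠ 0 → Good q (X 44 m * X 60 h)
  cs : ∀ m h x : K, σ m = m → σ h = h → m ≠ 0 → h ≠ 0 → x ≠ 0 → Good q (X 44 m * X 60 h * D 52 62 x (σ x))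
  cz : ∀ m h z : K, σ m = m → σ h = h → σ z = z → m ≠ 0 → h ≠ 0 → z ≠ 0 → Good q (X 44 m * X 60 h * X 71 z)
  dd : ∀ l m h : K, σ l = l → σ m = m → σ h = h → l ≠ 0 → m ≠ 0 → h ≠ 0 → Good q (X 39 l * X 44 m * X 60 h)
  dz : ∀ l m h z : K, σ l = l → σ m = m → σ h = h → σ z = z → l ≠ 0 → m ≠ 0 → h ≠ 0 → z ≠ 0 →
    Good q (X 39 l * X 44 m * X 60 h * X 71 z)

variable {σ : K →+* K} {q : ℕ} (S : Setting σ q)

include S

/-- Conjugation inside `u R`. -/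
theorem Setting.step {u v e : GL chevE6.Idx K} (hu : u ∈ twistedE6 K q) (hv : v ∈ twistedE6 K q) (hvR : v ∈ R K)
    (h2 : u * v * (u * v) = 1) (he : e ∈ twistedE6 K q) (hn : ∀ w ∈ R K, e * w * e⁻¹ ∈ R K)
    (hue : u⁻¹ * e * u * e⁻¹ ∈ R K) :
    ∃ c1 c4 c9 c10 c12 c13 c15 c16 c17 c18 c19 c20 c21 c22 c23, (σ c1 = c1 ∧ σ c4 = c4 ∧ σ c10 = c10 ∧
        σ c13 = c13 ∧ σ c16 = c16 ∧ σ c18 = c18 ∧ σ c21 = c21 ∧ σ c22 = c22 ∧ σ c23 = c23) ∧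
      e * (u * v) = u * Q σ c1 c4 c9 c10 c12 c13 c15 c16 c17 c18 c19 c20 c21 c22 c23 * e ∧
      (u * Q σ c1 c4 c9 c10 c12 c13 c15 c16 c17 c18 c19 c20 c21 c22 c23 *
        (u * Q σ c1 c4 c9 c10 c12 c13 c15 c16 c17 c18 c19 c20 c21 c22 c23) = 1) ∧
      (Good q (u * Q σ c1 c4 c9 c10 c12 c13 c15 c16 c17 c18 c19 c20 c21 c22 c23) → Good q (u * v)) := by
  have hw : u⁻¹ * (e * (u * v) * e⁻¹) ∈ R K := by
    rw [show u⁻¹ * (e * (u * v) * e⁻¹) = u⁻¹ * e * u * e⁻¹ * (e * v * e⁻¹) by group]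
    exact mul_mem hue (hn v hvR)
  obtain ⟨c1, c4, c9, c10, c12, c13, c15, c16, c17, c18, c19, c20, c21, c22, c23, hf, hQ⟩ :=
    S.exists_Q (mul_mem (inv_mem hu) (mul_mem (mul_mem he (mul_mem hu hv)) (inv_mem he))) hw
  have e' : e * (u * v) * e⁻¹ = u * Q σ c1 c4 c9 c10 c12 c13 c15 c16 c17 c18 c19 c20 c21 c22 c23 := by
    rw [← hQ]; group
  refine ⟨c1, c4, c9, c10, c12, c13, c15, c16, c17, c18, c19, c20, c21, c22, c23, hf, ?_, ?_, fun H => ?_⟩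
  · rw [← e', inv_mul_cancel_right]
  · exact Rel.sq ⟨e, he, e'⟩ h2
  · exact H.of_rel ⟨e, he, e'⟩

theorem good_radical_one (B : Base σ q) {c1 c4 c9 c10 c12 c13 c15 c16 c17 c18 c19 c20 c21 c22 c23 : K}
    (f : σ c1 = c1 ∧ σ c4 = c4 ∧ σ c10 = c10 ∧ σ c13 = c13 ∧ σ c16 = c16 ∧ σ c18 = c18 ∧ σ c21 = c21 ∧
      σ c22 = c22 ∧ σ c23 = c23) (hc : c1 ≠ 0)
    (h2 : Q σ c1 c4 c9 c10 c12 c13 c15 c16 c17 c18 c19 c20 c21 c22 c23 *
      Q σ c1 c4 c9 c10 c12 c13 c15 c16 c17 c18 c19 c20 c21 c22 c23 = 1) :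
    Good q (Q σ c1 c4 c9 c10 c12 c13 c15 c16 c17 c18 c19 c20 c21 c22 c23) := by
  have hi := S.invol
  obtain ⟨f1, f4, f10, f13, f16, f18, f21, f22, f23⟩ := f
  have hv := S.Q_mem (c9 := c9) (c12 := c12) (c15 := c15) (c17 := c17) (c19 := c19) (c20 := c20)
    f1 f4 f10 f13 f16 f18 f21 f22 f23
  have hd : ∀ {t : K}, σ t = t → σ (t / c1) = t / c1 := fun ht => by rw [map_div₀, ht, f1]
  obtain ⟨d1, d4, d9, d10, d12, d13, d15, d16, d17, d18, d19, d20, d21, d22, d23, g, eq, sq, H⟩ :=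
    S.step (u := 1) (e := UL σ 0 0 0 (c4 / c1) (c9 / c1) (c10 / c1) (c12 / c1) (c15 / c1) (c16 / c1))
      (one_mem _) hv (Q_mem_R σ _ _ _ _ _ _ _ _ _ _ _ _ _ _ _) (by simpa using h2)
      (S.UL_mem (hd f4) (hd f10) (hd f16)) (UL_norm σ _ _ _ _ _ _ _ _ _) (by simp)
  simp only [one_mul] at eq sq H
  refine H ?_
  obtain ⟨g1, g4, g10, g13, g16, g18, g21, g22, g23⟩ := g
  have k4 : c1 * (c4 / c1) = c4 := mul_div_cancel₀ _ hc
  have k9 : c1 * (c9 / c1) = c9 := mul_div_cancel₀ _ hc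
  have k10 : c1 * (c10 / c1) = c10 := mul_div_cancel₀ _ hc
  have k12 : c1 * (c12 / c1) = c12 := mul_div_cancel₀ _ hc
  have k15 : c1 * (c15 / c1) = c15 := mul_div_cancel₀ _ hc
  have k16 : c1 * (c16 / c1) = c16 := mul_div_cancel₀ _ hc
  generalize c4 / c1 = s4 at eq k4
  generalize c9 / c1 = s9 at eq k9
  generalize c10 / c1 = s10 at eq k10
  generalize c12 / c1 = s12 at eq k12
  generalize c15 / c1 = s15 at eq k15
  generalize c16 / c1 = s16 at eq k16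
  clear hd hv h2
  e6_coords_at eq
  obtain rfl : d1 = c1 := by grind
  obtain rfl : d4 = 0 := by grind
  obtain rfl : d9 = 0 := by grind
  obtain rfl : d10 = 0 := by grind
  obtain rfl : d12 = 0 := by grind
  obtain rfl : d15 = 0 := by grind
  obtain rfl : d16 = 0 := by grind
  clear eq k4 k9 k10 k12 k15 k16
  e6_coords_at sq
  obtain rfl : d22 = 0 := by grind
  clear sq H
  have g0 : σ (0 : K) = 0 := map_zero σ
  refine herm_reduce S (P := fun l m h x y z => ∀ w, σ w = w →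
      Good q (Q σ d1 0 0 0 0 l 0 0 x m y z h 0 w)) ?_ ?_ ?_ ?_ ?_ ?_ ?_ ?_ ?_
    d13 d18 d21 d17 d19 d20 g13 g18 g21 d23 g23
  · intro l m h x y z s hl hm hh P w hw
    refine Good.of_rel (rel_of_eq (S.mem_2 s) ?_) (P w hw)
    e6_eq <;> (try simp only [map_add, map_mul, hi]) <;> grind
  · intro l m h x y z s hl hm hh P w hw
    refine Good.of_rel (rel_of_eq (S.mem_3 s) ?_) (P w hw)
    e6_eq <;> (try simp only [map_add, map_mul, hi]) <;> grind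
  · intro l m h x y z s hl hm hh P w hw
    refine Good.of_rel (rel_of_eq (S.mem_5 s) ?_) (P w hw)
    e6_eq <;> (try simp only [map_add, map_mul, hi]) <;> grind
  · intro l m h x y z hl hm hh P w hw
    refine Good.of_rel ⟨w2, S.w2_mem, ?_⟩ (P w hw)
    simp only [Q, map_zero, D_zero, xG_zero, one_mul, mul_one, conj_mul', w2_1, w2_13, w2_17, w2_18, w2_19,
      w2_20, w2_21, w2_23, hi]
    refine mul_right_cancel (b := padding) ?_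
    simp only [padding]
    e6_norm
  · intro l m h x y z hl hm hh P w hw
    refine Good.of_rel ⟨w3, S.w3_mem, ?_⟩ (P w hw)
    simp only [Q, map_zero, D_zero, xG_zero, one_mul, mul_one, conj_mul', w3_1, w3_13, w3_17, w3_18, w3_19,
      w3_20, w3_21, w3_23, hi]
    refine mul_right_cancel (b := padding) ?_
    simp only [padding]
    e6_norm
  all_goals
    have hkill : ∀ l m h w : K, σ w = w → Good q (Q σ d1 0 0 0 0 l 0 0 0 m 0 0 h 0 0) →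
        Good q (Q σ d1 0 0 0 0 l 0 0 0 m 0 0 h 0 w) := fun l m h w hw P => by
      have e1 : d1 * (w / d1) = w := mul_div_cancel₀ _ hc
      refine Good.of_rel (rel_of_eq (S.mem_22 (t := w / d1) (by rw [map_div₀, hw, f1])) ?_) P
      generalize w / d1 = s at e1 ⊢
      subst e1
      simp only [Q, map_zero]
      refine mul_right_cancel (b := padding) ?_
      simp only [padding]
      e6_norm
  · intro w hw
    refine hkill _ _ _ w hw ?_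
    simpa [Q, D_zero, xG_zero] using B.a d1 f1 hc
  · intro h hh he w hw
    refine hkill _ _ _ w hw ?_
    simpa [Q, D_zero, xG_zero, mul_assoc] using B.ab d1 h f1 hh hc he
  · intro m h hm hh hm0 he w hw
    refine hkill _ _ _ w hw ?_
    simpa [Q, D_zero, xG_zero, mul_assoc] using B.abc d1 m h f1 hm hh hc hm0 he
  · intro l m h hl hm hh hl0 hm0 he w hw
    refine hkill _ _ _ w hw ?_
    simpa [Q, D_zero, xG_zero, mul_assoc] using B.abcd d1 l m h f1 hl hm hh hc hl0 hm0 he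

theorem good_at1 (B : Base σ q) {c1 c4 c9 c10 c12 c13 c15 c16 c17 c18 c19 c20 c21 c22 c23 : K}
    (f : σ c1 = c1 ∧ σ c4 = c4 ∧ σ c10 = c10 ∧ σ c13 = c13 ∧ σ c16 = c16 ∧ σ c18 = c18 ∧ σ c21 = c21 ∧ σ c22 = c22 ∧ σ c23 = c23)
    (hne : c1 ≠ 0) (h2 : Q σ c1 c4 c9 c10 c12 c13 c15 c16 c17 c18 c19 c20 c21 c22 c23 * Q σ c1 c4 c9 c10 c12 c13 c15 c16 c17 c18 c19 c20 c21 c22 c23 = 1) :
    Good q (Q σ c1 c4 c9 c10 c12 c13 c15 c16 c17 c18 c19 c20 c21 c22 c23) :=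
  good_radical_one S B f hne h2

theorem good_at4 (B : Base σ q) {c1 c4 c9 c10 c12 c13 c15 c16 c17 c18 c19 c20 c21 c22 c23 : K}
    (f : σ c1 = c1 ∧ σ c4 = c4 ∧ σ c10 = c10 ∧ σ c13 = c13 ∧ σ c16 = c16 ∧ σ c18 = c18 ∧ σ c21 = c21 ∧ σ c22 = c22 ∧ σ c23 = c23)
    (hne : c4 ≠ 0) (h2 : Q σ c1 c4 c9 c10 c12 c13 c15 c16 c17 c18 c19 c20 c21 c22 c23 * Q σ c1 c4 c9 c10 c12 c13 c15 c16 c17 c18 c19 c20 c21 c22 c23 = 1) :
    Good q (Q σ c1 c4 c9 c10 c12 c13 c15 c16 c17 c18 c19 c20 c21 c22 c23) := by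
  have hi := S.invol
  obtain ⟨f1, f4, f10, f13, f16, f18, f21, f22, f23⟩ := f
  obtain ⟨d1, d4, d9, d10, d12, d13, d15, d16, d17, d18, d19, d20, d21, d22, d23, g, eq, sq, H⟩ :=
    S.step (u := 1) (e := w0) (one_mem _) (S.Q_mem f1 f4 f10 f13 f16 f18 f21 f22 f23)
      (Q_mem_R σ _ _ _ _ _ _ _ _ _ _ _ _ _ _ _) (by simpa using h2) S.w0_mem w0_norm (by simp)
  simp only [one_mul] at eq sq H
  refine H (good_at1 S B g ?_ sq)
  have eq' := congrArg (· * w0⁻¹) eq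
  simp only [mul_inv_cancel_right] at eq'
  simp only [Q, conj_mul', w0_1, w0_4, w0_9, w0_10, w0_12, w0_13, w0_15, w0_16, w0_17, w0_18, w0_19, w0_20, w0_21, w0_22, w0_23, hi] at eq'
  e6_coords_at eq'
  grind

theorem good_at10 (B : Base σ q) {c1 c4 c9 c10 c12 c13 c15 c16 c17 c18 c19 c20 c21 c22 c23 : K}
    (f : σ c1 = c1 ∧ σ c4 = c4 ∧ σ c10 = c10 ∧ σ c13 = c13 ∧ σ c16 = c16 ∧ σ c18 = c18 ∧ σ c21 = c21 ∧ σ c22 = c22 ∧ σ c23 = c23)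
    (hne : c10 ≠ 0) (h2 : Q σ c1 c4 c9 c10 c12 c13 c15 c16 c17 c18 c19 c20 c21 c22 c23 * Q σ c1 c4 c9 c10 c12 c13 c15 c16 c17 c18 c19 c20 c21 c22 c23 = 1) :
    Good q (Q σ c1 c4 c9 c10 c12 c13 c15 c16 c17 c18 c19 c20 c21 c22 c23) := by
  have hi := S.invol
  obtain ⟨f1, f4, f10, f13, f16, f18, f21, f22, f23⟩ := f
  obtain ⟨d1, d4, d9, d10, d12, d13, d15, d16, d17, d18, d19, d20, d21, d22, d23, g, eq, sq, H⟩ :=
    S.step (u := 1) (e := w3) (one_mem _) (S.Q_mem f1 f4 f10 f13 f16 f18 f21 f22 f23)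
      (Q_mem_R σ _ _ _ _ _ _ _ _ _ _ _ _ _ _ _) (by simpa using h2) S.w3_mem w3_norm (by simp)
  simp only [one_mul] at eq sq H
  refine H (good_at4 S B g ?_ sq)
  have eq' := congrArg (· * w3⁻¹) eq
  simp only [mul_inv_cancel_right] at eq'
  simp only [Q, conj_mul', w3_1, w3_4, w3_9, w3_10, w3_12, w3_13, w3_15, w3_16, w3_17, w3_18, w3_19, w3_20, w3_21, w3_22, w3_23, hi] at eq'
  e6_coords_at eq'
  grind

theorem good_at13 (B : Base σ q) {c1 c4 c9 c10 c12 c13 c15 c16 c17 c18 c19 c20 c21 c22 c23 : K}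
    (f : σ c1 = c1 ∧ σ c4 = c4 ∧ σ c10 = c10 ∧ σ c13 = c13 ∧ σ c16 = c16 ∧ σ c18 = c18 ∧ σ c21 = c21 ∧ σ c22 = c22 ∧ σ c23 = c23)
    (hne : c13 ≠ 0) (h2 : Q σ c1 c4 c9 c10 c12 c13 c15 c16 c17 c18 c19 c20 c21 c22 c23 * Q σ c1 c4 c9 c10 c12 c13 c15 c16 c17 c18 c19 c20 c21 c22 c23 = 1) :
    Good q (Q σ c1 c4 c9 c10 c12 c13 c15 c16 c17 c18 c19 c20 c21 c22 c23) := by
  have hi := S.invol
  obtain ⟨f1, f4, f10, f13, f16, f18, f21, f22, f23⟩ := f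
  obtain ⟨d1, d4, d9, d10, d12, d13, d15, d16, d17, d18, d19, d20, d21, d22, d23, g, eq, sq, H⟩ :=
    S.step (u := 1) (e := w0) (one_mem _) (S.Q_mem f1 f4 f10 f13 f16 f18 f21 f22 f23)
      (Q_mem_R σ _ _ _ _ _ _ _ _ _ _ _ _ _ _ _) (by simpa using h2) S.w0_mem w0_norm (by simp)
  simp only [one_mul] at eq sq H
  refine H (good_at10 S B g ?_ sq)
  have eq' := congrArg (· * w0⁻¹) eq
  simp only [mul_inv_cancel_right] at eq'
  simp only [Q, conj_mul', w0_1, w0_4, w0_9, w0_10, w0_12, w0_13, w0_15, w0_16, w0_17, w0_18, w0_19, w0_20, w0_21, w0_22, w0_23, hi] at eq'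
  e6_coords_at eq'
  grind

theorem good_at16 (B : Base σ q) {c1 c4 c9 c10 c12 c13 c15 c16 c17 c18 c19 c20 c21 c22 c23 : K}
    (f : σ c1 = c1 ∧ σ c4 = c4 ∧ σ c10 = c10 ∧ σ c13 = c13 ∧ σ c16 = c16 ∧ σ c18 = c18 ∧ σ c21 = c21 ∧ σ c22 = c22 ∧ σ c23 = c23)
    (hne : c16 ≠ 0) (h2 : Q σ c1 c4 c9 c10 c12 c13 c15 c16 c17 c18 c19 c20 c21 c22 c23 * Q σ c1 c4 c9 c10 c12 c13 c15 c16 c17 c18 c19 c20 c21 c22 c23 = 1) :
    Good q (Q σ c1 c4 c9 c10 c12 c13 c15 c16 c17 c18 c19 c20 c21 c22 c23) := by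
  have hi := S.invol
  obtain ⟨f1, f4, f10, f13, f16, f18, f21, f22, f23⟩ := f
  obtain ⟨d1, d4, d9, d10, d12, d13, d15, d16, d17, d18, d19, d20, d21, d22, d23, g, eq, sq, H⟩ :=
    S.step (u := 1) (e := w2) (one_mem _) (S.Q_mem f1 f4 f10 f13 f16 f18 f21 f22 f23)
      (Q_mem_R σ _ _ _ _ _ _ _ _ _ _ _ _ _ _ _) (by simpa using h2) S.w2_mem w2_norm (by simp)
  simp only [one_mul] at eq sq H
  refine H (good_at10 S B g ?_ sq)
  have eq' := congrArg (· * w2⁻¹) eq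
  simp only [mul_inv_cancel_right] at eq'
  simp only [Q, conj_mul', w2_1, w2_4, w2_9, w2_10, w2_12, w2_13, w2_15, w2_16, w2_17, w2_18, w2_19, w2_20, w2_21, w2_22, w2_23, hi] at eq'
  e6_coords_at eq'
  grind

theorem good_at18 (B : Base σ q) {c1 c4 c9 c10 c12 c13 c15 c16 c17 c18 c19 c20 c21 c22 c23 : K}
    (f : σ c1 = c1 ∧ σ c4 = c4 ∧ σ c10 = c10 ∧ σ c13 = c13 ∧ σ c16 = c16 ∧ σ c18 = c18 ∧ σ c21 = c21 ∧ σ c22 = c22 ∧ σ c23 = c23)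
    (hne : c18 ≠ 0) (h2 : Q σ c1 c4 c9 c10 c12 c13 c15 c16 c17 c18 c19 c20 c21 c22 c23 * Q σ c1 c4 c9 c10 c12 c13 c15 c16 c17 c18 c19 c20 c21 c22 c23 = 1) :
    Good q (Q σ c1 c4 c9 c10 c12 c13 c15 c16 c17 c18 c19 c20 c21 c22 c23) := by
  have hi := S.invol
  obtain ⟨f1, f4, f10, f13, f16, f18, f21, f22, f23⟩ := f
  obtain ⟨d1, d4, d9, d10, d12, d13, d15, d16, d17, d18, d19, d20, d21, d22, d23, g, eq, sq, H⟩ :=
    S.step (u := 1) (e := w2) (one_mem _) (S.Q_mem f1 f4 f10 f13 f16 f18 f21 f22 f23)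
      (Q_mem_R σ _ _ _ _ _ _ _ _ _ _ _ _ _ _ _) (by simpa using h2) S.w2_mem w2_norm (by simp)
  simp only [one_mul] at eq sq H
  refine H (good_at13 S B g ?_ sq)
  have eq' := congrArg (· * w2⁻¹) eq
  simp only [mul_inv_cancel_right] at eq'
  simp only [Q, conj_mul', w2_1, w2_4, w2_9, w2_10, w2_12, w2_13, w2_15, w2_16, w2_17, w2_18, w2_19, w2_20, w2_21, w2_22, w2_23, hi] at eq'
  e6_coords_at eq'
  grind

theorem good_at21 (B : Base σ q) {c1 c4 c9 c10 c12 c13 c15 c16 c17 c18 c19 c20 c21 c22 c23 : K}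
    (f : σ c1 = c1 ∧ σ c4 = c4 ∧ σ c10 = c10 ∧ σ c13 = c13 ∧ σ c16 = c16 ∧ σ c18 = c18 ∧ σ c21 = c21 ∧ σ c22 = c22 ∧ σ c23 = c23)
    (hne : c21 ≠ 0) (h2 : Q σ c1 c4 c9 c10 c12 c13 c15 c16 c17 c18 c19 c20 c21 c22 c23 * Q σ c1 c4 c9 c10 c12 c13 c15 c16 c17 c18 c19 c20 c21 c22 c23 = 1) :
    Good q (Q σ c1 c4 c9 c10 c12 c13 c15 c16 c17 c18 c19 c20 c21 c22 c23) := by
  have hi := S.invol
  obtain ⟨f1, f4, f10, f13, f16, f18, f21, f22, f23⟩ := f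
  obtain ⟨d1, d4, d9, d10, d12, d13, d15, d16, d17, d18, d19, d20, d21, d22, d23, g, eq, sq, H⟩ :=
    S.step (u := 1) (e := w3) (one_mem _) (S.Q_mem f1 f4 f10 f13 f16 f18 f21 f22 f23)
      (Q_mem_R σ _ _ _ _ _ _ _ _ _ _ _ _ _ _ _) (by simpa using h2) S.w3_mem w3_norm (by simp)
  simp only [one_mul] at eq sq H
  refine H (good_at18 S B g ?_ sq)
  have eq' := congrArg (· * w3⁻¹) eq
  simp only [mul_inv_cancel_right] at eq'
  simp only [Q, conj_mul', w3_1, w3_4, w3_9, w3_10, w3_12, w3_13, w3_15, w3_16, w3_17, w3_18, w3_19, w3_20, w3_21, w3_22, w3_23, hi] at eq'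
  e6_coords_at eq'
  grind

theorem good_at22 (B : Base σ q) {c1 c4 c9 c10 c12 c13 c15 c16 c17 c18 c19 c20 c21 c22 c23 : K}
    (f : σ c1 = c1 ∧ σ c4 = c4 ∧ σ c10 = c10 ∧ σ c13 = c13 ∧ σ c16 = c16 ∧ σ c18 = c18 ∧ σ c21 = c21 ∧ σ c22 = c22 ∧ σ c23 = c23)
    (hne : c22 ≠ 0) (h2 : Q σ c1 c4 c9 c10 c12 c13 c15 c16 c17 c18 c19 c20 c21 c22 c23 * Q σ c1 c4 c9 c10 c12 c13 c15 c16 c17 c18 c19 c20 c21 c22 c23 = 1) :
    Good q (Q σ c1 c4 c9 c10 c12 c13 c15 c16 c17 c18 c19 c20 c21 c22 c23) := by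
  have hi := S.invol
  obtain ⟨f1, f4, f10, f13, f16, f18, f21, f22, f23⟩ := f
  obtain ⟨d1, d4, d9, d10, d12, d13, d15, d16, d17, d18, d19, d20, d21, d22, d23, g, eq, sq, H⟩ :=
    S.step (u := 1) (e := w0) (one_mem _) (S.Q_mem f1 f4 f10 f13 f16 f18 f21 f22 f23)
      (Q_mem_R σ _ _ _ _ _ _ _ _ _ _ _ _ _ _ _) (by simpa using h2) S.w0_mem w0_norm (by simp)
  simp only [one_mul] at eq sq H
  refine H (good_at21 S B g ?_ sq)
  have eq' := congrArg (· * w0⁻¹) eq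
  simp only [mul_inv_cancel_right] at eq'
  simp only [Q, conj_mul', w0_1, w0_4, w0_9, w0_10, w0_12, w0_13, w0_15, w0_16, w0_17, w0_18, w0_19, w0_20, w0_21, w0_22, w0_23, hi] at eq'
  e6_coords_at eq'
  grind

theorem good_at9 (B : Base σ q) {c1 c4 c9 c10 c12 c13 c15 c16 c17 c18 c19 c20 c21 c22 c23 : K}
    (f : σ c1 = c1 ∧ σ c4 = c4 ∧ σ c10 = c10 ∧ σ c13 = c13 ∧ σ c16 = c16 ∧ σ c18 = c18 ∧ σ c21 = c21 ∧ σ c22 = c22 ∧ σ c23 = c23)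
    (hne : c9 ≠ 0) (h2 : Q σ c1 c4 c9 c10 c12 c13 c15 c16 c17 c18 c19 c20 c21 c22 c23 * Q σ c1 c4 c9 c10 c12 c13 c15 c16 c17 c18 c19 c20 c21 c22 c23 = 1) :
    Good q (Q σ c1 c4 c9 c10 c12 c13 c15 c16 c17 c18 c19 c20 c21 c22 c23) := by
  have hi := S.invol
  obtain ⟨f1, f4, f10, f13, f16, f18, f21, f22, f23⟩ := f
  by_cases h13 : c13 = 0
  swap
  · exact good_at13 S B ⟨f1, f4, f10, f13, f16, f18, f21, f22, f23⟩ h13 h2
  subst h13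
  obtain ⟨s, hs⟩ := S.exists_tr hne (map_one σ)
  by_cases h1 : c1 = 0
  swap
  · exact good_at1 S B ⟨f1, f4, f10, map_zero σ, f16, f18, f21, f22, f23⟩ h1 h2
  subst h1
  by_cases h10 : c10 = 0
  swap
  · exact good_at10 S B ⟨map_zero σ, f4, f10, map_zero σ, f16, f18, f21, f22, f23⟩ h10 h2
  subst h10
  obtain ⟨d1, d4, d9, d10, d12, d13, d15, d16, d17, d18, d19, d20, d21, d22, d23, g, eq, sq, H⟩ :=
    S.step (u := 1) (e := D 40 43 s (σ s)) (one_mem _) (S.Q_mem f1 f4 f10 f13 f16 f18 f21 f22 f23)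
      (Q_mem_R σ _ _ _ _ _ _ _ _ _ _ _ _ _ _ _) (by simpa using h2) (S.mem_6 s) (D_norm (by decide) (by decide) _ _) (by simp)
  simp only [one_mul] at eq sq H
  refine H (good_at13 S B g ?_ sq)
  e6_coords_at eq
  grind

theorem good_at12 (B : Base σ q) {c1 c4 c9 c10 c12 c13 c15 c16 c17 c18 c19 c20 c21 c22 c23 : K}
    (f : σ c1 = c1 ∧ σ c4 = c4 ∧ σ c10 = c10 ∧ σ c13 = c13 ∧ σ c16 = c16 ∧ σ c18 = c18 ∧ σ c21 = c21 ∧ σ c22 = c22 ∧ σ c23 = c23)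
    (hne : c12 ≠ 0) (h2 : Q σ c1 c4 c9 c10 c12 c13 c15 c16 c17 c18 c19 c20 c21 c22 c23 * Q σ c1 c4 c9 c10 c12 c13 c15 c16 c17 c18 c19 c20 c21 c22 c23 = 1) :
    Good q (Q σ c1 c4 c9 c10 c12 c13 c15 c16 c17 c18 c19 c20 c21 c22 c23) := by
  have hi := S.invol
  obtain ⟨f1, f4, f10, f13, f16, f18, f21, f22, f23⟩ := f
  obtain ⟨d1, d4, d9, d10, d12, d13, d15, d16, d17, d18, d19, d20, d21, d22, d23, g, eq, sq, H⟩ :=
    S.step (u := 1) (e := w2) (one_mem _) (S.Q_mem f1 f4 f10 f13 f16 f18 f21 f22 f23)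
      (Q_mem_R σ _ _ _ _ _ _ _ _ _ _ _ _ _ _ _) (by simpa using h2) S.w2_mem w2_norm (by simp)
  simp only [one_mul] at eq sq H
  refine H (good_at9 S B g ?_ sq)
  have eq' := congrArg (· * w2⁻¹) eq
  simp only [mul_inv_cancel_right] at eq'
  simp only [Q, conj_mul', w2_1, w2_4, w2_9, w2_10, w2_12, w2_13, w2_15, w2_16, w2_17, w2_18, w2_19, w2_20, w2_21, w2_22, w2_23, hi] at eq'
  e6_coords_at eq'
  grind

theorem good_at15 (B : Base σ q) {c1 c4 c9 c10 c12 c13 c15 c16 c17 c18 c19 c20 c21 c22 c23 : K}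
    (f : σ c1 = c1 ∧ σ c4 = c4 ∧ σ c10 = c10 ∧ σ c13 = c13 ∧ σ c16 = c16 ∧ σ c18 = c18 ∧ σ c21 = c21 ∧ σ c22 = c22 ∧ σ c23 = c23)
    (hne : c15 ≠ 0) (h2 : Q σ c1 c4 c9 c10 c12 c13 c15 c16 c17 c18 c19 c20 c21 c22 c23 * Q σ c1 c4 c9 c10 c12 c13 c15 c16 c17 c18 c19 c20 c21 c22 c23 = 1) :
    Good q (Q σ c1 c4 c9 c10 c12 c13 c15 c16 c17 c18 c19 c20 c21 c22 c23) := by
  have hi := S.invol
  obtain ⟨f1, f4, f10, f13, f16, f18, f21, f22, f23⟩ := f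
  obtain ⟨d1, d4, d9, d10, d12, d13, d15, d16, d17, d18, d19, d20, d21, d22, d23, g, eq, sq, H⟩ :=
    S.step (u := 1) (e := w3) (one_mem _) (S.Q_mem f1 f4 f10 f13 f16 f18 f21 f22 f23)
      (Q_mem_R σ _ _ _ _ _ _ _ _ _ _ _ _ _ _ _) (by simpa using h2) S.w3_mem w3_norm (by simp)
  simp only [one_mul] at eq sq H
  refine H (good_at12 S B g ?_ sq)
  have eq' := congrArg (· * w3⁻¹) eq
  simp only [mul_inv_cancel_right] at eq'
  simp only [Q, conj_mul', w3_1, w3_4, w3_9, w3_10, w3_12, w3_13, w3_15, w3_16, w3_17, w3_18, w3_19, w3_20, w3_21, w3_22, w3_23, hi] at eq'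
  e6_coords_at eq'
  grind

theorem good_at17 (B : Base σ q) {c1 c4 c9 c10 c12 c13 c15 c16 c17 c18 c19 c20 c21 c22 c23 : K}
    (f : σ c1 = c1 ∧ σ c4 = c4 ∧ σ c10 = c10 ∧ σ c13 = c13 ∧ σ c16 = c16 ∧ σ c18 = c18 ∧ σ c21 = c21 ∧ σ c22 = c22 ∧ σ c23 = c23)
    (hne : c17 ≠ 0) (h2 : Q σ c1 c4 c9 c10 c12 c13 c15 c16 c17 c18 c19 c20 c21 c22 c23 * Q σ c1 c4 c9 c10 c12 c13 c15 c16 c17 c18 c19 c20 c21 c22 c23 = 1) :
    Good q (Q σ c1 c4 c9 c10 c12 c13 c15 c16 c17 c18 c19 c20 c21 c22 c23) := by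
  have hi := S.invol
  obtain ⟨f1, f4, f10, f13, f16, f18, f21, f22, f23⟩ := f
  obtain ⟨d1, d4, d9, d10, d12, d13, d15, d16, d17, d18, d19, d20, d21, d22, d23, g, eq, sq, H⟩ :=
    S.step (u := 1) (e := w0) (one_mem _) (S.Q_mem f1 f4 f10 f13 f16 f18 f21 f22 f23)
      (Q_mem_R σ _ _ _ _ _ _ _ _ _ _ _ _ _ _ _) (by simpa using h2) S.w0_mem w0_norm (by simp)
  simp only [one_mul] at eq sq H
  refine H (good_at15 S B g ?_ sq)
  have eq' := congrArg (· * w0⁻¹) eq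
  simp only [mul_inv_cancel_right] at eq'
  simp only [Q, conj_mul', w0_1, w0_4, w0_9, w0_10, w0_12, w0_13, w0_15, w0_16, w0_17, w0_18, w0_19, w0_20, w0_21, w0_22, w0_23, hi] at eq'
  e6_coords_at eq'
  grind

theorem good_at19 (B : Base σ q) {c1 c4 c9 c10 c12 c13 c15 c16 c17 c18 c19 c20 c21 c22 c23 : K}
    (f : σ c1 = c1 ∧ σ c4 = c4 ∧ σ c10 = c10 ∧ σ c13 = c13 ∧ σ c16 = c16 ∧ σ c18 = c18 ∧ σ c21 = c21 ∧ σ c22 = c22 ∧ σ c23 = c23)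
    (hne : c19 ≠ 0) (h2 : Q σ c1 c4 c9 c10 c12 c13 c15 c16 c17 c18 c19 c20 c21 c22 c23 * Q σ c1 c4 c9 c10 c12 c13 c15 c16 c17 c18 c19 c20 c21 c22 c23 = 1) :
    Good q (Q σ c1 c4 c9 c10 c12 c13 c15 c16 c17 c18 c19 c20 c21 c22 c23) := by
  have hi := S.invol
  obtain ⟨f1, f4, f10, f13, f16, f18, f21, f22, f23⟩ := f
  obtain ⟨d1, d4, d9, d10, d12, d13, d15, d16, d17, d18, d19, d20, d21, d22, d23, g, eq, sq, H⟩ :=
    S.step (u := 1) (e := w3) (one_mem _) (S.Q_mem f1 f4 f10 f13 f16 f18 f21 f22 f23)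
      (Q_mem_R σ _ _ _ _ _ _ _ _ _ _ _ _ _ _ _) (by simpa using h2) S.w3_mem w3_norm (by simp)
  simp only [one_mul] at eq sq H
  refine H (good_at17 S B g ?_ sq)
  have eq' := congrArg (· * w3⁻¹) eq
  simp only [mul_inv_cancel_right] at eq'
  simp only [Q, conj_mul', w3_1, w3_4, w3_9, w3_10, w3_12, w3_13, w3_15, w3_16, w3_17, w3_18, w3_19, w3_20, w3_21, w3_22, w3_23, hi] at eq'
  e6_coords_at eq'
  grind

theorem good_at20 (B : Base σ q) {c1 c4 c9 c10 c12 c13 c15 c16 c17 c18 c19 c20 c21 c22 c23 : K}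
    (f : σ c1 = c1 ∧ σ c4 = c4 ∧ σ c10 = c10 ∧ σ c13 = c13 ∧ σ c16 = c16 ∧ σ c18 = c18 ∧ σ c21 = c21 ∧ σ c22 = c22 ∧ σ c23 = c23)
    (hne : c20 ≠ 0) (h2 : Q σ c1 c4 c9 c10 c12 c13 c15 c16 c17 c18 c19 c20 c21 c22 c23 * Q σ c1 c4 c9 c10 c12 c13 c15 c16 c17 c18 c19 c20 c21 c22 c23 = 1) :
    Good q (Q σ c1 c4 c9 c10 c12 c13 c15 c16 c17 c18 c19 c20 c21 c22 c23) := by
  have hi := S.invol
  obtain ⟨f1, f4, f10, f13, f16, f18, f21, f22, f23⟩ := f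
  obtain ⟨d1, d4, d9, d10, d12, d13, d15, d16, d17, d18, d19, d20, d21, d22, d23, g, eq, sq, H⟩ :=
    S.step (u := 1) (e := w2) (one_mem _) (S.Q_mem f1 f4 f10 f13 f16 f18 f21 f22 f23)
      (Q_mem_R σ _ _ _ _ _ _ _ _ _ _ _ _ _ _ _) (by simpa using h2) S.w2_mem w2_norm (by simp)
  simp only [one_mul] at eq sq H
  refine H (good_at19 S B g ?_ sq)
  have eq' := congrArg (· * w2⁻¹) eq
  simp only [mul_inv_cancel_right] at eq'
  simp only [Q, conj_mul', w2_1, w2_4, w2_9, w2_10, w2_12, w2_13, w2_15, w2_16, w2_17, w2_18, w2_19, w2_20, w2_21, w2_22, w2_23, hi] at eq'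
  e6_coords_at eq'
  grind

/-- An involution of the radical is good. -/
theorem good_radical (B : Base σ q) {v : GL chevE6.Idx K} (hv : v ∈ twistedE6 K q) (hvR : v ∈ R K)
    (h2 : v * v = 1) : Good q v := by
  obtain ⟨c1, c4, c9, c10, c12, c13, c15, c16, c17, c18, c19, c20, c21, c22, c23, f, rfl⟩ := S.exists_Q hv hvR
  by_cases e1 : c1 = 0
  swap
  · exact good_at1 S B f e1 h2
  by_cases e4 : c4 = 0
  swap
  · exact good_at4 S B f e4 h2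
  by_cases e10 : c10 = 0
  swap
  · exact good_at10 S B f e10 h2
  by_cases e13 : c13 = 0
  swap
  · exact good_at13 S B f e13 h2
  by_cases e16 : c16 = 0
  swap
  · exact good_at16 S B f e16 h2
  by_cases e18 : c18 = 0
  swap
  · exact good_at18 S B f e18 h2
  by_cases e21 : c21 = 0
  swap
  · exact good_at21 S B f e21 h2
  by_cases e22 : c22 = 0
  swap
  · exact good_at22 S B f e22 h2
  by_cases e9 : c9 = 0
  swap
  · exact good_at9 S B f e9 h2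
  by_cases e12 : c12 = 0
  swap
  · exact good_at12 S B f e12 h2
  by_cases e15 : c15 = 0
  swap
  · exact good_at15 S B f e15 h2
  by_cases e17 : c17 = 0
  swap
  · exact good_at17 S B f e17 h2
  by_cases e19 : c19 = 0
  swap
  · exact good_at19 S B f e19 h2
  by_cases e20 : c20 = 0
  swap
  · exact good_at20 S B f e20 h2
  subst e1 e4 e10 e13 e16 e18 e21 e22 e9 e12 e15 e17 e19 e20
  obtain ⟨-, -, -, -, -, -, -, -, f23⟩ := f
  by_cases e23 : c23 = 0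
  · subst e23
    exact Or.inl (by simp [Q, D_zero, xG_zero])
  · simpa [Q, D_zero, xG_zero] using B.z c23 f23 e23

end CfsgLib.TwistedE6Involutions
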