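import Cfsg.Agent.Lib.TwistedE6Involutions.Cases

/-!
`²E₆(q)`, `q` even: involutions of `U¹` with non-trivial Levi component.
-/

set_option autoImplicit false
set_option linter.all false
set_option maxRecDepth 20000
set_option maxHeartbeats 2000000

namespace CfsgLib.TwistedE6Involutions

open Cfsg.Lie CfsgLib.Chevalley CfsgLib.Twisted

variable {K : Type*} [Field K] [CharP K 2] {σ : K →+* K} {q : ℕ} (S : Setting σ q)

include S

theorem in_R_comm {u e : GL chevE6.Idx K} (hn : ∀ w ∈ R K, u⁻¹ * w * u ∈ R K) (he : e ∈ R K) :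
    u⁻¹ * e * u * e⁻¹ ∈ R K :=
  mul_mem (hn e he) (inv_mem he)

theorem UL_norm_inv (a b c d e f g h i : K) :
    ∀ w ∈ R K, (UL σ a b c d e f g h i)⁻¹ * w * UL σ a b c d e f g h i ∈ R K := by
  intro w hw
  have := S.finite
  have hfin : IsOfFinOrder (UL σ a b c d e f g h i) := isOfFinOrder_of_finite _
  obtain ⟨n, hn⟩ : ∃ n : ℕ, (UL σ a b c d e f g h i)⁻¹ = UL σ a b c d e f g h i ^ n :=
    ⟨orderOf (UL σ a b c d e f g h i) - 1, inv_eq_of_mul_eq_one_left (by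
      rw [← pow_succ, Nat.sub_add_cancel hfin.orderOf_pos, pow_orderOf_eq_one])⟩
  have key : ∀ k : ℕ, UL σ a b c d e f g h i ^ k * w * (UL σ a b c d e f g h i ^ k)⁻¹ ∈ R K := by
    intro k
    induction k with
    | zero => simpa using hw
    | succ k ih =>
      have := UL_norm σ a b c d e f g h i _ ih
      rw [pow_succ']
      rwa [show ∀ x y : GL chevE6.Idx K, x * (y * w * y⁻¹) * x⁻¹ = x * y * w * (x * y)⁻¹ from fun x y => by group] at this
  have := key n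
  rwa [← hn, inv_inv] at this

theorem good_one_long (B : Base σ q) {a : K} (ha : σ a = a) (h0 : a ≠ 0) : Over q (UL σ 0 0 0 0 0 0 0 0 a) := by
  have hi := S.invol
  have hu := S.UL_mem (c2 := 0) (c3 := 0) (c5 := 0) (c6 := 0) (c8 := 0) (c11 := 0) (map_zero σ) (map_zero σ) ha
  have hlev := fun w hw => UL_norm_inv S 0 0 0 0 0 0 0 0 a w hw
  intro v hv hvR h2
  obtain ⟨c1, c4, c9, c10, c12, c13, c15, c16, c17, c18, c19, c20, c21, c22, c23, ⟨f1, f4, f10, f13, f16, f18, f21, f22, f23⟩, rfl⟩ := S.exists_Q hv hvR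
  have hs := h2
  e6_coords_at hs
  obtain rfl : c1 = 0 := by grind
  obtain rfl : c4 = 0 := by grind
  obtain rfl : c9 = 0 := by grind
  obtain rfl : c10 = 0 := by grind
  obtain rfl : c13 = 0 := by grind
  clear hs
  obtain ⟨d1, d4, d9, d10, d12, d13, d15, d16, d17, d18, d19, d20, d21, d22, d23, ⟨g1, g4, g10, g13, g16, g18, g21, g22, g23⟩, eq, sq, H⟩ :=
    S.step (e := Q σ (c16 / a) (c18 / a) (c20 / a) (c21 / a) 0 (c22 / a) 0 0 0 0 0 0 0 0 0) hu hv hvR h2
      (S.Q_mem (by rw [map_div₀, f16, ha]) (by rw [map_div₀, f18, ha]) (by rw [map_div₀, f21, ha])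
        (by rw [map_div₀, f22, ha]) (map_zero σ) (map_zero σ) (map_zero σ) (map_zero σ) (map_zero σ))
      (fun w hw => mul_mem (mul_mem (Q_mem_R σ _ _ _ _ _ _ _ _ _ _ _ _ _ _ _) hw) (inv_mem (Q_mem_R σ _ _ _ _ _ _ _ _ _ _ _ _ _ _ _)))
      (in_R_comm S hlev (Q_mem_R σ _ _ _ _ _ _ _ _ _ _ _ _ _ _ _))
  refine H ?_
  have k16 : a * (c16 / a) = c16 := mul_div_cancel₀ _ h0
  have k18 : a * (c18 / a) = c18 := mul_div_cancel₀ _ h0
  have k20 : a * (c20 / a) = c20 := mul_div_cancel₀ _ h0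
  have k21 : a * (c21 / a) = c21 := mul_div_cancel₀ _ h0
  have k22 : a * (c22 / a) = c22 := mul_div_cancel₀ _ h0
  generalize c16 / a = s16 at eq k16
  generalize c18 / a = s18 at eq k18
  generalize c20 / a = s20 at eq k20
  generalize c21 / a = s21 at eq k21
  generalize c22 / a = s22 at eq k22
  e6_coords_at eq
  obtain rfl : d1 = 0 := by grind
  obtain rfl : d4 = 0 := by grind
  obtain rfl : d9 = 0 := by grind
  obtain rfl : d10 = 0 := by grind
  obtain rfl : d13 = 0 := by grind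
  obtain rfl : d16 = 0 := by grind
  obtain rfl : d18 = 0 := by grind
  obtain rfl : d20 = 0 := by grind
  obtain rfl : d21 = 0 := by grind
  obtain rfl : d22 = 0 := by grind
  clear eq k16 k18 k20 k21 k22 H h2 hv hvR
  revert sq
  -- four remaining short coordinates
  have at12 : ∀ x y z t w : K, σ w = w → x ≠ 0 →
      UL σ 0 0 0 0 0 0 0 0 a * Q σ 0 0 0 0 x 0 y 0 z 0 t 0 0 0 w *
        (UL σ 0 0 0 0 0 0 0 0 a * Q σ 0 0 0 0 x 0 y 0 z 0 t 0 0 0 w) = 1 →
      Good q (UL σ 0 0 0 0 0 0 0 0 a * Q σ 0 0 0 0 x 0 y 0 z 0 t 0 0 0 w) := by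
    intro x y z t w hw hx h2
    have hv := S.Q_mem (c9 := 0) (c12 := x) (c15 := y) (c17 := z) (c19 := t) (c20 := 0) (map_zero σ) (map_zero σ)
      (map_zero σ) (map_zero σ) (map_zero σ) (map_zero σ) (map_zero σ) (map_zero σ) hw
    obtain ⟨d1, d4, d9, d10, d12, d13, d15, d16, d17, d18, d19, d20, d21, d22, d23, ⟨g1, g4, g10, g13, g16, g18, g21, g22, g23⟩, eq, sq, H⟩ :=
      S.step (e := UL σ 0 (σ (y / x)) 0 0 (σ (z / x)) 0 0 0 0) hu hv (Q_mem_R σ _ _ _ _ _ _ _ _ _ _ _ _ _ _ _) h2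
        (S.UL_mem (map_zero σ) (map_zero σ) (map_zero σ)) (UL_norm σ _ _ _ _ _ _ _ _ _) (by
          have c : ∀ s r : K, UL σ 0 s 0 0 r 0 0 0 0 * UL σ 0 0 0 0 0 0 0 0 a = UL σ 0 0 0 0 0 0 0 0 a * UL σ 0 s 0 0 r 0 0 0 0 := by
            intro s r
            simp only [UL, map_zero]
            refine mul_right_cancel (b := padding) ?_
            simp only [padding]
            e6_norm
          rw [mul_assoc _ (UL σ 0 _ 0 0 _ 0 0 0 0), c, inv_mul_cancel_left, mul_inv_cancel]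
          exact one_mem _)
    refine H ?_
    have ky : x * (y / x) = y := mul_div_cancel₀ _ hx
    have kz : x * (z / x) = z := mul_div_cancel₀ _ hx
    generalize y / x = sy at eq ky
    generalize z / x = sz at eq kz
    e6_coords_at eq
    obtain rfl : d1 = 0 := by grind
    obtain rfl : d4 = 0 := by grind
    obtain rfl : d9 = 0 := by grind
    obtain rfl : d10 = 0 := by grind
    obtain rfl : d13 = 0 := by grind
    obtain rfl : d15 = 0 := by grind
    obtain rfl : d16 = 0 := by grind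
    obtain rfl : d17 = 0 := by grind
    obtain rfl : d18 = 0 := by grind
    obtain rfl : d20 = 0 := by grind
    obtain rfl : d21 = 0 := by grind
    obtain rfl : d22 = 0 := by grind
    obtain rfl : d12 = x := by grind
    clear eq ky kz H
    have hs := sq
    e6_coords_at hs
    have et : d12 * σ d19 + σ d12 * d19 = 0 := by grind
    clear hs sq
    -- remove the last short coordinate
    have hl : σ (d19 / d12) = d19 / d12 := by
      rw [map_div₀, div_eq_div_iff ((map_ne_zero σ).2 hx) hx]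
      grind
    have e1 : d19 / d12 * d12 = d19 := div_mul_cancel₀ _ hx
    generalize d19 / d12 = s at e1 hl
    subst e1
    refine Good.of_rel (y := UL σ 0 0 0 0 0 0 0 0 a * Q σ 0 0 0 0 d12 0 0 0 0 0 0 0 0 0 (d23 + s * (d12 * σ d12)))
      (rel_of_eq (S.mem_7 hl) ?_) ?_
    · e6_eq <;> (try simp only [map_add, map_mul, hi]) <;> grind
    have gz : σ (d23 + s * (d12 * σ d12)) = d23 + s * (d12 * σ d12) := by
      simp only [map_add, map_mul, hi, g23, hl]; ring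
    generalize d23 + s * (d12 * σ d12) = z0 at gz
    obtain ⟨r, hr⟩ := S.exists_tr hx gz
    refine Good.of_rel (rel_of_eq (y := UL σ 0 0 0 0 0 0 0 0 a * Q σ 0 0 0 0 d12 0 0 0 0 0 0 0 0 0 0) (S.mem_19 r) ?_) ?_
    · e6_eq <;> grind
    simpa [UL, Q, D_zero, xG_zero] using B.bs a d12 ha h0 hx
  have comm3 : ∀ x : GL chevE6.Idx K, w3 * (UL σ 0 0 0 0 0 0 0 0 a * x) * w3⁻¹ = UL σ 0 0 0 0 0 0 0 0 a * (w3 * x * w3⁻¹) := by
    intro x
    rw [conj_mul']
    simp only [UL, map_zero, D_zero, xG_zero, one_mul, mul_one, w3_14]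
  have comm0 : ∀ x : GL chevE6.Idx K, w0 * (UL σ 0 0 0 0 0 0 0 0 a * x) * w0⁻¹ = UL σ 0 0 0 0 0 0 0 0 a * (w0 * x * w0⁻¹) := by
    intro x
    rw [conj_mul']
    simp only [UL, map_zero, D_zero, xG_zero, one_mul, mul_one, w0_14]
  have at15 : ∀ x y z t w : K, σ w = w → y ≠ 0 →
      UL σ 0 0 0 0 0 0 0 0 a * Q σ 0 0 0 0 x 0 y 0 z 0 t 0 0 0 w *
        (UL σ 0 0 0 0 0 0 0 0 a * Q σ 0 0 0 0 x 0 y 0 z 0 t 0 0 0 w) = 1 →
      Good q (UL σ 0 0 0 0 0 0 0 0 a * Q σ 0 0 0 0 x 0 y 0 z 0 t 0 0 0 w) := by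
    intro x y z t w hw hk h2
    have hv := S.Q_mem (c9 := 0) (c12 := x) (c15 := y) (c17 := z) (c19 := t) (c20 := 0) (map_zero σ) (map_zero σ)
      (map_zero σ) (map_zero σ) (map_zero σ) (map_zero σ) (map_zero σ) (map_zero σ) hw
    obtain ⟨d1, d4, d9, d10, d12, d13, d15, d16, d17, d18, d19, d20, d21, d22, d23, ⟨g1, g4, g10, g13, g16, g18, g21, g22, g23⟩, eq, sq, H⟩ :=
      S.step (e := w3) hu hv (Q_mem_R σ _ _ _ _ _ _ _ _ _ _ _ _ _ _ _) h2 S.w3_mem w3_norm (by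
        have e := comm3 1
        simp only [mul_one, mul_inv_cancel, mul_assoc] at e
        rw [mul_assoc, mul_assoc, e, inv_mul_cancel]
        exact one_mem _)
    refine H ?_
    have eq' := congrArg (· * w3⁻¹) eq
    simp only [mul_inv_cancel_right] at eq'
    rw [comm3, mul_left_cancel_iff] at eq'
    simp only [Q, map_zero, D_zero, xG_zero, one_mul, mul_one, conj_mul', w3_12, w3_15, w3_17, w3_19, w3_23, hi] at eq'
    e6_coords_at eq'
    obtain rfl : d1 = 0 := by grind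
    obtain rfl : d4 = 0 := by grind
    obtain rfl : d9 = 0 := by grind
    obtain rfl : d10 = 0 := by grind
    obtain rfl : d13 = 0 := by grind
    obtain rfl : d16 = 0 := by grind
    obtain rfl : d18 = 0 := by grind
    obtain rfl : d20 = 0 := by grind
    obtain rfl : d21 = 0 := by grind
    obtain rfl : d22 = 0 := by grind
    refine at12 _ _ _ _ _ g23 (by grind) sq
  have at17 : ∀ x y z t w : K, σ w = w → z ≠ 0 →
      UL σ 0 0 0 0 0 0 0 0 a * Q σ 0 0 0 0 x 0 y 0 z 0 t 0 0 0 w *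
        (UL σ 0 0 0 0 0 0 0 0 a * Q σ 0 0 0 0 x 0 y 0 z 0 t 0 0 0 w) = 1 →
      Good q (UL σ 0 0 0 0 0 0 0 0 a * Q σ 0 0 0 0 x 0 y 0 z 0 t 0 0 0 w) := by
    intro x y z t w hw hk h2
    have hv := S.Q_mem (c9 := 0) (c12 := x) (c15 := y) (c17 := z) (c19 := t) (c20 := 0) (map_zero σ) (map_zero σ)
      (map_zero σ) (map_zero σ) (map_zero σ) (map_zero σ) (map_zero σ) (map_zero σ) hw
    obtain ⟨d1, d4, d9, d10, d12, d13, d15, d16, d17, d18, d19, d20, d21, d22, d23, ⟨g1, g4, g10, g13, g16, g18, g21, g22, g23⟩, eq, sq, H⟩ :=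
      S.step (e := w0) hu hv (Q_mem_R σ _ _ _ _ _ _ _ _ _ _ _ _ _ _ _) h2 S.w0_mem w0_norm (by
        have e := comm0 1
        simp only [mul_one, mul_inv_cancel, mul_assoc] at e
        rw [mul_assoc, mul_assoc, e, inv_mul_cancel]
        exact one_mem _)
    refine H ?_
    have eq' := congrArg (· * w0⁻¹) eq
    simp only [mul_inv_cancel_right] at eq'
    rw [comm0, mul_left_cancel_iff] at eq'
    simp only [Q, map_zero, D_zero, xG_zero, one_mul, mul_one, conj_mul', w0_12, w0_15, w0_17, w0_19, w0_23, hi] at eq'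
    e6_coords_at eq'
    obtain rfl : d1 = 0 := by grind
    obtain rfl : d4 = 0 := by grind
    obtain rfl : d9 = 0 := by grind
    obtain rfl : d10 = 0 := by grind
    obtain rfl : d13 = 0 := by grind
    obtain rfl : d16 = 0 := by grind
    obtain rfl : d18 = 0 := by grind
    obtain rfl : d20 = 0 := by grind
    obtain rfl : d21 = 0 := by grind
    obtain rfl : d22 = 0 := by grind
    refine at15 _ _ _ _ _ g23 (by grind) sq
  have at19 : ∀ x y z t w : K, σ w = w → t ≠ 0 →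
      UL σ 0 0 0 0 0 0 0 0 a * Q σ 0 0 0 0 x 0 y 0 z 0 t 0 0 0 w *
        (UL σ 0 0 0 0 0 0 0 0 a * Q σ 0 0 0 0 x 0 y 0 z 0 t 0 0 0 w) = 1 →
      Good q (UL σ 0 0 0 0 0 0 0 0 a * Q σ 0 0 0 0 x 0 y 0 z 0 t 0 0 0 w) := by
    intro x y z t w hw hk h2
    have hv := S.Q_mem (c9 := 0) (c12 := x) (c15 := y) (c17 := z) (c19 := t) (c20 := 0) (map_zero σ) (map_zero σ)
      (map_zero σ) (map_zero σ) (map_zero σ) (map_zero σ) (map_zero σ) (map_zero σ) hw
    obtain ⟨d1, d4, d9, d10, d12, d13, d15, d16, d17, d18, d19, d20, d21, d22, d23, ⟨g1, g4, g10, g13, g16, g18, g21, g22, g23⟩, eq, sq, H⟩ :=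
      S.step (e := w3) hu hv (Q_mem_R σ _ _ _ _ _ _ _ _ _ _ _ _ _ _ _) h2 S.w3_mem w3_norm (by
        have e := comm3 1
        simp only [mul_one, mul_inv_cancel, mul_assoc] at e
        rw [mul_assoc, mul_assoc, e, inv_mul_cancel]
        exact one_mem _)
    refine H ?_
    have eq' := congrArg (· * w3⁻¹) eq
    simp only [mul_inv_cancel_right] at eq'
    rw [comm3, mul_left_cancel_iff] at eq'
    simp only [Q, map_zero, D_zero, xG_zero, one_mul, mul_one, conj_mul', w3_12, w3_15, w3_17, w3_19, w3_23, hi] at eq'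
    e6_coords_at eq'
    obtain rfl : d1 = 0 := by grind
    obtain rfl : d4 = 0 := by grind
    obtain rfl : d9 = 0 := by grind
    obtain rfl : d10 = 0 := by grind
    obtain rfl : d13 = 0 := by grind
    obtain rfl : d16 = 0 := by grind
    obtain rfl : d18 = 0 := by grind
    obtain rfl : d20 = 0 := by grind
    obtain rfl : d21 = 0 := by grind
    obtain rfl : d22 = 0 := by grind
    refine at17 _ _ _ _ _ g23 (by grind) sq
  intro sq
  by_cases e12 : d12 = 0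
  swap
  · exact at12 _ _ _ _ _ g23 e12 sq
  by_cases e15 : d15 = 0
  swap
  · exact at15 _ _ _ _ _ g23 e15 sq
  by_cases e17 : d17 = 0
  swap
  · exact at17 _ _ _ _ _ g23 e17 sq
  by_cases e19 : d19 = 0
  swap
  · exact at19 _ _ _ _ _ g23 e19 sq
  subst e12 e15 e17 e19
  by_cases e23 : d23 = 0
  · subst e23
    simpa [UL, Q, D_zero, xG_zero] using B.b a ha h0
  · simpa [UL, Q, D_zero, xG_zero] using B.bz a d23 ha g23 h0 e23

theorem good_two_long (B : Base σ q) {m h : K} (hm : σ m = m) (hh : σ h = h) (m0 : m ≠ 0) (h0 : h ≠ 0) :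
    Over q (UL σ 0 0 0 0 0 m 0 0 h) := by
  have hi := S.invol
  have hu := S.UL_mem (c2 := 0) (c3 := 0) (c5 := 0) (c6 := 0) (c8 := 0) (c11 := 0) (map_zero σ) hm hh
  have hlev := fun w hw => UL_norm_inv S 0 0 0 0 0 m 0 0 h w hw
  intro v hv hvR h2
  obtain ⟨c1, c4, c9, c10, c12, c13, c15, c16, c17, c18, c19, c20, c21, c22, c23, ⟨f1, f4, f10, f13, f16, f18, f21, f22, f23⟩, rfl⟩ := S.exists_Q hv hvR
  have hs := h2
  e6_coords_at hs
  obtain rfl : c1 = 0 := by grind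
  obtain rfl : c4 = 0 := by grind
  obtain rfl : c12 = 0 := by grind
  obtain rfl : c9 = 0 := by grind
  have r21 : h * c10 + m * c16 = 0 := by grind
  have r22 : h * c13 + m * c18 = 0 := by grind
  clear hs
  obtain ⟨d1, d4, d9, d10, d12, d13, d15, d16, d17, d18, d19, d20, d21, d22, d23, ⟨g1, g4, g10, g13, g16, g18, g21, g22, g23⟩, eq, sq, H⟩ :=
    S.step (e := Q σ (c10 / m) (c13 / m) (c20 / h) 0 (c19 / m) 0 0 0 0 0 0 0 0 0 0) hu hv hvR h2
      (S.Q_mem (by rw [map_div₀, f10, hm]) (by rw [map_div₀, f13, hm]) (map_zero σ) (map_zero σ) (map_zero σ) (map_zero σ) (map_zero σ) (map_zero σ) (map_zero σ))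
      (fun w hw => mul_mem (mul_mem (Q_mem_R σ _ _ _ _ _ _ _ _ _ _ _ _ _ _ _) hw) (inv_mem (Q_mem_R σ _ _ _ _ _ _ _ _ _ _ _ _ _ _ _)))
      (in_R_comm S hlev (Q_mem_R σ _ _ _ _ _ _ _ _ _ _ _ _ _ _ _))
  refine H ?_
  have k10 : m * (c10 / m) = c10 := mul_div_cancel₀ _ m0
  have k13 : m * (c13 / m) = c13 := mul_div_cancel₀ _ m0
  have k20 : h * (c20 / h) = c20 := mul_div_cancel₀ _ h0
  have k19 : m * (c19 / m) = c19 := mul_div_cancel₀ _ m0
  generalize c10 / m = s10 at eq k10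
  generalize c13 / m = s13 at eq k13
  generalize c20 / h = s20 at eq k20
  generalize c19 / m = s19 at eq k19
  e6_coords_at eq
  obtain rfl : d1 = 0 := by grind
  obtain rfl : d4 = 0 := by grind
  obtain rfl : d9 = 0 := by grind
  obtain rfl : d10 = 0 := by grind
  obtain rfl : d12 = 0 := by grind
  obtain rfl : d13 = 0 := by grind
  obtain rfl : d16 = 0 := by grind
  obtain rfl : d18 = 0 := by grind
  obtain rfl : d19 = 0 := by grind
  obtain rfl : d20 = 0 := by grind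
  clear eq k10 k13 k20 k19 H h2 hv hvR r21 r22
  clear f1 f4 f10 f13 f16 f18 f21 f22 f23
  -- remove 21, 22
  have k21 : h * (d21 / h) = d21 := mul_div_cancel₀ _ h0
  have k22 : h * (d22 / h) = d22 := mul_div_cancel₀ _ h0
  have hv := S.Q_mem (c9 := 0) (c12 := 0) (c15 := d15) (c17 := d17) (c19 := 0) (c20 := 0)
    g1 g4 g10 g13 g16 g18 g21 g22 g23
  obtain ⟨b1, b4, b9, b10, b12, b13, b15, b16, b17, b18, b19, b20, b21, b22, b23, ⟨p1, p4, p10, p13, p16, p18, p21, p22, p23⟩, eq, sq', H⟩ :=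
    S.step (e := Q σ 0 0 0 (d21 / h) 0 (d22 / h) 0 0 0 0 0 0 0 0 0) hu hv (Q_mem_R σ _ _ _ _ _ _ _ _ _ _ _ _ _ _ _) sq
      (S.Q_mem (map_zero σ) (map_zero σ) (by rw [map_div₀, g21, hh]) (by rw [map_div₀, g22, hh]) (map_zero σ) (map_zero σ) (map_zero σ) (map_zero σ) (map_zero σ))
      (fun w hw => mul_mem (mul_mem (Q_mem_R σ _ _ _ _ _ _ _ _ _ _ _ _ _ _ _) hw) (inv_mem (Q_mem_R σ _ _ _ _ _ _ _ _ _ _ _ _ _ _ _)))
      (in_R_comm S hlev (Q_mem_R σ _ _ _ _ _ _ _ _ _ _ _ _ _ _ _))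
  refine H ?_
  generalize d21 / h = s21 at eq k21
  generalize d22 / h = s22 at eq k22
  e6_coords_at eq
  obtain rfl : b1 = 0 := by grind
  obtain rfl : b4 = 0 := by grind
  obtain rfl : b9 = 0 := by grind
  obtain rfl : b10 = 0 := by grind
  obtain rfl : b12 = 0 := by grind
  obtain rfl : b13 = 0 := by grind
  obtain rfl : b16 = 0 := by grind
  obtain rfl : b18 = 0 := by grind
  obtain rfl : b19 = 0 := by grind
  obtain rfl : b20 = 0 := by grind
  obtain rfl : b21 = 0 := by grind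
  obtain rfl : b22 = 0 := by grind
  clear eq k21 k22 H sq hv
  have at15 : ∀ x y w : K, σ w = w → x ≠ 0 →
      UL σ 0 0 0 0 0 m 0 0 h * Q σ 0 0 0 0 0 0 x 0 y 0 0 0 0 0 w * (UL σ 0 0 0 0 0 m 0 0 h * Q σ 0 0 0 0 0 0 x 0 y 0 0 0 0 0 w) = 1 →
      Good q (UL σ 0 0 0 0 0 m 0 0 h * Q σ 0 0 0 0 0 0 x 0 y 0 0 0 0 0 w) := by
    intro x y w hw hx h2
    have hs := h2
    e6_coords_at hs
    have et : x * σ y + σ x * y = 0 := by grind
    clear hs h2
    have hl : σ (y / x) = y / x := by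
      rw [map_div₀, div_eq_div_iff ((map_ne_zero σ).2 hx) hx]
      grind
    have e1 : y / x * x = y := div_mul_cancel₀ _ hx
    generalize y / x = s at e1 hl
    subst e1
    refine Good.of_rel (y := UL σ 0 0 0 0 0 m 0 0 h * Q σ 0 0 0 0 0 0 x 0 0 0 0 0 0 0 (w + s * (x * σ x)))
      (rel_of_eq (S.mem_0 hl) ?_) ?_
    · e6_eq <;> (try simp only [map_add, map_mul, hi]) <;> grind
    have gz : σ (w + s * (x * σ x)) = w + s * (x * σ x) := by
      simp only [map_add, map_mul, hi, hw, hl]; ring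
    generalize w + s * (x * σ x) = z0 at gz
    obtain ⟨r, hr⟩ := S.exists_tr hx gz
    refine Good.of_rel (rel_of_eq (y := UL σ 0 0 0 0 0 m 0 0 h * Q σ 0 0 0 0 0 0 x 0 0 0 0 0 0 0 0) (S.mem_17 r) ?_) ?_
    · e6_eq <;> grind
    simpa [UL, Q, D_zero, xG_zero] using B.cs m h x hm hh m0 h0 hx
  by_cases e15 : b15 = 0
  swap
  · exact at15 _ _ _ p23 e15 sq'
  by_cases e17 : b17 = 0
  swap
  · subst e15
    have hc : UL σ 0 0 0 0 0 m 0 0 h * Q σ 0 0 0 0 0 0 0 0 b17 0 0 0 0 0 b23 = w0⁻¹ * (UL σ 0 0 0 0 0 m 0 0 h * Q σ 0 0 0 0 0 0 b17 0 0 0 0 0 0 0 b23) * w0 := by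
      rw [eq_comm, mul_assoc, inv_mul_eq_iff_eq_mul]
      refine (eq_mul_inv_iff_mul_eq.1 ?_).trans rfl
      simp only [UL, Q, map_zero, D_zero, xG_zero, one_mul, mul_one, conj_mul', w0_7, w0_14, w0_17, w0_23]
    have r : Rel q (UL σ 0 0 0 0 0 m 0 0 h * Q σ 0 0 0 0 0 0 0 0 b17 0 0 0 0 0 b23) (UL σ 0 0 0 0 0 m 0 0 h * Q σ 0 0 0 0 0 0 b17 0 0 0 0 0 0 0 b23) :=
      ⟨w0, S.w0_mem, by rw [hc]; group⟩
    exact Good.of_rel r (at15 _ _ _ p23 e17 (r.sq sq'))
  subst e15 e17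
  by_cases e23 : b23 = 0
  · subst e23
    simpa [UL, Q, D_zero, xG_zero] using B.cc m h hm hh m0 h0
  · simpa [UL, Q, D_zero, xG_zero] using B.cz m h b23 hm hh p23 m0 h0 e23

theorem good_three_long (B : Base σ q) {l m h : K} (hl : σ l = l) (hm : σ m = m) (hh : σ h = h) (l0 : l ≠ 0)
    (m0 : m ≠ 0) (h0 : h ≠ 0) : Over q (UL σ 0 0 0 l 0 m 0 0 h) := by
  have hi := S.invol
  have hu := S.UL_mem (c2 := 0) (c3 := 0) (c5 := 0) (c6 := 0) (c8 := 0) (c11 := 0) hl hm hh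
  have hlev := fun w hw => UL_norm_inv S 0 0 0 l 0 m 0 0 h w hw
  intro v hv hvR h2
  obtain ⟨c1, c4, c9, c10, c12, c13, c15, c16, c17, c18, c19, c20, c21, c22, c23, ⟨f1, f4, f10, f13, f16, f18, f21, f22, f23⟩, rfl⟩ := S.exists_Q hv hvR
  have hs := h2
  e6_coords_at hs
  obtain rfl : c1 = 0 := by grind
  obtain rfl : c15 = 0 := by grind
  obtain rfl : c12 = 0 := by grind
  obtain rfl : c9 = 0 := by grind
  have r13 : l * c10 + m * c4 = 0 := by grind
  have r18 : l * c16 + h * c4 = 0 := by grind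
  clear hs
  obtain ⟨d1, d4, d9, d10, d12, d13, d15, d16, d17, d18, d19, d20, d21, d22, d23, ⟨g1, g4, g10, g13, g16, g18, g21, g22, g23⟩, eq, sq, H⟩ :=
    S.step (e := Q σ (c4 / l) 0 (c20 / h) 0 (c19 / m) 0 (c17 / l) 0 0 0 0 0 0 0 0) hu hv hvR h2
      (S.Q_mem (by rw [map_div₀, f4, hl]) (map_zero σ) (map_zero σ) (map_zero σ) (map_zero σ) (map_zero σ) (map_zero σ) (map_zero σ) (map_zero σ))
      (fun w hw => mul_mem (mul_mem (Q_mem_R σ _ _ _ _ _ _ _ _ _ _ _ _ _ _ _) hw) (inv_mem (Q_mem_R σ _ _ _ _ _ _ _ _ _ _ _ _ _ _ _)))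
      (in_R_comm S hlev (Q_mem_R σ _ _ _ _ _ _ _ _ _ _ _ _ _ _ _))
  refine H ?_
  have k4 : l * (c4 / l) = c4 := mul_div_cancel₀ _ l0
  have k20 : h * (c20 / h) = c20 := mul_div_cancel₀ _ h0
  have k19 : m * (c19 / m) = c19 := mul_div_cancel₀ _ m0
  have k17 : l * (c17 / l) = c17 := mul_div_cancel₀ _ l0
  generalize c4 / l = s4 at eq k4
  generalize c20 / h = s20 at eq k20
  generalize c19 / m = s19 at eq k19
  generalize c17 / l = s17 at eq k17
  e6_coords_at eq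
  obtain rfl : d1 = 0 := by grind
  obtain rfl : d4 = 0 := by grind
  obtain rfl : d9 = 0 := by grind
  obtain rfl : d10 = 0 := by grind
  obtain rfl : d12 = 0 := by grind
  obtain rfl : d15 = 0 := by grind
  obtain rfl : d16 = 0 := by grind
  obtain rfl : d17 = 0 := by grind
  obtain rfl : d19 = 0 := by grind
  obtain rfl : d20 = 0 := by grind
  clear eq k4 k20 k19 k17 H h2 hv hvR r13 r18
  clear f1 f4 f10 f13 f16 f18 f21 f22 f23
  have hs := sq
  e6_coords_at hs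
  have r22 : l * d21 + h * d13 + m * d18 = 0 := by grind
  clear hs
  -- remove 13, 18, 21
  have k18 : h * (d18 / h) = d18 := mul_div_cancel₀ _ h0
  have k13 : l * ((d13 + m * (d18 / h)) / l) = d13 + m * (d18 / h) := mul_div_cancel₀ _ l0
  have hv := S.Q_mem (c9 := 0) (c12 := 0) (c15 := 0) (c17 := 0) (c19 := 0) (c20 := 0)
    g1 g4 g10 g13 g16 g18 g21 g22 g23
  obtain ⟨b1, b4, b9, b10, b12, b13, b15, b16, b17, b18, b19, b20, b21, b22, b23, ⟨p1, p4, p10, p13, p16, p18, p21, p22, p23⟩, eq, sq', H⟩ :=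
    S.step (e := Q σ 0 (d18 / h) 0 ((d13 + m * (d18 / h)) / l) 0 0 0 0 0 0 0 0 0 0 0) hu hv (Q_mem_R σ _ _ _ _ _ _ _ _ _ _ _ _ _ _ _) sq
      (S.Q_mem (map_zero σ) (by rw [map_div₀, g18, hh]) (by simp only [map_div₀, map_add, map_mul, g13, g18, hl, hm, hh]) (map_zero σ) (map_zero σ) (map_zero σ) (map_zero σ) (map_zero σ) (map_zero σ))
      (fun w hw => mul_mem (mul_mem (Q_mem_R σ _ _ _ _ _ _ _ _ _ _ _ _ _ _ _) hw) (inv_mem (Q_mem_R σ _ _ _ _ _ _ _ _ _ _ _ _ _ _ _)))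
      (in_R_comm S hlev (Q_mem_R σ _ _ _ _ _ _ _ _ _ _ _ _ _ _ _))
  refine H ?_
  generalize (d13 + m * (d18 / h)) / l = s13 at eq k13
  generalize d18 / h = s18 at eq k18 k13
  e6_coords_at eq
  obtain rfl : b1 = 0 := by grind
  obtain rfl : b4 = 0 := by grind
  obtain rfl : b9 = 0 := by grind
  obtain rfl : b10 = 0 := by grind
  obtain rfl : b12 = 0 := by grind
  obtain rfl : b13 = 0 := by grind
  obtain rfl : b15 = 0 := by grind
  obtain rfl : b16 = 0 := by grind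
  obtain rfl : b17 = 0 := by grind
  obtain rfl : b18 = 0 := by grind
  obtain rfl : b19 = 0 := by grind
  obtain rfl : b20 = 0 := by grind
  obtain rfl : b21 = 0 := by grind
  clear eq k13 k18 H sq hv r22
  have k22 : l * (b22 / l) = b22 := mul_div_cancel₀ _ l0
  have hl' : σ (b22 / l) = b22 / l := by rw [map_div₀, p22, hl]
  generalize b22 / l = s at k22 hl'
  subst k22
  refine Good.of_rel (y := UL σ 0 0 0 l 0 m 0 0 h * Q σ 0 0 0 0 0 0 0 0 0 0 0 0 0 0 b23) (rel_of_eq (S.mem_21 hl') ?_) ?_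
  · simp only [UL, Q, map_zero]; refine mul_right_cancel (b := padding) ?_; simp only [padding]; e6_norm
  by_cases e23 : b23 = 0
  · subst e23
    simpa [UL, Q, D_zero, xG_zero] using B.dd l m h hl hm hh l0 m0 h0
  · simpa [UL, Q, D_zero, xG_zero] using B.dz l m h b23 hl hm hh p23 l0 m0 h0 e23

/-- Every involution is conjugate to a representative. -/
theorem good_of_involution (B : Base σ q) {g : GL chevE6.Idx K} (hg : g ∈ twistedE6 K q) (h2 : g * g = 1) :
    Good q g := by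
  obtain ⟨x, hx, hxU⟩ := S.exists_conj hg h2
  have r : Rel q g (x * g * x⁻¹) := ⟨x, hx, rfl⟩
  refine Good.of_rel r ?_
  have hy := S.conj_mem hx hg
  have h2' := r.sq h2
  generalize x * g * x⁻¹ = y at hy h2' hxU ⊢
  obtain ⟨c2, c3, c5, c0, c6, c7, c8, c11, c14, c1, c4, c9, c10, c12, c13, c15, c16, c17, c18, c19, c20, c21, c22, c23, ⟨e0, e7, e14, e1, e4, e10, e13, e16, e18, e21, e22, e23⟩, rfl⟩ :=
    S.exists_N hy hxU
  refine over_levi S (fun a ha h0 => good_one_long S B ha h0)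
    (fun m h hm hh m0 h0 => good_two_long S B hm hh m0 h0)
    (fun l m h hl hm hh l0 m0 h0 => good_three_long S B hl hm hh l0 m0 h0)
    (fun v hv hvR h => by
      rw [one_mul] at h ⊢
      exact good_radical S B hv hvR h)
    e0 e7 e14 _ (S.Q_mem e1 e4 e10 e13 e16 e18 e21 e22 e23) (Q_mem_R σ _ _ _ _ _ _ _ _ _ _ _ _ _ _ _) h2'

end CfsgLib.TwistedE6Involutions
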