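import Cfsg.Agent.Lib.TwistedE6Involutions.Ranks

/-!
`²E₆(q)`, `q` even: counting the classes of involutions.
-/

set_option autoImplicit false
set_option linter.all false
set_option maxRecDepth 20000
set_option maxHeartbeats 1000000

namespace CfsgLib.TwistedE6Involutions

open Cfsg.Lie CfsgLib.Chevalley CfsgLib.Twisted

variable {K : Type*} [Field K] [CharP K 2]

variable {σ : K →+* K} {q : ℕ} (S : Setting σ q)

include S

theorem Setting.rep1_mem : (rep1 : GL chevE6.Idx K) ∈ twistedE6 K q := S.mem_23 (map_one σ)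

theorem Setting.rep2_mem : (rep2 : GL chevE6.Idx K) ∈ twistedE6 K q := by
  simpa [rep2] using S.mem_20 1

theorem Setting.rep3_mem : (rep3 : GL chevE6.Idx K) ∈ twistedE6 K q := by
  simpa [rep3] using mul_mem (S.mem_18 (map_one σ)) (S.mem_19 1)

theorem Setting.rep_sq : (rep1 : GL chevE6.Idx K) * rep1 = 1 ∧ (rep2 : GL chevE6.Idx K) * rep2 = 1 ∧
    (rep3 : GL chevE6.Idx K) * rep3 = 1 := by
  refine ⟨?_, ?_, ?_⟩ <;> simp only [rep1, rep2, rep3] <;> e6_close

theorem ncard_twistedE6 :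
    (ConjClasses.mk '' {g : ↥(twistedE6 K q) | orderOf g = 2}).ncard = 3 := by
  classical
  set H := twistedE6 K q with hH
  let a : H := ⟨rep1, S.rep1_mem⟩
  let b : H := ⟨rep2, S.rep2_mem⟩
  let c : H := ⟨rep3, S.rep3_mem⟩
  have hord : ∀ g : H, orderOf g = 2 ↔
      (g : GL chevE6.Idx K) * (g : GL chevE6.Idx K) = 1 ∧ (g : GL chevE6.Idx K) ≠ 1 := by
    intro g
    rw [orderOf_eq_prime_iff (hp := ⟨Nat.prime_two⟩), pow_two]
    exact and_congr ⟨fun h => congrArg Subtype.val h, fun h => Subtype.ext h⟩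
      (not_congr ⟨fun h => congrArg Subtype.val h, fun h => Subtype.ext h⟩)
  have hrel : ∀ g y : H, Rel q (g : GL chevE6.Idx K) y → IsConj g y := by
    rintro g y ⟨h, hh, e⟩
    exact isConj_iff.2 ⟨⟨h, hh⟩, Subtype.ext e⟩
  have hinv : ∀ g y : H, ConjClasses.mk g = ConjClasses.mk y →
      invRank (g : GL chevE6.Idx K) = invRank (y : GL chevE6.Idx K) := by
    intro g y h
    obtain ⟨d, hd⟩ := isConj_iff.1 (ConjClasses.mk_eq_mk_iff_isConj.1 h)
    rw [← hd]
    exact (invRank_conj (d : GL chevE6.Idx K) g).symm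
  have hab : ConjClasses.mk a ≠ ConjClasses.mk b := fun h => by
    have := hinv a b h
    rw [invRank_rep1, invRank_rep2] at this
    omega
  have hac : ConjClasses.mk a ≠ ConjClasses.mk c := fun h => by
    have := hinv a c h
    rw [invRank_rep1, invRank_rep3] at this
    omega
  have hbc : ConjClasses.mk b ≠ ConjClasses.mk c := fun h => by
    have := hinv b c h
    rw [invRank_rep2, invRank_rep3] at this
    omega
  have hne : ∀ y : GL chevE6.Idx K, invRank y ≠ 0 → y ≠ 1 := fun y h e => h (e ▸ invRank_one)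
  have ho : orderOf a = 2 ∧ orderOf b = 2 ∧ orderOf c = 2 :=
    ⟨(hord a).2 ⟨S.rep_sq.1, hne _ (by rw [invRank_rep1]; omega)⟩,
      (hord b).2 ⟨S.rep_sq.2.1, hne _ (by rw [invRank_rep2]; omega)⟩,
      (hord c).2 ⟨S.rep_sq.2.2, hne _ (by rw [invRank_rep3]; omega)⟩⟩
  suffices h : ConjClasses.mk '' {g : H | orderOf g = 2} =
      {ConjClasses.mk a, ConjClasses.mk b, ConjClasses.mk c} by
    rw [h]
    exact Set.ncard_eq_three.2 ⟨_, _, _, hab, hac, hbc, rfl⟩
  apply Set.Subset.antisymm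
  · rintro _ ⟨g, hg, rfl⟩
    obtain ⟨g2, g1⟩ := (hord g).1 hg
    rcases good_of_involution S S.base g.2 g2 with e | r | r | r
    · exact absurd e g1
    · exact Or.inl (ConjClasses.mk_eq_mk_iff_isConj.2 (hrel g a r))
    · exact Or.inr (Or.inl (ConjClasses.mk_eq_mk_iff_isConj.2 (hrel g b r)))
    · exact Or.inr (Or.inr (ConjClasses.mk_eq_mk_iff_isConj.2 (hrel g c r)))
  · rintro _ (rfl | rfl | rfl)
    · exact ⟨a, ho.1, rfl⟩
    · exact ⟨b, ho.2.1, rfl⟩
    · exact ⟨c, ho.2.2, rfl⟩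

omit S in
/-- The setting from the cardinality of the field. -/
theorem exists_setting [Fintype K] (hK : Fintype.card K = q ^ 2) : ∃ σ : K →+* K, Setting σ q := by
  haveI : Fact (Nat.Prime 2) := ⟨Nat.prime_two⟩
  obtain ⟨m, -, hm⟩ := FiniteField.card K 2
  obtain ⟨n, -, rfl⟩ := (Nat.dvd_prime_pow Nat.prime_two).1
    (show q ∣ 2 ^ (m : ℕ) by rw [← hm, hK]; exact dvd_pow_self q two_ne_zero)
  have hn : n ≠ 0 := by
    rintro rfl
    exact absurd hK (by simpa using (Fintype.one_lt_card (α := K)).ne')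
  exact ⟨iterateFrobenius K 2 n,
    ⟨(Nat.prime_two.isPrimePow).pow hn, by rw [Nat.card_eq_fintype_card, hK], fun x => iterateFrobenius_def 2 n x⟩⟩

end CfsgLib.TwistedE6Involutions
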