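import Cfsg.Agent.Lib.TwistedE6Involutions.Radical

/-!
`²E₆(q)`, `q` even: the Levi component of an involution of `U¹` is conjugate to a product of at most three
orthogonal long root elements.
-/

set_option autoImplicit false
set_option linter.all false
set_option maxRecDepth 20000
set_option maxHeartbeats 2000000

namespace CfsgLib.TwistedE6Involutions

open Cfsg.Lie CfsgLib.Chevalley CfsgLib.Twisted

variable {K : Type*} [Field K] [CharP K 2]

/-- Conjugation in `²E₆(q)`. -/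
def Rel (q : ℕ) (g y : GL chevE6.Idx K) : Prop := ∃ h ∈ twistedE6 K q, h * g * h⁻¹ = y

theorem Rel.refl (q : ℕ) (g : GL chevE6.Idx K) : Rel q g g := ⟨1, one_mem _, by simp⟩

theorem Rel.trans {q : ℕ} {g y z : GL chevE6.Idx K} (h₁ : Rel q g y) (h₂ : Rel q y z) : Rel q g z := by
  obtain ⟨a, ha, rfl⟩ := h₁
  obtain ⟨b, hb, rfl⟩ := h₂
  exact ⟨b * a, mul_mem hb ha, by group⟩

theorem Rel.symm {q : ℕ} {g y : GL chevE6.Idx K} (h : Rel q g y) : Rel q y g := by
  obtain ⟨a, ha, rfl⟩ := h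
  exact ⟨a⁻¹, inv_mem ha, by group⟩

theorem Rel.sq {q : ℕ} {g y : GL chevE6.Idx K} (h : Rel q g y) (hg : g * g = 1) : y * y = 1 := by
  obtain ⟨a, -, rfl⟩ := h
  rw [show a * g * a⁻¹ * (a * g * a⁻¹) = a * (g * g) * a⁻¹ by group, hg, mul_one, mul_inv_cancel]

theorem rel_of_eq {q : ℕ} {g h y : GL chevE6.Idx K} (hh : h ∈ twistedE6 K q) (e : h * g = y * h) :
    Rel q g y :=
  ⟨h, hh, by rw [e, mul_inv_cancel_right]⟩

/-- First representative: a long root element. -/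
noncomputable def rep1 : GL chevE6.Idx K := X 71 1

/-- Second representative: a short root element. -/
noncomputable def rep2 : GL chevE6.Idx K := D 66 68 1 1

/-- Third representative: orthogonal long and short root elements. -/
noncomputable def rep3 : GL chevE6.Idx K := X 65 1 * D 55 67 1 1

/-- Conjugate to one of the three representatives, or trivial. -/
def Good (q : ℕ) (g : GL chevE6.Idx K) : Prop := g = 1 ∨ Rel q g rep1 ∨ Rel q g rep2 ∨ Rel q g rep3

theorem Good.of_rel {q : ℕ} {g y : GL chevE6.Idx K} (r : Rel q g y) (h : Good q y) : Good q g := by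
  rcases h with rfl | h | h | h
  · obtain ⟨a, -, e⟩ := r
    exact Or.inl (conj_eq_one_iff.1 e)
  · exact Or.inr (Or.inl (r.trans h))
  · exact Or.inr (Or.inr (Or.inl (r.trans h)))
  · exact Or.inr (Or.inr (Or.inr (r.trans h)))

/-- Every involution with this Levi component is conjugate to a representative. -/
def Over (q : ℕ) (u : GL chevE6.Idx K) : Prop :=
  ∀ v ∈ twistedE6 K q, v ∈ R K → u * v * (u * v) = 1 → Good q (u * v)

variable {σ : K →+* K} {q : ℕ}

theorem Over.of_conj {e u u' : GL chevE6.Idx K} (he : e ∈ twistedE6 K q)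
    (hn : ∀ v ∈ R K, e * v * e⁻¹ ∈ R K) (heq : e * u * e⁻¹ = u') (h : Over q u') : Over q u := by
  intro v hv hvR h2
  refine Good.of_rel (y := u' * (e * v * e⁻¹)) ⟨e, he, by rw [← heq]; group⟩
    (h _ (mul_mem (mul_mem he hv) (inv_mem he)) (hn v hvR) ?_)
  rw [← heq, show e * u * e⁻¹ * (e * v * e⁻¹) * (e * u * e⁻¹ * (e * v * e⁻¹)) = e * (u * v * (u * v)) * e⁻¹ by
    group, h2, mul_one, mul_inv_cancel]

theorem Over.of_eq {e u u' : GL chevE6.Idx K} (he : e ∈ twistedE6 K q)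
    (hn : ∀ v ∈ R K, e * v * e⁻¹ ∈ R K) (heq : e * u = u' * e) (h : Over q u') : Over q u :=
  h.of_conj he hn (by rw [heq, mul_inv_cancel_right])

variable (S : Setting σ q)

include S

theorem over_of_sq {c2 c3 c5 c0 c6 c7 c8 c11 c14 : K} (h0 : σ c0 = c0) (h7 : σ c7 = c7) (h14 : σ c14 = c14)
    (H : (∃ a b c d e f g i j k l m n o p,
      UL σ c2 c3 c5 c0 c6 c7 c8 c11 c14 * UL σ c2 c3 c5 c0 c6 c7 c8 c11 c14 =
        Q σ a b c d e f g i j k l m n o p) → Over q (UL σ c2 c3 c5 c0 c6 c7 c8 c11 c14)) :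
    Over q (UL σ c2 c3 c5 c0 c6 c7 c8 c11 c14) := by
  intro v hv hvR h2
  refine H ?_ v hv hvR h2
  have hn := UL_norm σ c2 c3 c5 c0 c6 c7 c8 c11 c14
  have hu := S.UL_mem (c2 := c2) (c3 := c3) (c5 := c5) (c6 := c6) (c8 := c8) (c11 := c11) h0 h7 h14
  generalize UL σ c2 c3 c5 c0 c6 c7 c8 c11 c14 = u at hn hu h2 ⊢
  have e : u * u = u * v⁻¹ * u⁻¹ * v⁻¹ := by
    have h3 : u = v⁻¹ * u⁻¹ * v⁻¹ := by
      calc u = v⁻¹ * u⁻¹ * (u * v * (u * v)) * v⁻¹ := by group
        _ = v⁻¹ * u⁻¹ * v⁻¹ := by rw [h2, mul_one]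
    conv_lhs => arg 2; rw [h3]
    group
  rw [e]
  obtain ⟨a, b, c, d, e, f, g, i, j, k, l, m, n, o, p, -, hQ⟩ :=
    S.exists_Q (mul_mem (mul_mem (mul_mem hu (inv_mem hv)) (inv_mem hu)) (inv_mem hv))
      (mul_mem (hn _ (inv_mem hvR)) (inv_mem hvR))
  exact ⟨a, b, c, d, e, f, g, i, j, k, l, m, n, o, p, hQ⟩

section hermitian

variable (h14 : ∀ h, σ h = h → h ≠ 0 → Over q (UL σ 0 0 0 0 0 0 0 0 h))
  (h714 : ∀ m h, σ m = m → σ h = h → m ≠ 0 → h ≠ 0 → Over q (UL σ 0 0 0 0 0 m 0 0 h))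
  (h0714 : ∀ l m h, σ l = l → σ m = m → σ h = h → l ≠ 0 → m ≠ 0 → h ≠ 0 → Over q (UL σ 0 0 0 l 0 m 0 0 h))
  (h1 : Over q (1 : GL chevE6.Idx K))

include h14 h714 h0714 h1

theorem over_herm {l m h x y z : K} (hl : σ l = l) (hm : σ m = m) (hh : σ h = h) :
    Over q (UL σ 0 0 0 l x m y z h) := by
  have hi := S.invol
  refine herm_reduce S (P := fun l m h x y z => Over q (UL σ 0 0 0 l x m y z h)) ?_ ?_ ?_ ?_ ?_ ?_ h14 h714
    h0714 l m h x y z hl hm hh
  · intro l m h x y z s hl hm hh H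
    refine H.of_eq (S.mem_3 s) (D_norm (by decide) (by decide) _ _) ?_
    e6_eq <;> (try simp only [map_add, map_mul, hi]) <;> grind
  · intro l m h x y z s hl hm hh H
    refine H.of_eq (S.mem_2 s) (D_norm (by decide) (by decide) _ _) ?_
    e6_eq <;> (try simp only [map_add, map_mul, hi]) <;> grind
  · intro l m h x y z s hl hm hh H
    refine H.of_eq (S.mem_5 s) (D_norm (by decide) (by decide) _ _) ?_
    e6_eq <;> (try simp only [map_add, map_mul, hi]) <;> grind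
  · intro l m h x y z hl hm hh H
    refine H.of_conj S.w3_mem w3_norm ?_
    simp only [UL, map_zero, D_zero, one_mul, conj_mul', w3_0, w3_6, w3_7, w3_8, w3_11, w3_14, hi]
    refine mul_right_cancel (b := padding) ?_
    simp only [padding]
    e6_norm
  · intro l m h x y z hl hm hh H
    refine H.of_conj S.w2_mem w2_norm ?_
    simp only [UL, map_zero, D_zero, one_mul, conj_mul', w2_0, w2_6, w2_7, w2_8, w2_11, w2_14, hi]
    refine mul_right_cancel (b := padding) ?_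
    simp only [padding]
    e6_norm
  · rwa [show UL σ (0 : K) 0 0 0 0 0 0 0 0 = 1 by simp [UL, D_zero, xG_zero]]

theorem over_three {c3 c5 c0 c6 c7 c8 c11 c14 : K} (hc : c3 ≠ 0) (g0 : σ c0 = c0) (g7 : σ c7 = c7)
    (g14 : σ c14 = c14) : Over q (UL σ 0 c3 c5 c0 c6 c7 c8 c11 c14) := by
  have hi := S.invol
  have hc' : σ c3 ≠ 0 := (map_ne_zero σ).2 hc
  -- remove `c5`
  refine (over_of_sq S g0 g7 g14 fun hs => ?_)
  obtain ⟨a, b, c, d, e, f, g, i, j, k, l, m, n, o, p, hs⟩ := hs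
  e6_coords_at hs
  have e0 : c0 = 0 := by grind
  subst e0
  refine Over.of_eq (u' := UL σ 0 c3 0 0 c6 c7 (c8 + c6 * (c5 / c3)) (c11 + c7 * (c5 / c3))
      (c14 + c11 * σ (c5 / c3) + σ c11 * (c5 / c3) + c7 * (c5 / c3) * σ (c5 / c3)))
    (S.mem_2 (c5 / c3)) (D_norm (by decide) (by decide) _ _) ?_ ?_
  · have e1 : c3 * (c5 / c3) = c5 := mul_div_cancel₀ _ hc
    generalize c5 / c3 = s at e1 ⊢
    subst e1
    e6_eq <;> (try simp only [map_add, map_mul, hi]) <;> grind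
  generalize c5 / c3 = s
  have g14' : σ (c14 + c11 * σ s + σ c11 * s + c7 * s * σ s) = c14 + c11 * σ s + σ c11 * s + c7 * s * σ s := by
    simp only [map_add, map_mul, hi, g7, g14]; ring
  generalize c14 + c11 * σ s + σ c11 * s + c7 * s * σ s = b14 at g14'
  generalize c11 + c7 * s = b11
  generalize c8 + c6 * s = b8
  clear hs
  refine (over_of_sq S (map_zero σ) g7 g14' fun hs => ?_)
  obtain ⟨a, b, c, d, e, f, g, i, j, k, l, m, n, o, p, hs⟩ := hs
  e6_coords_at hs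
  have e8 : b8 = 0 := by grind
  have et : c3 * σ c6 + σ c3 * c6 = 0 := by grind
  clear hs
  subst e8
  -- remove `c6`
  have hl : σ (c6 / c3) = c6 / c3 := by
    rw [map_div₀, div_eq_div_iff hc' hc]
    grind
  refine Over.of_eq (u' := UL σ 0 c3 0 0 0 (c7 + c6 / c3 * (c3 * σ c3)) 0 b11 b14)
    (S.mem_0 hl) (X_norm (by decide) _) ?_ ?_
  · have e1 : c6 / c3 * c3 = c6 := div_mul_cancel₀ _ hc
    generalize c6 / c3 = s at e1 hl ⊢
    subst e1
    e6_eq <;> (try simp only [map_add, map_mul, hi]) <;> grind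
  -- remove `c7`
  have g7' : σ (c7 + c6 / c3 * (c3 * σ c3)) = c7 + c6 / c3 * (c3 * σ c3) := by
    rw [map_add, map_mul, map_mul, hl, g7, hi, mul_comm (σ c3)]
  generalize c7 + c6 / c3 * (c3 * σ c3) = b7 at g7'
  obtain ⟨s, hs⟩ := S.exists_tr hc g7'
  refine Over.of_eq (u' := UL σ 0 c3 0 0 0 0 0 b11 b14) (S.mem_6 s) (D_norm (by decide) (by decide) _ _) ?_ ?_
  · e6_eq <;> (try simp only [map_add, map_mul, hi]) <;> grind
  clear hs
  -- remove `c11`
  refine Over.of_eq (u' := UL σ 0 c3 0 0 0 0 0 0 b14) (S.mem_8 (b11 / σ c3))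
    (D_norm (by decide) (by decide) _ _) ?_ ?_
  · have e1 : σ c3 * (b11 / σ c3) = b11 := mul_div_cancel₀ _ hc'
    generalize b11 / σ c3 = s at e1 ⊢
    subst e1
    e6_eq <;> (try simp only [map_add, map_mul, hi]) <;> grind
  refine Over.of_conj (u' := UL σ 0 0 0 0 c3 0 0 0 b14) S.w0_mem w0_norm ?_
    (over_herm S h14 h714 h0714 h1 (map_zero σ) (map_zero σ) g14')
  simp only [UL, map_zero, D_zero, xG_zero, one_mul, mul_one, conj_mul', w0_3, w0_14]

theorem over_five {c5 c0 c6 c7 c8 c11 c14 : K} (hc : c5 ≠ 0) (g0 : σ c0 = c0) (g7 : σ c7 = c7)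
    (g14 : σ c14 = c14) : Over q (UL σ 0 0 c5 c0 c6 c7 c8 c11 c14) := by
  have hi := S.invol
  refine Over.of_conj (u' := UL σ 0 c5 0 c0 c8 c14 c6 (σ c11) c7) S.w2_mem w2_norm ?_
    (over_three S h14 h714 h0714 h1 hc g0 g14 g7)
  simp only [UL, map_zero, D_zero, xG_zero, one_mul, mul_one, conj_mul', w2_5, w2_0, w2_6, w2_7, w2_8, w2_11,
    w2_14, hi]
  refine mul_right_cancel (b := padding) ?_
  simp only [padding]
  e6_norm

theorem over_two {c2 c5 c0 c6 c7 c8 c11 c14 : K} (hc : c2 ≠ 0) (g0 : σ c0 = c0) (g7 : σ c7 = c7)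
    (g14 : σ c14 = c14) : Over q (UL σ c2 0 c5 c0 c6 c7 c8 c11 c14) := by
  have hi := S.invol
  obtain ⟨s, hs⟩ : ∃ s, c2 * s = c5 := ⟨c5 / c2, mul_div_cancel₀ _ hc⟩
  subst hs
  have g7' : σ (c7 + c0 * (s * σ s) + (c6 * σ s + σ c6 * s)) = c7 + c0 * (s * σ s) + (c6 * σ s + σ c6 * s) := by
    simp only [map_add, map_mul, hi, g0, g7]; ring
  refine Over.of_eq (u' := UL σ c2 0 0 c0 (c6 + c0 * s) (c7 + c0 * (s * σ s) + (c6 * σ s + σ c6 * s)) c8
      (c11 + c8 * σ s) c14) (S.mem_3 s) (D_norm (by decide) (by decide) _ _) ?_ ?_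
  · e6_eq <;> (try simp only [map_add, map_mul, hi]) <;> grind
  generalize c7 + c0 * (s * σ s) + (c6 * σ s + σ c6 * s) = b7 at g7'
  generalize c11 + c8 * σ s = b11
  generalize c6 + c0 * s = b6
  refine Over.of_conj (u' := UL σ 0 0 c2 b7 (σ b6) c0 b11 c8 c14) S.w3_mem w3_norm ?_
    (over_five S h14 h714 h0714 h1 hc g7' g0 g14)
  simp only [UL, map_zero, D_zero, xG_zero, one_mul, mul_one, conj_mul', w3_2, w3_0, w3_6, w3_7, w3_8, w3_11,
    w3_14, hi]
  refine mul_right_cancel (b := padding) ?_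
  simp only [padding]
  e6_norm

/-- Every Levi component reduces. -/
theorem over_levi {c2 c3 c5 c0 c6 c7 c8 c11 c14 : K} (g0 : σ c0 = c0) (g7 : σ c7 = c7) (g14 : σ c14 = c14) :
    Over q (UL σ c2 c3 c5 c0 c6 c7 c8 c11 c14) := by
  by_cases h3 : c3 = 0
  · subst h3
    by_cases h2 : c2 = 0
    · subst h2
      by_cases h5 : c5 = 0
      · subst h5; exact over_herm S h14 h714 h0714 h1 g0 g7 g14
      · exact over_five S h14 h714 h0714 h1 h5 g0 g7 g14
    · exact over_two S h14 h714 h0714 h1 h2 g0 g7 g14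
  · refine over_of_sq S g0 g7 g14 fun hs => ?_
    obtain ⟨a, b, c, d, e, f, g, i, j, k, l, m, n, o, p, hs⟩ := hs
    e6_coords_at hs
    have h2 : c2 = 0 := by grind
    subst h2
    exact over_three S h14 h714 h0714 h1 h3 g0 g7 g14

end hermitian

end CfsgLib.TwistedE6Involutions
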