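import Cfsg.Agent.Lib.TwistedE6Involutions.Torus

/-!
The radical of the parabolic of type A₅ in `²E₆(q)`, and reduction of Hermitian triples.
-/

set_option autoImplicit false
set_option linter.all false
set_option maxRecDepth 20000
set_option maxHeartbeats 1000000

namespace CfsgLib.TwistedE6Involutions

open Cfsg.Lie CfsgLib.Chevalley CfsgLib.Twisted

variable {K : Type*} [Field K] [CharP K 2]

/-- The roots of the radical. -/
abbrev qR : List ℕ := [46, 47, 48, 49, 50, 51, 52, 53, 54, 55, 61, 62, 63, 64, 65, 66, 67, 68, 69, 70, 71]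

/-- The positive roots of the Levi part. -/
abbrev lR : List ℕ := [36, 37, 38, 39, 40, 41, 42, 43, 44, 45, 56, 57, 58, 59, 60]

/-- The radical. -/
abbrev R (K : Type*) [Field K] : Subgroup (GL chevE6.Idx K) := rootsU chevE6 K {r | r ∈ qR}

theorem lR_absorb : ∀ r ∈ lR ++ qR, ∀ s ∈ qR, r < 72 ∧ s < 72 ∧ ∀ c ∈ chevE6.commTerms r s, c.1 ∈ qR := by
  decide +kernel

theorem qR_pos : ∀ r ∈ lR ++ qR, decide (36 ≤ r ∧ r < 72) = true := by decide +kernel

theorem X_norm {r : ℕ} (hr : r ∈ lR ++ qR) (t : K) : ∀ v ∈ R K, X r t * v * (X r t)⁻¹ ∈ R K :=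
  CfsgLib.Chevalley.rootsU_conj_le full.cert fun s hs u => by
    by_cases e : s = r
    · subst e
      rw [xG_mul, xG_inv, xG_mul]
      exact mem_rest hs _
    · obtain ⟨h1, h2, h3⟩ := lR_absorb r hr s hs
      obtain ⟨W, hW, e'⟩ := CfsgLib.Chevalley.conj_xG full.toStd h1 h2 e
        (full.toStd.ne_neg (isPos (qR_pos r hr)) (isPos (qR_pos s (List.mem_append_right _ hs))))
        (T := {r | r ∈ qR}) h3 t u
      rw [e']
      exact mul_mem (mem_rest hs u) hW

theorem norm_mul {a b : GL chevE6.Idx K} (ha : ∀ v ∈ R K, a * v * a⁻¹ ∈ R K)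
    (hb : ∀ v ∈ R K, b * v * b⁻¹ ∈ R K) : ∀ v ∈ R K, a * b * v * (a * b)⁻¹ ∈ R K := by
  intro v hv
  have := ha _ (hb v hv)
  rwa [show a * (b * v * b⁻¹) * a⁻¹ = a * b * v * (a * b)⁻¹ by group] at this

theorem D_norm {r s : ℕ} (hr : r ∈ lR ++ qR) (hs : s ∈ lR ++ qR) (t u : K) :
    ∀ v ∈ R K, D r s t u * v * (D r s t u)⁻¹ ∈ R K :=
  norm_mul (X_norm hr t) (X_norm hs u)

theorem qR_moves : ∀ s ∈ qR, (moveOne 3 s (chevE6.reflectRoot 3 s) = true ∧ chevE6.reflectRoot 3 s ∈ qR) ∧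
    (moveTwo 0 5 s (chevE6.reflectRoot 5 (chevE6.reflectRoot 0 s)) = true ∧
      chevE6.reflectRoot 5 (chevE6.reflectRoot 0 s) ∈ qR) ∧
    (moveTwo 2 4 s (chevE6.reflectRoot 4 (chevE6.reflectRoot 2 s)) = true ∧
      chevE6.reflectRoot 4 (chevE6.reflectRoot 2 s) ∈ qR) := by
  decide +kernel

theorem w0_norm : ∀ v ∈ R K, w0 * v * w0⁻¹ ∈ R K :=
  CfsgLib.Chevalley.rootsU_conj_le full.cert fun s hs u => by
    rw [w0_move (qR_moves s hs).1.1 u]
    exact mem_rest (qR_moves s hs).1.2 _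

theorem w2_norm : ∀ v ∈ R K, w2 * v * w2⁻¹ ∈ R K :=
  CfsgLib.Chevalley.rootsU_conj_le full.cert fun s hs u => by
    rw [w2_move (qR_moves s hs).2.1.1 u]
    exact mem_rest (qR_moves s hs).2.1.2 _

theorem w3_norm : ∀ v ∈ R K, w3 * v * w3⁻¹ ∈ R K :=
  CfsgLib.Chevalley.rootsU_conj_le full.cert fun s hs u => by
    rw [w3_move (qR_moves s hs).2.2.1 u]
    exact mem_rest (qR_moves s hs).2.2.2 _

variable (σ : K →+* K)

theorem UL_norm (c2 c3 c5 c0 c6 c7 c8 c11 c14 : K) : ∀ v ∈ R K, UL σ c2 c3 c5 c0 c6 c7 c8 c11 c14 * v * (UL σ c2 c3 c5 c0 c6 c7 c8 c11 c14)⁻¹ ∈ R K := by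
  exact (norm_mul (norm_mul (norm_mul (norm_mul (norm_mul (norm_mul (norm_mul (norm_mul (D_norm (r := 36) (s := 56) (by decide) (by decide) _ _) (D_norm (r := 37) (s := 42) (by decide) (by decide) _ _)) (D_norm (r := 38) (s := 57) (by decide) (by decide) _ _)) (X_norm (r := 39) (by decide) _)) (D_norm (r := 40) (s := 43) (by decide) (by decide) _ _)) (X_norm (r := 44) (by decide) _)) (D_norm (r := 41) (s := 58) (by decide) (by decide) _ _)) (D_norm (r := 45) (s := 59) (by decide) (by decide) _ _)) (X_norm (r := 60) (by decide) _))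

theorem Q_mem_R (c1 c4 c9 c10 c12 c13 c15 c16 c17 c18 c19 c20 c21 c22 c23 : K) : Q σ c1 c4 c9 c10 c12 c13 c15 c16 c17 c18 c19 c20 c21 c22 c23 ∈ R K := by
  simp only [Q, D]
  repeat' apply mul_mem
  all_goals exact mem_rest (by decide) _

theorem R_le : R K ≤ chevE6.posUnipotent K :=
  (CfsgLib.Chevalley.rootsU_le_iff full.cert).2 fun r hr t =>
    xG_mem_rootsU (S := {r | chevE6.IsPosRoot r}) full.cert (isPos (qR_pos r (List.mem_append_right _ hr))) t

theorem mem_D {S : List ℕ} {a b : ℕ} (ha : a ∈ S) (hb : b ∈ S) (u w : K) :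
    D a b u w ∈ rootsU chevE6 K {r | r ∈ S} :=
  mul_mem (mem_rest ha u) (mem_rest hb w)

theorem sub_tail {O : List Orb} (h : qR.all (fun r => (orbRoots O).elem r) = true) {g : GL chevE6.Idx K}
    (hw : g ∈ R K) : g ∈ rootsU chevE6 K {r | r ∈ orbRoots O} :=
  rootsU_mono (fun r hr => List.mem_of_elem_eq_true (List.all_eq_true.1 h r hr)) hw

/-- membership in a tail containing the radical -/
macro "r_mem" hw:ident : tactic => `(tactic|
  (repeat' (with_reducible apply mul_mem);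
   all_goals first
     | exact sub_tail (by decide +kernel) $hw
     | exact mem_rest (List.mem_of_elem_eq_true (by decide +kernel)) _
     | exact mem_D (List.mem_of_elem_eq_true (by decide +kernel)) (List.mem_of_elem_eq_true (by decide +kernel)) _ _))

attribute [local irreducible] Q UL D

variable {σ} {q : ℕ} (S : Setting σ q)

include S

/-- An element of the radical in coordinates. -/
theorem Setting.exists_Q {g : GL chevE6.Idx K} (hg : g ∈ twistedE6 K q) (hw : g ∈ R K) :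
    ∃ c1 c4 c9 c10 c12 c13 c15 c16 c17 c18 c19 c20 c21 c22 c23, (σ c1 = c1 ∧ σ c4 = c4 ∧ σ c10 = c10 ∧ σ c13 = c13 ∧ σ c16 = c16 ∧ σ c18 = c18 ∧ σ c21 = c21 ∧ σ c22 = c22 ∧ σ c23 = c23) ∧ g = Q σ c1 c4 c9 c10 c12 c13 c15 c16 c17 c18 c19 c20 c21 c22 c23 := by
  obtain ⟨c2, c3, c5, c0, c6, c7, c8, c11, c14, c1, c4, c9, c10, c12, c13, c15, c16, c17, c18, c19, c20, c21, c22, c23, hf, eq⟩ := S.exists_N hg (R_le hw)
  have hQ := Q_mem_R σ c1 c4 c9 c10 c12 c13 c15 c16 c17 c18 c19 c20 c21 c22 c23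
  have h : D 36 56 c2 (σ c2) * (D 37 42 c3 (σ c3) * (D 38 57 c5 (σ c5) * (X 39 c0 * (D 40 43 c6 (σ c6) * (X 44 c7 * (D 41 58 c8 (σ c8) * (D 45 59 c11 (σ c11) * (X 60 c14 * Q σ c1 c4 c9 c10 c12 c13 c15 c16 c17 c18 c19 c20 c21 c22 c23)))))))) =
      D 36 56 (0 : K) 0 * (D 37 42 (0 : K) 0 * (D 38 57 (0 : K) 0 * (X 39 (0 : K) * (D 40 43 (0 : K) 0 * (X 44 (0 : K) * (D 41 58 (0 : K) 0 * (D 45 59 (0 : K) 0 * (X 60 (0 : K) * g)))))))) := by
    conv_rhs => simp only [D_zero, xG_zero, one_mul]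
    rw [eq]
    simp only [UL, mul_assoc]
  obtain ⟨e36, f36, h1x⟩ := peel2 (i := 0) rfl (by r_mem hQ) (by r_mem hw) h
  subst e36
  obtain ⟨e37, f37, h2x⟩ := peel2 (i := 1) rfl (by r_mem hQ) (by r_mem hw) h1x
  subst e37
  obtain ⟨e38, f38, h3x⟩ := peel2 (i := 2) rfl (by r_mem hQ) (by r_mem hw) h2x
  subst e38
  obtain ⟨e39, h4x⟩ := peel1 (i := 3) rfl (by r_mem hQ) (by r_mem hw) h3x
  subst e39
  obtain ⟨e40, f40, h5x⟩ := peel2 (i := 4) rfl (by r_mem hQ) (by r_mem hw) h4x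
  subst e40
  obtain ⟨e44, h6x⟩ := peel1 (i := 5) rfl (by r_mem hQ) (by r_mem hw) h5x
  subst e44
  obtain ⟨e41, f41, h7x⟩ := peel2 (i := 6) rfl (by r_mem hQ) (by r_mem hw) h6x
  subst e41
  obtain ⟨e45, f45, h8x⟩ := peel2 (i := 7) rfl (by r_mem hQ) (by r_mem hw) h7x
  subst e45
  obtain ⟨e60, h9x⟩ := peel1 (i := 8) rfl (by r_mem hQ) (by r_mem hw) h8x
  subst e60
  obtain ⟨g0, g7, g14, g1, g4, g10, g13, g16, g18, g21, g22, g23⟩ := hf
  exact ⟨_, _, _, _, _, _, _, _, _, _, _, _, _, _, _, ⟨g1, g4, g10, g13, g16, g18, g21, g22, g23⟩, h9x.symm⟩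

theorem Setting.exists_omega : ∃ w : K, w + σ w = 1 := by
  have := S.finite
  obtain ⟨a, ha⟩ : ∃ a : K, σ a ≠ a := by
    by_contra hh
    push Not at hh
    have e : Nat.card {x : K // σ x = x} = Nat.card K := Nat.card_congr (Equiv.subtypeUnivEquiv hh)
    rw [S.card_fixed, S.card] at e
    have := S.pp.two_le
    nlinarith
  have hs : a + σ a ≠ 0 := fun h => ha (CharTwo.add_eq_zero.1 h).symm
  refine ⟨a / (a + σ a), ?_⟩
  rw [map_div₀, map_add, S.invol, add_comm (σ a) a, ← add_div, div_self hs]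

/-- The trace form is onto. -/
theorem Setting.exists_tr {x c : K} (hx : x ≠ 0) (hc : σ c = c) : ∃ s : K, x * σ s + σ x * s = c := by
  obtain ⟨w, hw⟩ := S.exists_omega
  refine ⟨σ (c * w / x), ?_⟩
  rw [S.invol, map_div₀, map_mul, hc, mul_div_cancel₀ _ hx, mul_div_cancel₀ _ ((map_ne_zero σ).2 hx),
    ← mul_add, hw, mul_one]

/-- Square roots of fixed elements are fixed. -/
theorem Setting.exists_sqrt {c : K} (hc : σ c = c) : ∃ r : K, σ r = r ∧ r ^ 2 = c := by
  have := S.finite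
  obtain ⟨r, hr⟩ := surjective_frobenius K 2 c
  rw [frobenius_def] at hr
  refine ⟨r, ?_, hr⟩
  refine frobenius_inj K 2 ?_
  simp only [frobenius_def]
  rw [← map_pow, hr, hc]

omit S in
/-- Reduction of Hermitian triples: `l, m, h` on the diagonal, `x, y, z` off it. -/
theorem herm_reduce (S : Setting σ q) {P : K → K → K → K → K → K → Prop}
    (A : ∀ l m h x y z s, σ l = l → σ m = m → σ h = h →
      P l (m + l * (s * σ s) + (x * σ s + σ x * s)) h (x + l * s) y (z + y * σ s) → P l m h x y z)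
    (B : ∀ l m h x y z s, σ l = l → σ m = m → σ h = h →
      P l m (h + m * (s * σ s) + (z * σ s + σ z * s)) x (y + x * s) (z + m * s) → P l m h x y z)
    (C : ∀ l m h x y z s, σ l = l → σ m = m → σ h = h →
      P l m (h + l * (s * σ s) + (y * σ s + σ y * s)) x (y + l * s) (z + σ x * s) → P l m h x y z)
    (W : ∀ l m h x y z, σ l = l → σ m = m → σ h = h → P m l h (σ x) z y → P l m h x y z)
    (V : ∀ l m h x y z, σ l = l → σ m = m → σ h = h → P l h m y x (σ z) → P l m h x y z)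
    (h000 : P 0 0 0 0 0 0) (h001 : ∀ h, σ h = h → h ≠ 0 → P 0 0 h 0 0 0)
    (h011 : ∀ m h, σ m = m → σ h = h → m ≠ 0 → h ≠ 0 → P 0 m h 0 0 0)
    (h111 : ∀ l m h, σ l = l → σ m = m → σ h = h → l ≠ 0 → m ≠ 0 → h ≠ 0 → P l m h 0 0 0) :
    ∀ l m h x y z, σ l = l → σ m = m → σ h = h → P l m h x y z := by
  have h0 : σ (0 : K) = 0 := map_zero σ
  have fN : ∀ t s, σ t = t → σ (t * (s * σ s)) = t * (s * σ s) := fun t s ht => by
    rw [map_mul, map_mul, ht, S.invol, mul_comm (σ s)]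
  have fT : ∀ x s, σ (x * σ s + σ x * s) = x * σ s + σ x * s := fun x s => by
    rw [map_add, map_mul, map_mul, S.invol, S.invol, add_comm]
  have diag : ∀ l m h, σ l = l → σ m = m → σ h = h → P l m h 0 0 0 := by
    have low : ∀ m h, σ m = m → σ h = h → P 0 m h 0 0 0 := by
      intro m h hm hh
      by_cases m0 : m = 0
      · subst m0
        by_cases e : h = 0
        · subst e; exact h000
        · exact h001 h hh e
      · by_cases e : h = 0
        · subst e
          refine V 0 m 0 0 0 0 h0 hm h0 ?_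
          rw [h0]
          exact h001 m hm m0
        · exact h011 m h hm hh m0 e
    intro l m h hl hm hh
    by_cases l0 : l = 0
    · subst l0; exact low m h hm hh
    by_cases m0 : m = 0
    · subst m0
      refine W l 0 h 0 0 0 hl h0 hh ?_
      rw [h0]
      exact low l h hl hh
    by_cases e : h = 0
    · subst e
      refine V l m 0 0 0 0 hl hm h0 (W l 0 m 0 0 (σ 0) hl h0 hm ?_)
      rw [h0]
      exact low l m hl hm
    · exact h111 l m h hl hm hh l0 m0 e
  have mid : ∀ l m h z, σ l = l → σ m = m → σ h = h → m ≠ 0 → P l m h 0 0 z := by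
    intro l m h z hl hm hh m0
    refine B l m h 0 0 z (z / m) hl hm hh ?_
    rw [zero_mul, add_zero, mul_div_cancel₀ _ m0, CharTwo.add_self_eq_zero]
    exact diag _ _ _ hl hm (by rw [map_add, map_add, hh, fN _ _ hm, fT])
  have block : ∀ l m h z, σ l = l → σ m = m → σ h = h → P l m h 0 0 z := by
    intro l m h z hl hm hh
    by_cases m0 : m = 0
    swap
    · exact mid l m h z hl hm hh m0
    subst m0
    by_cases e : h = 0
    swap
    · exact V l 0 h 0 0 z hl h0 hh (mid l h 0 _ hl hh h0 e)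
    subst e
    by_cases z0 : z = 0
    · subst z0; exact diag l 0 0 hl h0 h0
    obtain ⟨s, hs⟩ := S.exists_tr z0 (map_one σ)
    refine B l 0 0 0 0 z s hl h0 h0 ?_
    simp only [zero_mul, add_zero, zero_add, hs]
    exact V l 0 1 0 0 z hl h0 (map_one σ) (mid l 1 0 _ hl (map_one σ) h0 one_ne_zero)
  have lead : ∀ l m h x y z, σ l = l → σ m = m → σ h = h → l ≠ 0 → P l m h x y z := by
    intro l m h x y z hl hm hh l0
    refine A l m h x y z (x / l) hl hm hh ?_
    rw [mul_div_cancel₀ _ l0, CharTwo.add_self_eq_zero]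
    have hm' : σ (m + l * (x / l * σ (x / l)) + (x * σ (x / l) + σ x * (x / l))) = m + l * (x / l * σ (x / l)) + (x * σ (x / l) + σ x * (x / l)) := by
      rw [map_add, map_add, hm, fN _ _ hl, fT]
    refine C l _ h 0 y _ (y / l) hl hm' hh ?_
    rw [mul_div_cancel₀ _ l0, CharTwo.add_self_eq_zero, h0, zero_mul, add_zero]
    exact block _ _ _ _ hl hm' (by rw [map_add, map_add, hh, fN _ _ hl, fT])
  have any_m : ∀ l m h x y z, σ l = l → σ m = m → σ h = h → m ≠ 0 → P l m h x y z :=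
    fun l m h x y z hl hm hh m0 => W l m h x y z hl hm hh (lead m l h _ _ _ hm hl hh m0)
  have any_h : ∀ l m h x y z, σ l = l → σ m = m → σ h = h → h ≠ 0 → P l m h x y z :=
    fun l m h x y z hl hm hh e => V l m h x y z hl hm hh (any_m l h m _ _ _ hl hh hm e)
  intro l m h x y z hl hm hh
  by_cases l0 : l = 0
  swap
  · exact lead l m h x y z hl hm hh l0
  by_cases m0 : m = 0
  swap
  · exact any_m l m h x y z hl hm hh m0
  by_cases e : h = 0
  swap
  · exact any_h l m h x y z hl hm hh e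
  subst l0 m0 e
  by_cases x0 : x = 0
  swap
  · obtain ⟨s, hs⟩ := S.exists_tr x0 (map_one σ)
    refine A 0 0 0 x y z s h0 h0 h0 ?_
    simp only [zero_mul, add_zero, zero_add, hs]
    exact any_m 0 1 0 _ _ _ h0 (map_one σ) h0 one_ne_zero
  by_cases z0 : z = 0
  swap
  · obtain ⟨s, hs⟩ := S.exists_tr z0 (map_one σ)
    refine B 0 0 0 x y z s h0 h0 h0 ?_
    simp only [zero_mul, add_zero, zero_add, hs]
    exact any_h 0 0 1 _ _ _ h0 h0 (map_one σ) one_ne_zero
  by_cases y0 : y = 0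
  swap
  · obtain ⟨s, hs⟩ := S.exists_tr y0 (map_one σ)
    refine C 0 0 0 x y z s h0 h0 h0 ?_
    simp only [zero_mul, add_zero, zero_add, hs]
    exact any_h 0 0 1 _ _ _ h0 h0 (map_one σ) one_ne_zero
  subst x0 y0 z0
  exact h000

end CfsgLib.TwistedE6Involutions
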