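import Cfsg.Agent.Lib.TwistedE6Involutions.Cases2

/-!
`²E₆(q)`, `q` even: the thirteen products of orthogonal root elements are conjugate to three representatives.
-/

set_option autoImplicit false
set_option linter.all false
set_option maxRecDepth 20000
set_option maxHeartbeats 2000000

namespace CfsgLib.TwistedE6Involutions

open Cfsg.Lie CfsgLib.Chevalley CfsgLib.Twisted

variable {K : Type*} [Field K] [CharP K 2]

/-- Prove an equation in `U` by normalising and comparing coefficients. -/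
macro "e6_close" : tactic => `(tactic|
  first
    | (e6_eq <;> grind)
    | (refine mul_right_cancel (b := padding) ?_; simp only [padding]; e6_norm))

/-- The torus element of a long root with the given coordinates. -/
noncomputable def torL (σ : K →+* K) (a b c d : ℕ) (s : K) : GL chevE6.Idx K :=
  tor σ (s ^ a) (s ^ b) (s ^ c) (s ^ d)

/-- The torus element of a short root with the given coordinates. -/
noncomputable def torS (σ : K →+* K) (a b c c' d d' : ℕ) (s : K) : GL chevE6.Idx K :=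
  tor σ ((s * σ s) ^ a) ((s * σ s) ^ b) (s ^ c * σ s ^ c') (s ^ d * σ s ^ d')

variable {σ : K →+* K} {q : ℕ} (S : Setting σ q)

include S

theorem Setting.torL_mem (a b c d : ℕ) {s : K} (hs : σ s = s) : torL σ a b c d s ∈ twistedE6 K q :=
  S.tor_mem (by rw [map_pow, hs]) (by rw [map_pow, hs]) _ _

theorem Setting.torS_mem (a b c c' d d' : ℕ) (s : K) : torS σ a b c c' d d' s ∈ twistedE6 K q :=
  S.tor_mem (by rw [map_pow, map_mul, S.invol, mul_comm (σ s)]) (by rw [map_pow, map_mul, S.invol, mul_comm (σ s)]) _ _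

theorem Setting.torL_move (a b c d : ℕ) {s : K} (hs : σ s = s) (s0 : s ≠ 0) {t : ℕ} (ht : t < 72) (e : ℕ)
    (he : (a : ℤ) * chevE6.cartan 1 t + b * chevE6.cartan 3 t + c * (chevE6.cartan 5 t + chevE6.cartan 0 t) +
      d * (chevE6.cartan 4 t + chevE6.cartan 2 t) = e) (u : K) :
    torL σ a b c d s * X t u * (torL σ a b c d s)⁻¹ = X t (s ^ e * u) := by
  rw [torL, tor_move σ ht (pow_ne_zero _ s0) (pow_ne_zero _ s0) (pow_ne_zero _ s0) (pow_ne_zero _ s0),
    map_pow, map_pow, hs]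
  simp only [← zpow_natCast, ← zpow_mul, ← mul_assoc, ← zpow_add₀ s0, ← he]
  ring_nf

theorem Setting.torS_move (a b c c' d d' : ℕ) {s : K} (s0 : s ≠ 0) {t : ℕ} (ht : t < 72) (e e' : ℕ)
    (he : (a : ℤ) * chevE6.cartan 1 t + b * chevE6.cartan 3 t + (c * chevE6.cartan 5 t + c' * chevE6.cartan 0 t) +
      (d * chevE6.cartan 4 t + d' * chevE6.cartan 2 t) = e)
    (he' : (a : ℤ) * chevE6.cartan 1 t + b * chevE6.cartan 3 t + (c' * chevE6.cartan 5 t + c * chevE6.cartan 0 t) +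
      (d' * chevE6.cartan 4 t + d * chevE6.cartan 2 t) = e') (u : K) :
    torS σ a b c c' d d' s * X t u * (torS σ a b c c' d d' s)⁻¹ = X t (s ^ e * σ s ^ e' * u) := by
  have h1 : σ s ≠ 0 := (map_ne_zero σ).2 s0
  have h2 : s * σ s ≠ 0 := mul_ne_zero s0 h1
  rw [torS, tor_move σ ht (pow_ne_zero _ h2) (pow_ne_zero _ h2)
      (mul_ne_zero (pow_ne_zero _ s0) (pow_ne_zero _ h1)) (mul_ne_zero (pow_ne_zero _ s0) (pow_ne_zero _ h1))]
  simp only [map_mul, map_pow, S.invol]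
  simp only [← zpow_natCast, mul_zpow, ← zpow_mul, ← he, ← he', zpow_add₀ s0,
    zpow_add₀ h1]
  ring_nf

theorem Setting.link_z : Good q (X 71 (1 : K)) := by
  exact Or.inr (Or.inl (Rel.refl q _))

theorem Setting.link_a : Good q (X 46 (1 : K)) := by
  refine Good.of_rel (y := X 47 (1 : K)) ⟨w0, S.w0_mem, ?_⟩ ?_
  · simp only [conj_mul', w0_1]
    all_goals e6_close
  refine Good.of_rel (y := X 51 (1 : K)) ⟨w3, S.w3_mem, ?_⟩ ?_
  · simp only [conj_mul', w3_4]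
    all_goals e6_close
  refine Good.of_rel (y := X 53 (1 : K)) ⟨w0, S.w0_mem, ?_⟩ ?_
  · simp only [conj_mul', w0_10]
    all_goals e6_close
  refine Good.of_rel (y := X 65 (1 : K)) ⟨w2, S.w2_mem, ?_⟩ ?_
  · simp only [conj_mul', w2_13]
    all_goals e6_close
  refine Good.of_rel (y := X 69 (1 : K)) ⟨w3, S.w3_mem, ?_⟩ ?_
  · simp only [conj_mul', w3_18]
    all_goals e6_close
  refine Good.of_rel (y := X 70 (1 : K)) ⟨w0, S.w0_mem, ?_⟩ ?_
  · simp only [conj_mul', w0_21]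
    all_goals e6_close
  refine Good.of_rel (y := X 71 (1 : K)) ⟨w1, S.w1_mem, ?_⟩ ?_
  · simp only [conj_mul', w1_22]
    all_goals e6_close
  exact Or.inr (Or.inl (Rel.refl q _))

theorem Setting.link_ab : Good q (X 46 (1 : K) * X 69 (1 : K)) := by
  obtain ⟨ω, hω⟩ := S.exists_omega
  have hs : σ ω = ω + 1 := by grind
  refine Good.of_rel (y := X 47 (1 : K) * X 70 (1 : K)) ⟨w0, S.w0_mem, ?_⟩ ?_
  · simp only [conj_mul', w0_1, w0_21]
    all_goals e6_close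
  refine Good.of_rel (y := X 51 (1 : K) * X 70 (1 : K)) ⟨w3, S.w3_mem, ?_⟩ ?_
  · simp only [conj_mul', w3_4, w3_22]
    all_goals e6_close
  refine Good.of_rel (y := X 53 (1 : K) * X 69 (1 : K)) ⟨w0, S.w0_mem, ?_⟩ ?_
  · simp only [conj_mul', w0_10, w0_22]
    all_goals e6_close
  refine Good.of_rel (y := X 65 (1 : K) * X 69 (1 : K)) ⟨w2, S.w2_mem, ?_⟩ ?_
  · simp only [conj_mul', w2_13, w2_21]
    all_goals e6_close
  refine Good.of_rel (y := X 65 (1 : K) * D 66 68 (1 : K) (1)) (rel_of_eq (h := D 37 42 (1 : K) 1) (by simpa using S.mem_3 1) ?_) ?_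
  · e6_close
  refine Good.of_rel (y := D 66 68 (1 : K) (1) * X 69 (1 : K)) ⟨w3, S.w3_mem, ?_⟩ ?_
  · simp only [conj_mul', w3_18, w3_20]
    all_goals e6_close
  refine Good.of_rel (y := D 66 68 (1 : K) (1)) (rel_of_eq (h := D 37 42 ω (ω + 1)) (by simpa [hs] using S.mem_3 ω) ?_) ?_
  · e6_close
  exact Or.inr (Or.inr (Or.inl (Rel.refl q _)))

theorem Setting.link_abc : Good q (X 46 (1 : K) * X 65 (1 : K) * X 69 (1 : K)) := by
  refine Good.of_rel (y := X 47 (1 : K) * X 63 (1 : K) * X 70 (1 : K)) ⟨w0, S.w0_mem, ?_⟩ ?_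
  · simp only [conj_mul', w0_1, w0_18, w0_21]
    all_goals e6_close
  refine Good.of_rel (y := X 51 (1 : K) * X 63 (1 : K) * X 70 (1 : K)) ⟨w3, S.w3_mem, ?_⟩ ?_
  · simp only [conj_mul', w3_4, w3_16, w3_22]
    all_goals e6_close
  refine Good.of_rel (y := X 53 (1 : K) * X 65 (1 : K) * X 69 (1 : K)) ⟨w0, S.w0_mem, ?_⟩ ?_
  · simp only [conj_mul', w0_10, w0_16, w0_22]
    all_goals e6_close
  refine Good.of_rel (y := X 53 (1 : K) * D 54 64 (1 : K) (1) * X 69 (1 : K)) (rel_of_eq (h := D 36 56 (1 : K) 1) (by simpa using S.mem_2 1) ?_) ?_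
  · e6_close
  refine Good.of_rel (y := D 54 64 (1 : K) (1) * X 65 (1 : K) * X 69 (1 : K)) ⟨w2, S.w2_mem, ?_⟩ ?_
  · simp only [conj_mul', w2_13, w2_17, w2_21]
    all_goals e6_close
  refine Good.of_rel (y := X 65 (1 : K) * D 55 67 (1 : K) (1) * X 69 (1 : K)) ⟨w3, S.w3_mem, ?_⟩ ?_
  · simp only [conj_mul', w3_17, w3_18, w3_21]
    all_goals e6_close
  refine Good.of_rel (y := X 65 (1 : K) * D 55 67 (1 : K) (1) * D 66 68 (1 : K) (1)) (rel_of_eq (h := D 37 42 (1 : K) 1) (by simpa using S.mem_3 1) ?_) ?_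
  · e6_close
  refine Good.of_rel (y := X 65 (1 : K) * D 55 67 (1 : K) (1)) (rel_of_eq (h := D 36 56 (1 : K) 1) (by simpa using S.mem_2 1) ?_) ?_
  · e6_close
  exact Or.inr (Or.inr (Or.inr (Rel.refl q _)))

theorem Setting.link_abcd : Good q (X 46 (1 : K) * X 53 (1 : K) * X 65 (1 : K) * X 69 (1 : K)) := by
  refine Good.of_rel (y := X 47 (1 : K) * X 51 (1 : K) * X 63 (1 : K) * X 70 (1 : K)) ⟨w0, S.w0_mem, ?_⟩ ?_
  · simp only [conj_mul', w0_1, w0_13, w0_18, w0_21]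
    all_goals e6_close
  refine Good.of_rel (y := X 47 (1 : K) * X 51 (1 : K) * D 52 62 (1 : K) (1) * X 70 (1 : K)) (rel_of_eq (h := D 36 56 (1 : K) 1) (by simpa using S.mem_2 1) ?_) ?_
  · e6_close
  refine Good.of_rel (y := X 47 (1 : K) * D 52 62 (1 : K) (1) * X 63 (1 : K) * X 70 (1 : K)) ⟨w2, S.w2_mem, ?_⟩ ?_
  · simp only [conj_mul', w2_4, w2_10, w2_15, w2_22]
    all_goals e6_close
  refine Good.of_rel (y := X 51 (1 : K) * D 49 61 (1 : K) (1) * X 63 (1 : K) * X 70 (1 : K)) ⟨w3, S.w3_mem, ?_⟩ ?_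
  · simp only [conj_mul', w3_4, w3_15, w3_16, w3_22]
    all_goals e6_close
  refine Good.of_rel (y := D 49 61 (1 : K) (1) * X 53 (1 : K) * X 65 (1 : K) * X 69 (1 : K)) ⟨w0, S.w0_mem, ?_⟩ ?_
  · simp only [conj_mul', w0_10, w0_12, w0_16, w0_22]
    all_goals e6_close
  refine Good.of_rel (y := X 53 (1 : K) * D 52 62 (1 : K) (1) * X 65 (1 : K) * X 69 (1 : K)) ⟨w3, S.w3_mem, ?_⟩ ?_
  · simp only [conj_mul', w3_12, w3_13, w3_18, w3_21]
    all_goals e6_close
  refine Good.of_rel (y := X 53 (1 : K) * D 52 62 (1 : K) (1) * X 65 (1 : K) * D 66 68 (1 : K) (1)) (rel_of_eq (h := D 37 42 (1 : K) 1) (by simpa using S.mem_3 1) ?_) ?_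
  · e6_close
  refine Good.of_rel (y := X 53 (1 : K) * D 52 62 (1 : K) (1) * D 54 64 (1 : K) (1) * D 66 68 (1 : K) (1)) (rel_of_eq (h := D 36 56 (1 : K) 1) (by simpa using S.mem_2 1) ?_) ?_
  · e6_close
  refine Good.of_rel (y := D 52 62 (1 : K) (1) * D 54 64 (1 : K) (1) * X 65 (1 : K) * D 55 67 (1 : K) (1)) ⟨w2, S.w2_mem, ?_⟩ ?_
  · simp only [conj_mul', w2_13, w2_15, w2_17, w2_20]
    all_goals e6_close
  refine Good.of_rel (y := D 52 62 (1 : K) (1) * X 65 (1 : K) * D 55 67 (1 : K) (1) * X 71 (1 : K)) (rel_of_eq (S.mem_0 (map_one σ)) ?_) ?_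
  · e6_close
  refine Good.of_rel (y := X 63 (1 : K) * D 54 64 (1 : K) (1) * D 55 67 (1 : K) (1) * X 71 (1 : K)) ⟨w0, S.w0_mem, ?_⟩ ?_
  · simp only [conj_mul', w0_15, w0_18, w0_19, w0_23]
    all_goals e6_close
  refine Good.of_rel (y := X 63 (1 : K) * D 54 64 (1 : K) (1) * X 71 (1 : K)) (rel_of_eq (h := D 37 42 (1 : K) 1) (by simpa using S.mem_3 1) ?_) ?_
  · e6_close
  refine Good.of_rel (y := X 63 (1 : K) * D 55 67 (1 : K) (1) * X 71 (1 : K)) ⟨w3, S.w3_mem, ?_⟩ ?_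
  · simp only [conj_mul', w3_16, w3_17, w3_23]
    all_goals e6_close
  refine Good.of_rel (y := X 65 (1 : K) * D 55 67 (1 : K) (1) * X 71 (1 : K)) ⟨w0, S.w0_mem, ?_⟩ ?_
  · simp only [conj_mul', w0_16, w0_19, w0_23]
    all_goals e6_close
  refine Good.of_rel (y := X 65 (1 : K) * D 55 67 (1 : K) (1)) (rel_of_eq (S.mem_10 (map_one σ)) ?_) ?_
  · e6_close
  exact Or.inr (Or.inr (Or.inr (Rel.refl q _)))

theorem Setting.link_b : Good q (X 60 (1 : K)) := by
  refine Good.of_rel (y := X 63 (1 : K)) ⟨w1, S.w1_mem, ?_⟩ ?_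
  · simp only [conj_mul', w1_14]
    all_goals e6_close
  refine Good.of_rel (y := X 65 (1 : K)) ⟨w0, S.w0_mem, ?_⟩ ?_
  · simp only [conj_mul', w0_16]
    all_goals e6_close
  refine Good.of_rel (y := X 69 (1 : K)) ⟨w3, S.w3_mem, ?_⟩ ?_
  · simp only [conj_mul', w3_18]
    all_goals e6_close
  refine Good.of_rel (y := X 70 (1 : K)) ⟨w0, S.w0_mem, ?_⟩ ?_
  · simp only [conj_mul', w0_21]
    all_goals e6_close
  refine Good.of_rel (y := X 71 (1 : K)) ⟨w1, S.w1_mem, ?_⟩ ?_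
  · simp only [conj_mul', w1_22]
    all_goals e6_close
  exact Or.inr (Or.inl (Rel.refl q _))

theorem Setting.link_bs : Good q (X 60 (1 : K) * D 49 61 (1 : K) (1)) := by
  refine Good.of_rel (y := X 60 (1 : K) * D 52 62 (1 : K) (1)) ⟨w3, S.w3_mem, ?_⟩ ?_
  · simp only [conj_mul', w3_14, w3_12]
    all_goals e6_close
  refine Good.of_rel (y := X 60 (1 : K) * D 54 64 (1 : K) (1)) ⟨w0, S.w0_mem, ?_⟩ ?_
  · simp only [conj_mul', w0_14, w0_15]
    all_goals e6_close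
  refine Good.of_rel (y := X 63 (1 : K) * D 54 64 (1 : K) (1)) ⟨w1, S.w1_mem, ?_⟩ ?_
  · simp only [conj_mul', w1_14, w1_17]
    all_goals e6_close
  refine Good.of_rel (y := X 63 (1 : K) * D 55 67 (1 : K) (1)) ⟨w3, S.w3_mem, ?_⟩ ?_
  · simp only [conj_mul', w3_16, w3_17]
    all_goals e6_close
  refine Good.of_rel (y := X 65 (1 : K) * D 55 67 (1 : K) (1)) ⟨w0, S.w0_mem, ?_⟩ ?_
  · simp only [conj_mul', w0_16, w0_19]
    all_goals e6_close
  exact Or.inr (Or.inr (Or.inr (Rel.refl q _)))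

theorem Setting.link_bz : Good q (X 60 (1 : K) * X 71 (1 : K)) := by
  obtain ⟨ω, hω⟩ := S.exists_omega
  have hs : σ ω = ω + 1 := by grind
  refine Good.of_rel (y := X 63 (1 : K) * X 70 (1 : K)) ⟨w1, S.w1_mem, ?_⟩ ?_
  · simp only [conj_mul', w1_14, w1_23]
    all_goals e6_close
  refine Good.of_rel (y := X 65 (1 : K) * X 69 (1 : K)) ⟨w0, S.w0_mem, ?_⟩ ?_
  · simp only [conj_mul', w0_16, w0_22]
    all_goals e6_close
  refine Good.of_rel (y := X 65 (1 : K) * D 66 68 (1 : K) (1)) (rel_of_eq (h := D 37 42 (1 : K) 1) (by simpa using S.mem_3 1) ?_) ?_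
  · e6_close
  refine Good.of_rel (y := D 66 68 (1 : K) (1) * X 69 (1 : K)) ⟨w3, S.w3_mem, ?_⟩ ?_
  · simp only [conj_mul', w3_18, w3_20]
    all_goals e6_close
  refine Good.of_rel (y := D 66 68 (1 : K) (1)) (rel_of_eq (h := D 37 42 ω (ω + 1)) (by simpa [hs] using S.mem_3 ω) ?_) ?_
  · e6_close
  exact Or.inr (Or.inr (Or.inl (Rel.refl q _)))

theorem Setting.link_cc : Good q (X 44 (1 : K) * X 60 (1 : K)) := by
  obtain ⟨ω, hω⟩ := S.exists_omega
  have hs : σ ω = ω + 1 := by grind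
  refine Good.of_rel (y := X 51 (1 : K) * X 63 (1 : K)) ⟨w1, S.w1_mem, ?_⟩ ?_
  · simp only [conj_mul', w1_7, w1_14]
    all_goals e6_close
  refine Good.of_rel (y := X 53 (1 : K) * X 65 (1 : K)) ⟨w0, S.w0_mem, ?_⟩ ?_
  · simp only [conj_mul', w0_10, w0_16]
    all_goals e6_close
  refine Good.of_rel (y := X 53 (1 : K) * X 69 (1 : K)) ⟨w3, S.w3_mem, ?_⟩ ?_
  · simp only [conj_mul', w3_13, w3_18]
    all_goals e6_close
  refine Good.of_rel (y := X 65 (1 : K) * X 69 (1 : K)) ⟨w2, S.w2_mem, ?_⟩ ?_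
  · simp only [conj_mul', w2_13, w2_21]
    all_goals e6_close
  refine Good.of_rel (y := X 65 (1 : K) * D 66 68 (1 : K) (1)) (rel_of_eq (h := D 37 42 (1 : K) 1) (by simpa using S.mem_3 1) ?_) ?_
  · e6_close
  refine Good.of_rel (y := D 66 68 (1 : K) (1) * X 69 (1 : K)) ⟨w3, S.w3_mem, ?_⟩ ?_
  · simp only [conj_mul', w3_18, w3_20]
    all_goals e6_close
  refine Good.of_rel (y := D 66 68 (1 : K) (1)) (rel_of_eq (h := D 37 42 ω (ω + 1)) (by simpa [hs] using S.mem_3 ω) ?_) ?_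
  · e6_close
  exact Or.inr (Or.inr (Or.inl (Rel.refl q _)))

theorem Setting.link_cs : Good q (X 44 (1 : K) * X 60 (1 : K) * D 52 62 (1 : K) (1)) := by
  refine Good.of_rel (y := X 44 (1 : K) * X 60 (1 : K) * D 54 64 (1 : K) (1)) ⟨w0, S.w0_mem, ?_⟩ ?_
  · simp only [conj_mul', w0_7, w0_14, w0_15]
    all_goals e6_close
  refine Good.of_rel (y := X 51 (1 : K) * X 63 (1 : K) * D 54 64 (1 : K) (1)) ⟨w1, S.w1_mem, ?_⟩ ?_
  · simp only [conj_mul', w1_7, w1_14, w1_17]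
    all_goals e6_close
  refine Good.of_rel (y := X 53 (1 : K) * D 52 62 (1 : K) (1) * X 65 (1 : K)) ⟨w0, S.w0_mem, ?_⟩ ?_
  · simp only [conj_mul', w0_10, w0_16, w0_17]
    all_goals e6_close
  refine Good.of_rel (y := X 53 (1 : K) * D 52 62 (1 : K) (1) * D 54 64 (1 : K) (1)) (rel_of_eq (h := D 36 56 (1 : K) 1) (by simpa using S.mem_2 1) ?_) ?_
  · e6_close
  refine Good.of_rel (y := D 52 62 (1 : K) (1) * D 54 64 (1 : K) (1) * X 65 (1 : K)) ⟨w2, S.w2_mem, ?_⟩ ?_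
  · simp only [conj_mul', w2_13, w2_15, w2_17]
    all_goals e6_close
  refine Good.of_rel (y := D 52 62 (1 : K) (1) * X 65 (1 : K) * X 71 (1 : K)) (rel_of_eq (S.mem_0 (map_one σ)) ?_) ?_
  · e6_close
  refine Good.of_rel (y := X 63 (1 : K) * D 54 64 (1 : K) (1) * X 71 (1 : K)) ⟨w0, S.w0_mem, ?_⟩ ?_
  · simp only [conj_mul', w0_15, w0_18, w0_23]
    all_goals e6_close
  refine Good.of_rel (y := X 63 (1 : K) * D 55 67 (1 : K) (1) * X 71 (1 : K)) ⟨w3, S.w3_mem, ?_⟩ ?_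
  · simp only [conj_mul', w3_16, w3_17, w3_23]
    all_goals e6_close
  refine Good.of_rel (y := X 65 (1 : K) * D 55 67 (1 : K) (1) * X 71 (1 : K)) ⟨w0, S.w0_mem, ?_⟩ ?_
  · simp only [conj_mul', w0_16, w0_19, w0_23]
    all_goals e6_close
  refine Good.of_rel (y := X 65 (1 : K) * D 55 67 (1 : K) (1)) (rel_of_eq (S.mem_10 (map_one σ)) ?_) ?_
  · e6_close
  exact Or.inr (Or.inr (Or.inr (Rel.refl q _)))

theorem Setting.link_cz : Good q (X 44 (1 : K) * X 60 (1 : K) * X 71 (1 : K)) := by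
  refine Good.of_rel (y := X 51 (1 : K) * X 63 (1 : K) * X 70 (1 : K)) ⟨w1, S.w1_mem, ?_⟩ ?_
  · simp only [conj_mul', w1_7, w1_14, w1_23]
    all_goals e6_close
  refine Good.of_rel (y := X 53 (1 : K) * X 65 (1 : K) * X 69 (1 : K)) ⟨w0, S.w0_mem, ?_⟩ ?_
  · simp only [conj_mul', w0_10, w0_16, w0_22]
    all_goals e6_close
  refine Good.of_rel (y := X 53 (1 : K) * D 54 64 (1 : K) (1) * X 69 (1 : K)) (rel_of_eq (h := D 36 56 (1 : K) 1) (by simpa using S.mem_2 1) ?_) ?_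
  · e6_close
  refine Good.of_rel (y := D 54 64 (1 : K) (1) * X 65 (1 : K) * X 69 (1 : K)) ⟨w2, S.w2_mem, ?_⟩ ?_
  · simp only [conj_mul', w2_13, w2_17, w2_21]
    all_goals e6_close
  refine Good.of_rel (y := X 65 (1 : K) * D 55 67 (1 : K) (1) * X 69 (1 : K)) ⟨w3, S.w3_mem, ?_⟩ ?_
  · simp only [conj_mul', w3_17, w3_18, w3_21]
    all_goals e6_close
  refine Good.of_rel (y := X 65 (1 : K) * D 55 67 (1 : K) (1) * D 66 68 (1 : K) (1)) (rel_of_eq (h := D 37 42 (1 : K) 1) (by simpa using S.mem_3 1) ?_) ?_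
  · e6_close
  refine Good.of_rel (y := X 65 (1 : K) * D 55 67 (1 : K) (1)) (rel_of_eq (h := D 36 56 (1 : K) 1) (by simpa using S.mem_2 1) ?_) ?_
  · e6_close
  exact Or.inr (Or.inr (Or.inr (Rel.refl q _)))

theorem Setting.link_dd : Good q (X 39 (1 : K) * X 44 (1 : K) * X 60 (1 : K)) := by
  refine Good.of_rel (y := X 47 (1 : K) * X 51 (1 : K) * X 63 (1 : K)) ⟨w1, S.w1_mem, ?_⟩ ?_
  · simp only [conj_mul', w1_0, w1_7, w1_14]
    all_goals e6_close
  refine Good.of_rel (y := X 46 (1 : K) * X 53 (1 : K) * X 65 (1 : K)) ⟨w0, S.w0_mem, ?_⟩ ?_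
  · simp only [conj_mul', w0_4, w0_10, w0_16]
    all_goals e6_close
  refine Good.of_rel (y := X 46 (1 : K) * X 53 (1 : K) * X 69 (1 : K)) ⟨w3, S.w3_mem, ?_⟩ ?_
  · simp only [conj_mul', w3_1, w3_13, w3_18]
    all_goals e6_close
  refine Good.of_rel (y := X 47 (1 : K) * X 51 (1 : K) * X 70 (1 : K)) ⟨w0, S.w0_mem, ?_⟩ ?_
  · simp only [conj_mul', w0_1, w0_13, w0_21]
    all_goals e6_close
  refine Good.of_rel (y := X 47 (1 : K) * X 63 (1 : K) * X 70 (1 : K)) ⟨w2, S.w2_mem, ?_⟩ ?_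
  · simp only [conj_mul', w2_4, w2_10, w2_22]
    all_goals e6_close
  refine Good.of_rel (y := X 51 (1 : K) * X 63 (1 : K) * X 70 (1 : K)) ⟨w3, S.w3_mem, ?_⟩ ?_
  · simp only [conj_mul', w3_4, w3_16, w3_22]
    all_goals e6_close
  refine Good.of_rel (y := X 53 (1 : K) * X 65 (1 : K) * X 69 (1 : K)) ⟨w0, S.w0_mem, ?_⟩ ?_
  · simp only [conj_mul', w0_10, w0_16, w0_22]
    all_goals e6_close
  refine Good.of_rel (y := X 53 (1 : K) * D 54 64 (1 : K) (1) * X 69 (1 : K)) (rel_of_eq (h := D 36 56 (1 : K) 1) (by simpa using S.mem_2 1) ?_) ?_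
  · e6_close
  refine Good.of_rel (y := D 54 64 (1 : K) (1) * X 65 (1 : K) * X 69 (1 : K)) ⟨w2, S.w2_mem, ?_⟩ ?_
  · simp only [conj_mul', w2_13, w2_17, w2_21]
    all_goals e6_close
  refine Good.of_rel (y := X 65 (1 : K) * D 55 67 (1 : K) (1) * X 69 (1 : K)) ⟨w3, S.w3_mem, ?_⟩ ?_
  · simp only [conj_mul', w3_17, w3_18, w3_21]
    all_goals e6_close
  refine Good.of_rel (y := X 65 (1 : K) * D 55 67 (1 : K) (1) * D 66 68 (1 : K) (1)) (rel_of_eq (h := D 37 42 (1 : K) 1) (by simpa using S.mem_3 1) ?_) ?_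
  · e6_close
  refine Good.of_rel (y := X 65 (1 : K) * D 55 67 (1 : K) (1)) (rel_of_eq (h := D 36 56 (1 : K) 1) (by simpa using S.mem_2 1) ?_) ?_
  · e6_close
  exact Or.inr (Or.inr (Or.inr (Rel.refl q _)))

theorem Setting.link_dz : Good q (X 39 (1 : K) * X 44 (1 : K) * X 60 (1 : K) * X 71 (1 : K)) := by
  refine Good.of_rel (y := X 47 (1 : K) * X 51 (1 : K) * X 63 (1 : K) * X 70 (1 : K)) ⟨w1, S.w1_mem, ?_⟩ ?_
  · simp only [conj_mul', w1_0, w1_7, w1_14, w1_23]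
    all_goals e6_close
  refine Good.of_rel (y := X 47 (1 : K) * X 51 (1 : K) * D 52 62 (1 : K) (1) * X 70 (1 : K)) (rel_of_eq (h := D 36 56 (1 : K) 1) (by simpa using S.mem_2 1) ?_) ?_
  · e6_close
  refine Good.of_rel (y := X 47 (1 : K) * D 52 62 (1 : K) (1) * X 63 (1 : K) * X 70 (1 : K)) ⟨w2, S.w2_mem, ?_⟩ ?_
  · simp only [conj_mul', w2_4, w2_10, w2_15, w2_22]
    all_goals e6_close
  refine Good.of_rel (y := X 51 (1 : K) * D 49 61 (1 : K) (1) * X 63 (1 : K) * X 70 (1 : K)) ⟨w3, S.w3_mem, ?_⟩ ?_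
  · simp only [conj_mul', w3_4, w3_15, w3_16, w3_22]
    all_goals e6_close
  refine Good.of_rel (y := D 49 61 (1 : K) (1) * X 53 (1 : K) * X 65 (1 : K) * X 69 (1 : K)) ⟨w0, S.w0_mem, ?_⟩ ?_
  · simp only [conj_mul', w0_10, w0_12, w0_16, w0_22]
    all_goals e6_close
  refine Good.of_rel (y := X 53 (1 : K) * D 52 62 (1 : K) (1) * X 65 (1 : K) * X 69 (1 : K)) ⟨w3, S.w3_mem, ?_⟩ ?_
  · simp only [conj_mul', w3_12, w3_13, w3_18, w3_21]
    all_goals e6_close
  refine Good.of_rel (y := X 53 (1 : K) * D 52 62 (1 : K) (1) * X 65 (1 : K) * D 66 68 (1 : K) (1)) (rel_of_eq (h := D 37 42 (1 : K) 1) (by simpa using S.mem_3 1) ?_) ?_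
  · e6_close
  refine Good.of_rel (y := X 53 (1 : K) * D 52 62 (1 : K) (1) * D 54 64 (1 : K) (1) * D 66 68 (1 : K) (1)) (rel_of_eq (h := D 36 56 (1 : K) 1) (by simpa using S.mem_2 1) ?_) ?_
  · e6_close
  refine Good.of_rel (y := D 52 62 (1 : K) (1) * D 54 64 (1 : K) (1) * X 65 (1 : K) * D 55 67 (1 : K) (1)) ⟨w2, S.w2_mem, ?_⟩ ?_
  · simp only [conj_mul', w2_13, w2_15, w2_17, w2_20]
    all_goals e6_close
  refine Good.of_rel (y := D 52 62 (1 : K) (1) * X 65 (1 : K) * D 55 67 (1 : K) (1) * X 71 (1 : K)) (rel_of_eq (S.mem_0 (map_one σ)) ?_) ?_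
  · e6_close
  refine Good.of_rel (y := X 63 (1 : K) * D 54 64 (1 : K) (1) * D 55 67 (1 : K) (1) * X 71 (1 : K)) ⟨w0, S.w0_mem, ?_⟩ ?_
  · simp only [conj_mul', w0_15, w0_18, w0_19, w0_23]
    all_goals e6_close
  refine Good.of_rel (y := X 63 (1 : K) * D 54 64 (1 : K) (1) * X 71 (1 : K)) (rel_of_eq (h := D 37 42 (1 : K) 1) (by simpa using S.mem_3 1) ?_) ?_
  · e6_close
  refine Good.of_rel (y := X 63 (1 : K) * D 55 67 (1 : K) (1) * X 71 (1 : K)) ⟨w3, S.w3_mem, ?_⟩ ?_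
  · simp only [conj_mul', w3_16, w3_17, w3_23]
    all_goals e6_close
  refine Good.of_rel (y := X 65 (1 : K) * D 55 67 (1 : K) (1) * X 71 (1 : K)) ⟨w0, S.w0_mem, ?_⟩ ?_
  · simp only [conj_mul', w0_16, w0_19, w0_23]
    all_goals e6_close
  refine Good.of_rel (y := X 65 (1 : K) * D 55 67 (1 : K) (1)) (rel_of_eq (S.mem_10 (map_one σ)) ?_) ?_
  · e6_close
  exact Or.inr (Or.inr (Or.inr (Rel.refl q _)))

/-- The base case of the reduction. -/
theorem Setting.base : Base σ q where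
  z := by
    intro c hc c0
    obtain ⟨s, hs, rfl⟩ := S.exists_sqrt hc
    have s0 : s ≠ 0 := fun e => c0 (by rw [e]; simp)
    have hs' : σ s⁻¹ = s⁻¹ := by rw [map_inv₀, hs]
    refine Good.of_rel ⟨_, S.torL_mem 2 3 1 2 hs', rfl⟩ ?_
    have e0 := S.torL_move 2 3 1 2 hs' (inv_ne_zero s0) (t := 71) (by norm_num) 2 (by decide +kernel)
    simp only [conj_mul', D, e0, pow_zero, one_mul, mul_one, inv_pow, map_inv₀, map_pow]
    simp only [inv_mul_cancel₀ (pow_ne_zero 2 s0)]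
    clear e0 s0
    simpa [D, map_one, mul_assoc] using S.link_z
  a := by
    intro c hc c0
    obtain ⟨s, hs, rfl⟩ := S.exists_sqrt hc
    have s0 : s ≠ 0 := fun e => c0 (by rw [e]; simp)
    have hs' : σ s⁻¹ = s⁻¹ := by rw [map_inv₀, hs]
    refine Good.of_rel ⟨_, S.torL_mem 1 0 0 0 hs', rfl⟩ ?_
    have e0 := S.torL_move 1 0 0 0 hs' (inv_ne_zero s0) (t := 46) (by norm_num) 2 (by decide +kernel)
    simp only [conj_mul', D, e0, pow_zero, one_mul, mul_one, inv_pow, map_inv₀, map_pow]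
    simp only [inv_mul_cancel₀ (pow_ne_zero 2 s0)]
    clear e0 s0
    simpa [D, map_one, mul_assoc] using S.link_a
  ab := by
    intro c h hc hh c0 h0
    obtain ⟨s, hs, rfl⟩ := S.exists_sqrt hc
    have s0 : s ≠ 0 := fun e => c0 (by rw [e]; simp)
    have hs' : σ s⁻¹ = s⁻¹ := by rw [map_inv₀, hs]
    refine Good.of_rel ⟨_, S.torL_mem 1 0 0 0 hs', rfl⟩ ?_
    have e0 := S.torL_move 1 0 0 0 hs' (inv_ne_zero s0) (t := 46) (by norm_num) 2 (by decide +kernel)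
    have e1 := S.torL_move 1 0 0 0 hs' (inv_ne_zero s0) (t := 69) (by norm_num) 0 (by decide +kernel)
    simp only [conj_mul', D, e0, e1, pow_zero, one_mul, mul_one, inv_pow, map_inv₀, map_pow]
    simp only [inv_mul_cancel₀ (pow_ne_zero 2 s0)]
    clear e0 e1 s0
    obtain ⟨s, hs, rfl⟩ := S.exists_sqrt hh
    have s0 : s ≠ 0 := fun e => h0 (by rw [e]; simp)
    have hs' : σ s⁻¹ = s⁻¹ := by rw [map_inv₀, hs]
    refine Good.of_rel ⟨_, S.torL_mem 1 2 1 2 hs', rfl⟩ ?_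
    have e0 := S.torL_move 1 2 1 2 hs' (inv_ne_zero s0) (t := 46) (by norm_num) 0 (by decide +kernel)
    have e1 := S.torL_move 1 2 1 2 hs' (inv_ne_zero s0) (t := 69) (by norm_num) 2 (by decide +kernel)
    simp only [conj_mul', D, e0, e1, pow_zero, one_mul, mul_one, inv_pow, map_inv₀, map_pow]
    simp only [inv_mul_cancel₀ (pow_ne_zero 2 s0)]
    clear e0 e1 s0
    simpa [D, map_one, mul_assoc] using S.link_ab
  abc := by
    intro c m h hc hm hh c0 m0 h0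
    obtain ⟨s, hs, rfl⟩ := S.exists_sqrt hc
    have s0 : s ≠ 0 := fun e => c0 (by rw [e]; simp)
    have hs' : σ s⁻¹ = s⁻¹ := by rw [map_inv₀, hs]
    refine Good.of_rel ⟨_, S.torL_mem 1 0 0 0 hs', rfl⟩ ?_
    have e0 := S.torL_move 1 0 0 0 hs' (inv_ne_zero s0) (t := 46) (by norm_num) 2 (by decide +kernel)
    have e1 := S.torL_move 1 0 0 0 hs' (inv_ne_zero s0) (t := 65) (by norm_num) 0 (by decide +kernel)
    have e2 := S.torL_move 1 0 0 0 hs' (inv_ne_zero s0) (t := 69) (by norm_num) 0 (by decide +kernel)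
    simp only [conj_mul', D, e0, e1, e2, pow_zero, one_mul, mul_one, inv_pow, map_inv₀, map_pow]
    simp only [inv_mul_cancel₀ (pow_ne_zero 2 s0)]
    clear e0 e1 e2 s0
    obtain ⟨s, hs, rfl⟩ := S.exists_sqrt hm
    have s0 : s ≠ 0 := fun e => m0 (by rw [e]; simp)
    have hs' : σ s⁻¹ = s⁻¹ := by rw [map_inv₀, hs]
    refine Good.of_rel ⟨_, S.torL_mem 1 2 1 1 hs', rfl⟩ ?_
    have e0 := S.torL_move 1 2 1 1 hs' (inv_ne_zero s0) (t := 46) (by norm_num) 0 (by decide +kernel)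
    have e1 := S.torL_move 1 2 1 1 hs' (inv_ne_zero s0) (t := 65) (by norm_num) 2 (by decide +kernel)
    have e2 := S.torL_move 1 2 1 1 hs' (inv_ne_zero s0) (t := 69) (by norm_num) 0 (by decide +kernel)
    simp only [conj_mul', D, e0, e1, e2, pow_zero, one_mul, mul_one, inv_pow, map_inv₀, map_pow]
    simp only [inv_mul_cancel₀ (pow_ne_zero 2 s0)]
    clear e0 e1 e2 s0
    obtain ⟨s, hs, rfl⟩ := S.exists_sqrt hh
    have s0 : s ≠ 0 := fun e => h0 (by rw [e]; simp)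
    have hs' : σ s⁻¹ = s⁻¹ := by rw [map_inv₀, hs]
    refine Good.of_rel ⟨_, S.torL_mem 1 2 1 2 hs', rfl⟩ ?_
    have e0 := S.torL_move 1 2 1 2 hs' (inv_ne_zero s0) (t := 46) (by norm_num) 0 (by decide +kernel)
    have e1 := S.torL_move 1 2 1 2 hs' (inv_ne_zero s0) (t := 65) (by norm_num) 0 (by decide +kernel)
    have e2 := S.torL_move 1 2 1 2 hs' (inv_ne_zero s0) (t := 69) (by norm_num) 2 (by decide +kernel)
    simp only [conj_mul', D, e0, e1, e2, pow_zero, one_mul, mul_one, inv_pow, map_inv₀, map_pow]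
    simp only [inv_mul_cancel₀ (pow_ne_zero 2 s0)]
    clear e0 e1 e2 s0
    simpa [D, map_one, mul_assoc] using S.link_abc
  abcd := by
    intro c l m h hc hl hm hh c0 l0 m0 h0
    obtain ⟨s, hs, rfl⟩ := S.exists_sqrt hc
    have s0 : s ≠ 0 := fun e => c0 (by rw [e]; simp)
    have hs' : σ s⁻¹ = s⁻¹ := by rw [map_inv₀, hs]
    refine Good.of_rel ⟨_, S.torL_mem 1 0 0 0 hs', rfl⟩ ?_
    have e0 := S.torL_move 1 0 0 0 hs' (inv_ne_zero s0) (t := 46) (by norm_num) 2 (by decide +kernel)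
    have e1 := S.torL_move 1 0 0 0 hs' (inv_ne_zero s0) (t := 53) (by norm_num) 0 (by decide +kernel)
    have e2 := S.torL_move 1 0 0 0 hs' (inv_ne_zero s0) (t := 65) (by norm_num) 0 (by decide +kernel)
    have e3 := S.torL_move 1 0 0 0 hs' (inv_ne_zero s0) (t := 69) (by norm_num) 0 (by decide +kernel)
    simp only [conj_mul', D, e0, e1, e2, e3, pow_zero, one_mul, mul_one, inv_pow, map_inv₀, map_pow]
    simp only [inv_mul_cancel₀ (pow_ne_zero 2 s0)]
    clear e0 e1 e2 e3 s0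
    obtain ⟨s, hs, rfl⟩ := S.exists_sqrt hl
    have s0 : s ≠ 0 := fun e => l0 (by rw [e]; simp)
    have hs' : σ s⁻¹ = s⁻¹ := by rw [map_inv₀, hs]
    refine Good.of_rel ⟨_, S.torL_mem 1 2 0 1 hs', rfl⟩ ?_
    have e0 := S.torL_move 1 2 0 1 hs' (inv_ne_zero s0) (t := 46) (by norm_num) 0 (by decide +kernel)
    have e1 := S.torL_move 1 2 0 1 hs' (inv_ne_zero s0) (t := 53) (by norm_num) 2 (by decide +kernel)
    have e2 := S.torL_move 1 2 0 1 hs' (inv_ne_zero s0) (t := 65) (by norm_num) 0 (by decide +kernel)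
    have e3 := S.torL_move 1 2 0 1 hs' (inv_ne_zero s0) (t := 69) (by norm_num) 0 (by decide +kernel)
    simp only [conj_mul', D, e0, e1, e2, e3, pow_zero, one_mul, mul_one, inv_pow, map_inv₀, map_pow]
    simp only [inv_mul_cancel₀ (pow_ne_zero 2 s0)]
    clear e0 e1 e2 e3 s0
    obtain ⟨s, hs, rfl⟩ := S.exists_sqrt hm
    have s0 : s ≠ 0 := fun e => m0 (by rw [e]; simp)
    have hs' : σ s⁻¹ = s⁻¹ := by rw [map_inv₀, hs]
    refine Good.of_rel ⟨_, S.torL_mem 1 2 1 1 hs', rfl⟩ ?_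
    have e0 := S.torL_move 1 2 1 1 hs' (inv_ne_zero s0) (t := 46) (by norm_num) 0 (by decide +kernel)
    have e1 := S.torL_move 1 2 1 1 hs' (inv_ne_zero s0) (t := 53) (by norm_num) 0 (by decide +kernel)
    have e2 := S.torL_move 1 2 1 1 hs' (inv_ne_zero s0) (t := 65) (by norm_num) 2 (by decide +kernel)
    have e3 := S.torL_move 1 2 1 1 hs' (inv_ne_zero s0) (t := 69) (by norm_num) 0 (by decide +kernel)
    simp only [conj_mul', D, e0, e1, e2, e3, pow_zero, one_mul, mul_one, inv_pow, map_inv₀, map_pow]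
    simp only [inv_mul_cancel₀ (pow_ne_zero 2 s0)]
    clear e0 e1 e2 e3 s0
    obtain ⟨s, hs, rfl⟩ := S.exists_sqrt hh
    have s0 : s ≠ 0 := fun e => h0 (by rw [e]; simp)
    have hs' : σ s⁻¹ = s⁻¹ := by rw [map_inv₀, hs]
    refine Good.of_rel ⟨_, S.torL_mem 1 2 1 2 hs', rfl⟩ ?_
    have e0 := S.torL_move 1 2 1 2 hs' (inv_ne_zero s0) (t := 46) (by norm_num) 0 (by decide +kernel)
    have e1 := S.torL_move 1 2 1 2 hs' (inv_ne_zero s0) (t := 53) (by norm_num) 0 (by decide +kernel)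
    have e2 := S.torL_move 1 2 1 2 hs' (inv_ne_zero s0) (t := 65) (by norm_num) 0 (by decide +kernel)
    have e3 := S.torL_move 1 2 1 2 hs' (inv_ne_zero s0) (t := 69) (by norm_num) 2 (by decide +kernel)
    simp only [conj_mul', D, e0, e1, e2, e3, pow_zero, one_mul, mul_one, inv_pow, map_inv₀, map_pow]
    simp only [inv_mul_cancel₀ (pow_ne_zero 2 s0)]
    clear e0 e1 e2 e3 s0
    simpa [D, map_one, mul_assoc] using S.link_abcd
  b := by
    intro c hc c0
    obtain ⟨s, hs, rfl⟩ := S.exists_sqrt hc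
    have s0 : s ≠ 0 := fun e => c0 (by rw [e]; simp)
    have hs' : σ s⁻¹ = s⁻¹ := by rw [map_inv₀, hs]
    refine Good.of_rel ⟨_, S.torL_mem 0 1 1 1 hs', rfl⟩ ?_
    have e0 := S.torL_move 0 1 1 1 hs' (inv_ne_zero s0) (t := 60) (by norm_num) 2 (by decide +kernel)
    simp only [conj_mul', D, e0, pow_zero, one_mul, mul_one, inv_pow, map_inv₀, map_pow]
    simp only [inv_mul_cancel₀ (pow_ne_zero 2 s0)]
    clear e0 s0
    simpa [D, map_one, mul_assoc] using S.link_b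
  bs := by
    intro c x hc c0 x0
    obtain ⟨s, hs, rfl⟩ := S.exists_sqrt hc
    have s0 : s ≠ 0 := fun e => c0 (by rw [e]; simp)
    have hs' : σ s⁻¹ = s⁻¹ := by rw [map_inv₀, hs]
    refine Good.of_rel ⟨_, S.torL_mem 0 1 1 1 hs', rfl⟩ ?_
    have e0 := S.torL_move 0 1 1 1 hs' (inv_ne_zero s0) (t := 60) (by norm_num) 2 (by decide +kernel)
    have e1 := S.torL_move 0 1 1 1 hs' (inv_ne_zero s0) (t := 49) (by norm_num) 0 (by decide +kernel)
    have e2 := S.torL_move 0 1 1 1 hs' (inv_ne_zero s0) (t := 61) (by norm_num) 0 (by decide +kernel)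
    simp only [conj_mul', D, e0, e1, e2, pow_zero, one_mul, mul_one, inv_pow, map_inv₀, map_pow]
    simp only [inv_mul_cancel₀ (pow_ne_zero 2 s0)]
    clear e0 e1 e2 s0
    have := S.finite
    obtain ⟨s, hs⟩ := surjective_frobenius K 2 x
    rw [frobenius_def] at hs
    subst hs
    have s0 : s ≠ 0 := fun e => x0 (by rw [e]; simp)
    refine Good.of_rel ⟨_, S.torS_mem 1 1 1 0 1 0 s⁻¹, rfl⟩ ?_
    have e0 := S.torS_move 1 1 1 0 1 0 (inv_ne_zero s0) (t := 60) (by norm_num) 0 0 (by decide +kernel) (by decide +kernel)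
    have e1 := S.torS_move 1 1 1 0 1 0 (inv_ne_zero s0) (t := 49) (by norm_num) 2 0 (by decide +kernel) (by decide +kernel)
    have e2 := S.torS_move 1 1 1 0 1 0 (inv_ne_zero s0) (t := 61) (by norm_num) 0 2 (by decide +kernel) (by decide +kernel)
    simp only [conj_mul', D, e0, e1, e2, pow_zero, one_mul, mul_one, inv_pow, map_inv₀, map_pow]
    simp only [inv_mul_cancel₀ (pow_ne_zero 2 s0), inv_mul_cancel₀ (pow_ne_zero 2 ((map_ne_zero σ).2 s0))]
    clear e0 e1 e2 s0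
    simpa [D, map_one, mul_assoc] using S.link_bs
  bz := by
    intro c z hc hz c0 z0
    obtain ⟨s, hs, rfl⟩ := S.exists_sqrt hc
    have s0 : s ≠ 0 := fun e => c0 (by rw [e]; simp)
    have hs' : σ s⁻¹ = s⁻¹ := by rw [map_inv₀, hs]
    refine Good.of_rel ⟨_, S.torL_mem 0 1 1 1 hs', rfl⟩ ?_
    have e0 := S.torL_move 0 1 1 1 hs' (inv_ne_zero s0) (t := 60) (by norm_num) 2 (by decide +kernel)
    have e1 := S.torL_move 0 1 1 1 hs' (inv_ne_zero s0) (t := 71) (by norm_num) 0 (by decide +kernel)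
    simp only [conj_mul', D, e0, e1, pow_zero, one_mul, mul_one, inv_pow, map_inv₀, map_pow]
    simp only [inv_mul_cancel₀ (pow_ne_zero 2 s0)]
    clear e0 e1 s0
    obtain ⟨s, hs, rfl⟩ := S.exists_sqrt hz
    have s0 : s ≠ 0 := fun e => z0 (by rw [e]; simp)
    have hs' : σ s⁻¹ = s⁻¹ := by rw [map_inv₀, hs]
    refine Good.of_rel ⟨_, S.torL_mem 2 3 1 2 hs', rfl⟩ ?_
    have e0 := S.torL_move 2 3 1 2 hs' (inv_ne_zero s0) (t := 60) (by norm_num) 0 (by decide +kernel)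
    have e1 := S.torL_move 2 3 1 2 hs' (inv_ne_zero s0) (t := 71) (by norm_num) 2 (by decide +kernel)
    simp only [conj_mul', D, e0, e1, pow_zero, one_mul, mul_one, inv_pow, map_inv₀, map_pow]
    simp only [inv_mul_cancel₀ (pow_ne_zero 2 s0)]
    clear e0 e1 s0
    simpa [D, map_one, mul_assoc] using S.link_bz
  cc := by
    intro m h hm hh m0 h0
    obtain ⟨s, hs, rfl⟩ := S.exists_sqrt hm
    have s0 : s ≠ 0 := fun e => m0 (by rw [e]; simp)
    have hs' : σ s⁻¹ = s⁻¹ := by rw [map_inv₀, hs]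
    refine Good.of_rel ⟨_, S.torL_mem 0 1 0 1 hs', rfl⟩ ?_
    have e0 := S.torL_move 0 1 0 1 hs' (inv_ne_zero s0) (t := 44) (by norm_num) 2 (by decide +kernel)
    have e1 := S.torL_move 0 1 0 1 hs' (inv_ne_zero s0) (t := 60) (by norm_num) 0 (by decide +kernel)
    simp only [conj_mul', D, e0, e1, pow_zero, one_mul, mul_one, inv_pow, map_inv₀, map_pow]
    simp only [inv_mul_cancel₀ (pow_ne_zero 2 s0)]
    clear e0 e1 s0
    obtain ⟨s, hs, rfl⟩ := S.exists_sqrt hh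
    have s0 : s ≠ 0 := fun e => h0 (by rw [e]; simp)
    have hs' : σ s⁻¹ = s⁻¹ := by rw [map_inv₀, hs]
    refine Good.of_rel ⟨_, S.torL_mem 0 1 1 1 hs', rfl⟩ ?_
    have e0 := S.torL_move 0 1 1 1 hs' (inv_ne_zero s0) (t := 44) (by norm_num) 0 (by decide +kernel)
    have e1 := S.torL_move 0 1 1 1 hs' (inv_ne_zero s0) (t := 60) (by norm_num) 2 (by decide +kernel)
    simp only [conj_mul', D, e0, e1, pow_zero, one_mul, mul_one, inv_pow, map_inv₀, map_pow]
    simp only [inv_mul_cancel₀ (pow_ne_zero 2 s0)]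
    clear e0 e1 s0
    simpa [D, map_one, mul_assoc] using S.link_cc
  cs := by
    intro m h x hm hh m0 h0 x0
    obtain ⟨s, hs, rfl⟩ := S.exists_sqrt hm
    have s0 : s ≠ 0 := fun e => m0 (by rw [e]; simp)
    have hs' : σ s⁻¹ = s⁻¹ := by rw [map_inv₀, hs]
    refine Good.of_rel ⟨_, S.torL_mem 0 1 0 1 hs', rfl⟩ ?_
    have e0 := S.torL_move 0 1 0 1 hs' (inv_ne_zero s0) (t := 44) (by norm_num) 2 (by decide +kernel)
    have e1 := S.torL_move 0 1 0 1 hs' (inv_ne_zero s0) (t := 60) (by norm_num) 0 (by decide +kernel)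
    have e2 := S.torL_move 0 1 0 1 hs' (inv_ne_zero s0) (t := 52) (by norm_num) 0 (by decide +kernel)
    have e3 := S.torL_move 0 1 0 1 hs' (inv_ne_zero s0) (t := 62) (by norm_num) 0 (by decide +kernel)
    simp only [conj_mul', D, e0, e1, e2, e3, pow_zero, one_mul, mul_one, inv_pow, map_inv₀, map_pow]
    simp only [inv_mul_cancel₀ (pow_ne_zero 2 s0)]
    clear e0 e1 e2 e3 s0
    obtain ⟨s, hs, rfl⟩ := S.exists_sqrt hh
    have s0 : s ≠ 0 := fun e => h0 (by rw [e]; simp)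
    have hs' : σ s⁻¹ = s⁻¹ := by rw [map_inv₀, hs]
    refine Good.of_rel ⟨_, S.torL_mem 0 1 1 1 hs', rfl⟩ ?_
    have e0 := S.torL_move 0 1 1 1 hs' (inv_ne_zero s0) (t := 44) (by norm_num) 0 (by decide +kernel)
    have e1 := S.torL_move 0 1 1 1 hs' (inv_ne_zero s0) (t := 60) (by norm_num) 2 (by decide +kernel)
    have e2 := S.torL_move 0 1 1 1 hs' (inv_ne_zero s0) (t := 52) (by norm_num) 0 (by decide +kernel)
    have e3 := S.torL_move 0 1 1 1 hs' (inv_ne_zero s0) (t := 62) (by norm_num) 0 (by decide +kernel)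
    simp only [conj_mul', D, e0, e1, e2, e3, pow_zero, one_mul, mul_one, inv_pow, map_inv₀, map_pow]
    simp only [inv_mul_cancel₀ (pow_ne_zero 2 s0)]
    clear e0 e1 e2 e3 s0
    have := S.finite
    obtain ⟨s, hs⟩ := surjective_frobenius K 2 x
    rw [frobenius_def] at hs
    subst hs
    have s0 : s ≠ 0 := fun e => x0 (by rw [e]; simp)
    refine Good.of_rel ⟨_, S.torS_mem 1 1 1 0 1 1 s⁻¹, rfl⟩ ?_
    have e0 := S.torS_move 1 1 1 0 1 1 (inv_ne_zero s0) (t := 44) (by norm_num) 0 0 (by decide +kernel) (by decide +kernel)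
    have e1 := S.torS_move 1 1 1 0 1 1 (inv_ne_zero s0) (t := 60) (by norm_num) 0 0 (by decide +kernel) (by decide +kernel)
    have e2 := S.torS_move 1 1 1 0 1 1 (inv_ne_zero s0) (t := 52) (by norm_num) 2 0 (by decide +kernel) (by decide +kernel)
    have e3 := S.torS_move 1 1 1 0 1 1 (inv_ne_zero s0) (t := 62) (by norm_num) 0 2 (by decide +kernel) (by decide +kernel)
    simp only [conj_mul', D, e0, e1, e2, e3, pow_zero, one_mul, mul_one, inv_pow, map_inv₀, map_pow]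
    simp only [inv_mul_cancel₀ (pow_ne_zero 2 s0), inv_mul_cancel₀ (pow_ne_zero 2 ((map_ne_zero σ).2 s0))]
    clear e0 e1 e2 e3 s0
    simpa [D, map_one, mul_assoc] using S.link_cs
  cz := by
    intro m h z hm hh hz m0 h0 z0
    obtain ⟨s, hs, rfl⟩ := S.exists_sqrt hm
    have s0 : s ≠ 0 := fun e => m0 (by rw [e]; simp)
    have hs' : σ s⁻¹ = s⁻¹ := by rw [map_inv₀, hs]
    refine Good.of_rel ⟨_, S.torL_mem 0 1 0 1 hs', rfl⟩ ?_
    have e0 := S.torL_move 0 1 0 1 hs' (inv_ne_zero s0) (t := 44) (by norm_num) 2 (by decide +kernel)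
    have e1 := S.torL_move 0 1 0 1 hs' (inv_ne_zero s0) (t := 60) (by norm_num) 0 (by decide +kernel)
    have e2 := S.torL_move 0 1 0 1 hs' (inv_ne_zero s0) (t := 71) (by norm_num) 0 (by decide +kernel)
    simp only [conj_mul', D, e0, e1, e2, pow_zero, one_mul, mul_one, inv_pow, map_inv₀, map_pow]
    simp only [inv_mul_cancel₀ (pow_ne_zero 2 s0)]
    clear e0 e1 e2 s0
    obtain ⟨s, hs, rfl⟩ := S.exists_sqrt hh
    have s0 : s ≠ 0 := fun e => h0 (by rw [e]; simp)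
    have hs' : σ s⁻¹ = s⁻¹ := by rw [map_inv₀, hs]
    refine Good.of_rel ⟨_, S.torL_mem 0 1 1 1 hs', rfl⟩ ?_
    have e0 := S.torL_move 0 1 1 1 hs' (inv_ne_zero s0) (t := 44) (by norm_num) 0 (by decide +kernel)
    have e1 := S.torL_move 0 1 1 1 hs' (inv_ne_zero s0) (t := 60) (by norm_num) 2 (by decide +kernel)
    have e2 := S.torL_move 0 1 1 1 hs' (inv_ne_zero s0) (t := 71) (by norm_num) 0 (by decide +kernel)
    simp only [conj_mul', D, e0, e1, e2, pow_zero, one_mul, mul_one, inv_pow, map_inv₀, map_pow]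
    simp only [inv_mul_cancel₀ (pow_ne_zero 2 s0)]
    clear e0 e1 e2 s0
    obtain ⟨s, hs, rfl⟩ := S.exists_sqrt hz
    have s0 : s ≠ 0 := fun e => z0 (by rw [e]; simp)
    have hs' : σ s⁻¹ = s⁻¹ := by rw [map_inv₀, hs]
    refine Good.of_rel ⟨_, S.torL_mem 2 3 1 2 hs', rfl⟩ ?_
    have e0 := S.torL_move 2 3 1 2 hs' (inv_ne_zero s0) (t := 44) (by norm_num) 0 (by decide +kernel)
    have e1 := S.torL_move 2 3 1 2 hs' (inv_ne_zero s0) (t := 60) (by norm_num) 0 (by decide +kernel)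
    have e2 := S.torL_move 2 3 1 2 hs' (inv_ne_zero s0) (t := 71) (by norm_num) 2 (by decide +kernel)
    simp only [conj_mul', D, e0, e1, e2, pow_zero, one_mul, mul_one, inv_pow, map_inv₀, map_pow]
    simp only [inv_mul_cancel₀ (pow_ne_zero 2 s0)]
    clear e0 e1 e2 s0
    simpa [D, map_one, mul_assoc] using S.link_cz
  dd := by
    intro l m h hl hm hh l0 m0 h0
    obtain ⟨s, hs, rfl⟩ := S.exists_sqrt hl
    have s0 : s ≠ 0 := fun e => l0 (by rw [e]; simp)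
    have hs' : σ s⁻¹ = s⁻¹ := by rw [map_inv₀, hs]
    refine Good.of_rel ⟨_, S.torL_mem 0 1 0 0 hs', rfl⟩ ?_
    have e0 := S.torL_move 0 1 0 0 hs' (inv_ne_zero s0) (t := 39) (by norm_num) 2 (by decide +kernel)
    have e1 := S.torL_move 0 1 0 0 hs' (inv_ne_zero s0) (t := 44) (by norm_num) 0 (by decide +kernel)
    have e2 := S.torL_move 0 1 0 0 hs' (inv_ne_zero s0) (t := 60) (by norm_num) 0 (by decide +kernel)
    simp only [conj_mul', D, e0, e1, e2, pow_zero, one_mul, mul_one, inv_pow, map_inv₀, map_pow]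
    simp only [inv_mul_cancel₀ (pow_ne_zero 2 s0)]
    clear e0 e1 e2 s0
    obtain ⟨s, hs, rfl⟩ := S.exists_sqrt hm
    have s0 : s ≠ 0 := fun e => m0 (by rw [e]; simp)
    have hs' : σ s⁻¹ = s⁻¹ := by rw [map_inv₀, hs]
    refine Good.of_rel ⟨_, S.torL_mem 0 1 0 1 hs', rfl⟩ ?_
    have e0 := S.torL_move 0 1 0 1 hs' (inv_ne_zero s0) (t := 39) (by norm_num) 0 (by decide +kernel)
    have e1 := S.torL_move 0 1 0 1 hs' (inv_ne_zero s0) (t := 44) (by norm_num) 2 (by decide +kernel)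
    have e2 := S.torL_move 0 1 0 1 hs' (inv_ne_zero s0) (t := 60) (by norm_num) 0 (by decide +kernel)
    simp only [conj_mul', D, e0, e1, e2, pow_zero, one_mul, mul_one, inv_pow, map_inv₀, map_pow]
    simp only [inv_mul_cancel₀ (pow_ne_zero 2 s0)]
    clear e0 e1 e2 s0
    obtain ⟨s, hs, rfl⟩ := S.exists_sqrt hh
    have s0 : s ≠ 0 := fun e => h0 (by rw [e]; simp)
    have hs' : σ s⁻¹ = s⁻¹ := by rw [map_inv₀, hs]
    refine Good.of_rel ⟨_, S.torL_mem 0 1 1 1 hs', rfl⟩ ?_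
    have e0 := S.torL_move 0 1 1 1 hs' (inv_ne_zero s0) (t := 39) (by norm_num) 0 (by decide +kernel)
    have e1 := S.torL_move 0 1 1 1 hs' (inv_ne_zero s0) (t := 44) (by norm_num) 0 (by decide +kernel)
    have e2 := S.torL_move 0 1 1 1 hs' (inv_ne_zero s0) (t := 60) (by norm_num) 2 (by decide +kernel)
    simp only [conj_mul', D, e0, e1, e2, pow_zero, one_mul, mul_one, inv_pow, map_inv₀, map_pow]
    simp only [inv_mul_cancel₀ (pow_ne_zero 2 s0)]
    clear e0 e1 e2 s0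
    simpa [D, map_one, mul_assoc] using S.link_dd
  dz := by
    intro l m h z hl hm hh hz l0 m0 h0 z0
    obtain ⟨s, hs, rfl⟩ := S.exists_sqrt hl
    have s0 : s ≠ 0 := fun e => l0 (by rw [e]; simp)
    have hs' : σ s⁻¹ = s⁻¹ := by rw [map_inv₀, hs]
    refine Good.of_rel ⟨_, S.torL_mem 0 1 0 0 hs', rfl⟩ ?_
    have e0 := S.torL_move 0 1 0 0 hs' (inv_ne_zero s0) (t := 39) (by norm_num) 2 (by decide +kernel)
    have e1 := S.torL_move 0 1 0 0 hs' (inv_ne_zero s0) (t := 44) (by norm_num) 0 (by decide +kernel)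
    have e2 := S.torL_move 0 1 0 0 hs' (inv_ne_zero s0) (t := 60) (by norm_num) 0 (by decide +kernel)
    have e3 := S.torL_move 0 1 0 0 hs' (inv_ne_zero s0) (t := 71) (by norm_num) 0 (by decide +kernel)
    simp only [conj_mul', D, e0, e1, e2, e3, pow_zero, one_mul, mul_one, inv_pow, map_inv₀, map_pow]
    simp only [inv_mul_cancel₀ (pow_ne_zero 2 s0)]
    clear e0 e1 e2 e3 s0
    obtain ⟨s, hs, rfl⟩ := S.exists_sqrt hm
    have s0 : s ≠ 0 := fun e => m0 (by rw [e]; simp)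
    have hs' : σ s⁻¹ = s⁻¹ := by rw [map_inv₀, hs]
    refine Good.of_rel ⟨_, S.torL_mem 0 1 0 1 hs', rfl⟩ ?_
    have e0 := S.torL_move 0 1 0 1 hs' (inv_ne_zero s0) (t := 39) (by norm_num) 0 (by decide +kernel)
    have e1 := S.torL_move 0 1 0 1 hs' (inv_ne_zero s0) (t := 44) (by norm_num) 2 (by decide +kernel)
    have e2 := S.torL_move 0 1 0 1 hs' (inv_ne_zero s0) (t := 60) (by norm_num) 0 (by decide +kernel)
    have e3 := S.torL_move 0 1 0 1 hs' (inv_ne_zero s0) (t := 71) (by norm_num) 0 (by decide +kernel)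
    simp only [conj_mul', D, e0, e1, e2, e3, pow_zero, one_mul, mul_one, inv_pow, map_inv₀, map_pow]
    simp only [inv_mul_cancel₀ (pow_ne_zero 2 s0)]
    clear e0 e1 e2 e3 s0
    obtain ⟨s, hs, rfl⟩ := S.exists_sqrt hh
    have s0 : s ≠ 0 := fun e => h0 (by rw [e]; simp)
    have hs' : σ s⁻¹ = s⁻¹ := by rw [map_inv₀, hs]
    refine Good.of_rel ⟨_, S.torL_mem 0 1 1 1 hs', rfl⟩ ?_
    have e0 := S.torL_move 0 1 1 1 hs' (inv_ne_zero s0) (t := 39) (by norm_num) 0 (by decide +kernel)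
    have e1 := S.torL_move 0 1 1 1 hs' (inv_ne_zero s0) (t := 44) (by norm_num) 0 (by decide +kernel)
    have e2 := S.torL_move 0 1 1 1 hs' (inv_ne_zero s0) (t := 60) (by norm_num) 2 (by decide +kernel)
    have e3 := S.torL_move 0 1 1 1 hs' (inv_ne_zero s0) (t := 71) (by norm_num) 0 (by decide +kernel)
    simp only [conj_mul', D, e0, e1, e2, e3, pow_zero, one_mul, mul_one, inv_pow, map_inv₀, map_pow]
    simp only [inv_mul_cancel₀ (pow_ne_zero 2 s0)]
    clear e0 e1 e2 e3 s0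
    obtain ⟨s, hs, rfl⟩ := S.exists_sqrt hz
    have s0 : s ≠ 0 := fun e => z0 (by rw [e]; simp)
    have hs' : σ s⁻¹ = s⁻¹ := by rw [map_inv₀, hs]
    refine Good.of_rel ⟨_, S.torL_mem 2 3 1 2 hs', rfl⟩ ?_
    have e0 := S.torL_move 2 3 1 2 hs' (inv_ne_zero s0) (t := 39) (by norm_num) 0 (by decide +kernel)
    have e1 := S.torL_move 2 3 1 2 hs' (inv_ne_zero s0) (t := 44) (by norm_num) 0 (by decide +kernel)
    have e2 := S.torL_move 2 3 1 2 hs' (inv_ne_zero s0) (t := 60) (by norm_num) 0 (by decide +kernel)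
    have e3 := S.torL_move 2 3 1 2 hs' (inv_ne_zero s0) (t := 71) (by norm_num) 2 (by decide +kernel)
    simp only [conj_mul', D, e0, e1, e2, e3, pow_zero, one_mul, mul_one, inv_pow, map_inv₀, map_pow]
    simp only [inv_mul_cancel₀ (pow_ne_zero 2 s0)]
    clear e0 e1 e2 e3 s0
    simpa [D, map_one, mul_assoc] using S.link_dz

end CfsgLib.TwistedE6Involutions
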