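import Cfsg.Agent.Lib.TwistedE6Involutions.Group
import Cfsg.Agent.S1066

/-!
`²E₆(q)`, `q` even: the torus, and every involution is conjugate into `U¹`.
-/

set_option autoImplicit false
set_option linter.all false
set_option maxRecDepth 20000
set_option maxHeartbeats 1000000

namespace CfsgLib.TwistedE6Involutions

open Cfsg.Lie CfsgLib.Chevalley CfsgLib.Twisted

variable {K : Type*} [Field K] [CharP K 2]

/-- Reflections square to one and negate the corresponding Cartan integer; orthogonal ones commute. -/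
theorem torus_table : ∀ r : Fin 72,
    (∀ i : Fin 6, chevE6.reflectRoot i r < 72 ∧ chevE6.reflectRoot i (chevE6.reflectRoot i r) = r ∧
      -chevE6.cartan i (chevE6.reflectRoot i r) = chevE6.cartan i r) ∧
    (chevE6.reflectRoot 5 (chevE6.reflectRoot 0 r) = chevE6.reflectRoot 0 (chevE6.reflectRoot 5 r) ∧
      chevE6.cartan 5 (chevE6.reflectRoot 0 r) = chevE6.cartan 5 r ∧
      chevE6.reflectRoot 4 (chevE6.reflectRoot 2 r) = chevE6.reflectRoot 2 (chevE6.reflectRoot 4 r) ∧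
      chevE6.cartan 4 (chevE6.reflectRoot 2 r) = chevE6.cartan 4 r) := by
  decide +kernel

theorem hNode_move (i : Fin chevE6.rank) {r : ℕ} (hr : r < 72) {x : K} (hx : x ≠ 0) (t : K) :
    nG full.cert (chevE6.simple i) x * nG full.cert (chevE6.simple i) 1 * X r t *
      (nG full.cert (chevE6.simple i) x * nG full.cert (chevE6.simple i) 1)⁻¹ =
        X r (x ^ chevE6.cartan i r * t) := by
  obtain ⟨h1, h2, h3⟩ := (torus_table ⟨r, hr⟩).1 ⟨i, i.isLt⟩
  rw [← conj_simple_pow (K := K) i h1 h2 h3 hx t, ← conj_simple (K := K) i hr rfl t]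
  group

/-- A torus element of the fixed nodes. -/
noncomputable def hL (s : ℕ) (x : K) : GL chevE6.Idx K := nG full.cert s x * nG full.cert s 1

/-- A torus element of a pair of nodes. -/
noncomputable def hS (a b : ℕ) (σ : K →+* K) (x : K) : GL chevE6.Idx K :=
  nG full.cert a x * nG full.cert b (σ x) * (nG full.cert a 1 * nG full.cert b 1)

theorem hL_move (i : Fin chevE6.rank) {r : ℕ} (hr : r < 72) {x : K} (hx : x ≠ 0) (t : K) :
    hL (chevE6.simple i) x * X r t * (hL (chevE6.simple i) x)⁻¹ = X r (x ^ chevE6.cartan i r * t) :=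
  hNode_move i hr hx t

theorem hS_move {i j : Fin chevE6.rank} (hij : (i, j) = (⟨5, by decide⟩, ⟨0, by decide⟩) ∨
      (i, j) = (⟨4, by decide⟩, ⟨2, by decide⟩))
    (σ : K →+* K) {r : ℕ} (hr : r < 72) {x : K} (hx : x ≠ 0) (t : K) :
    hS (chevE6.simple i) (chevE6.simple j) σ x * X r t * (hS (chevE6.simple i) (chevE6.simple j) σ x)⁻¹ =
      X r (x ^ chevE6.cartan i r * σ x ^ chevE6.cartan j r * t) := by
  have hx' : σ x ≠ 0 := (map_ne_zero σ).2 hx
  set r1 := chevE6.reflectRoot j r with hr1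
  obtain ⟨h11, h12, h13⟩ := (torus_table ⟨r, hr⟩).1 ⟨j, j.isLt⟩
  set r2 := chevE6.reflectRoot i r1 with hr2
  obtain ⟨h21, h22, h23⟩ := (torus_table ⟨r1, h11⟩).1 ⟨i, i.isLt⟩
  set r3 := chevE6.reflectRoot j r2 with hr3
  obtain ⟨h31, h32, h33⟩ := (torus_table ⟨r2, h21⟩).1 ⟨j, j.isLt⟩
  have key : chevE6.reflectRoot i r3 = r ∧ -chevE6.cartan j r2 = chevE6.cartan j r ∧
      -chevE6.cartan i r3 = chevE6.cartan i r := by
    have : ∀ r : Fin 72, ∀ p ∈ [(5, 0), (4, 2)],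
        chevE6.reflectRoot p.1 (chevE6.reflectRoot p.2 (chevE6.reflectRoot p.1 (chevE6.reflectRoot p.2 r))) = r ∧
        -chevE6.cartan p.2 (chevE6.reflectRoot p.1 (chevE6.reflectRoot p.2 r)) = chevE6.cartan p.2 r ∧
        -chevE6.cartan p.1 (chevE6.reflectRoot p.2 (chevE6.reflectRoot p.1 (chevE6.reflectRoot p.2 r))) =
          chevE6.cartan p.1 r := by decide +kernel
    rcases hij with e | e <;> cases e
    · exact this ⟨r, hr⟩ (5, 0) (by simp)
    · exact this ⟨r, hr⟩ (4, 2) (by simp)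
  rw [hS, mul_comm (x ^ _) (σ x ^ _), mul_assoc (σ x ^ _)]
  rw [mul_left_comm, ← conj_simple_pow (K := K) i h31 key.1 key.2.2 hx _,
    ← conj_simple_pow (K := K) j h21 hr3.symm key.2.1 hx' t,
    ← conj_simple (K := K) i h11 hr2.symm t, ← conj_simple (K := K) j hr hr1.symm t]
  group

/-- A torus element. -/
noncomputable def tor (σ : K →+* K) (y2 y4 x6 x5 : K) : GL chevE6.Idx K :=
  hL 46 y2 * hL 39 y4 * hS 36 56 σ x6 * hS 37 42 σ x5

theorem tor_move (σ : K →+* K) {r : ℕ} (hr : r < 72) {y2 y4 x6 x5 : K} (h2 : y2 ≠ 0) (h4 : y4 ≠ 0)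
    (h6 : x6 ≠ 0) (h5 : x5 ≠ 0) (t : K) :
    tor σ y2 y4 x6 x5 * X r t * (tor σ y2 y4 x6 x5)⁻¹ =
      X r (y2 ^ chevE6.cartan 1 r * (y4 ^ chevE6.cartan 3 r *
        (x6 ^ chevE6.cartan 5 r * σ x6 ^ chevE6.cartan 0 r *
          (x5 ^ chevE6.cartan 4 r * σ x5 ^ chevE6.cartan 2 r * t)))) := by
  have a := fun t => hL_move (K := K) ⟨1, by decide⟩ hr h2 t
  have b := fun t => hL_move (K := K) ⟨3, by decide⟩ hr h4 t
  have c := fun t => hS_move (i := ⟨5, by decide⟩) (j := ⟨0, by decide⟩) (Or.inl rfl) σ hr h6 t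
  have d := fun t => hS_move (i := ⟨4, by decide⟩) (j := ⟨2, by decide⟩) (Or.inr rfl) σ hr h5 t
  simp only [show chevE6.simple ((⟨1, by decide⟩ : Fin chevE6.rank) : ℕ) = 46 from rfl,
    show chevE6.simple ((⟨3, by decide⟩ : Fin chevE6.rank) : ℕ) = 39 from rfl,
    show chevE6.simple ((⟨5, by decide⟩ : Fin chevE6.rank) : ℕ) = 36 from rfl,
    show chevE6.simple ((⟨0, by decide⟩ : Fin chevE6.rank) : ℕ) = 56 from rfl,
    show chevE6.simple ((⟨4, by decide⟩ : Fin chevE6.rank) : ℕ) = 37 from rfl,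
    show chevE6.simple ((⟨2, by decide⟩ : Fin chevE6.rank) : ℕ) = 42 from rfl] at a b c d
  rw [tor, ← a, ← b, ← c, ← d]
  group

variable {σ : K →+* K} {q : ℕ} (S : Setting σ q)

include S

theorem Setting.tor_mem {y2 y4 : K} (h2 : σ y2 = y2) (h4 : σ y4 = y4) (x6 x5 : K) :
    tor σ y2 y4 x6 x5 ∈ twistedE6 K q :=
  mul_mem (mul_mem (mul_mem
    (mul_mem (S.nG_long_mem (by simp) h2) (S.nG_long_mem (by simp) (map_one σ)))
    (mul_mem (S.nG_long_mem (by simp) h4) (S.nG_long_mem (by simp) (map_one σ))))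
    (mul_mem (S.nG_short_mem x6).1 (by simpa using (S.nG_short_mem 1).1)))
    (mul_mem (S.nG_short_mem x5).2 (by simpa using (S.nG_short_mem 1).2))

/-- Every involution is conjugate into `U¹`. -/
theorem Setting.exists_conj {g : GL chevE6.Idx K} (hg : g ∈ twistedE6 K q) (h2 : g * g = 1) :
    ∃ x ∈ twistedE6 K q, x * g * x⁻¹ ∈ chevE6.posUnipotent K := by
  classical
  have := S.finite
  have : Fintype K := Fintype.ofFinite K
  have : Fact (Nat.Prime 2) := ⟨Nat.prime_two⟩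
  have hK : Fintype.card K = q ^ 2 := by rw [← Nat.card_eq_fintype_card]; exact S.card
  have hqeven : Even q := by
    obtain ⟨n, hp, hn⟩ := FiniteField.card K 2
    have : 2 ∣ q ^ 2 := hK ▸ hn ▸ dvd_pow_self 2 n.ne_zero
    exact even_iff_two_dvd.2 (Nat.prime_two.dvd_of_dvd_pow this)
  set G := twistedE6 K q with hG
  set U : Subgroup G := (chevE6.posUnipotent K).subgroupOf G with hU
  have hUp : IsPGroup 2 U :=
    (OutAut.isPGroup_posUnipotent full).of_injective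
      ((G.subtype.comp U.subtype).codRestrict (chevE6.posUnipotent K) fun x => Subgroup.mem_subgroupOf.1 x.2)
      (fun a b h => Subtype.ext (Subtype.ext
        (congrArg (fun z : chevE6.posUnipotent K => (z : GL chevE6.Idx K)) h)))
  have hUc : Nat.card U = q ^ 36 := by
    rw [← card_unipotentE6 S.pp hK, hU, ← Subgroup.inf_subgroupOf_left]
    exact Nat.card_congr (Subgroup.subgroupOfEquivOfLe inf_le_left).toEquiv
  have hidx : ¬ 2 ∣ U.index := by
    intro hd
    have h := Cfsg.Agent.S1066.result S.pp hK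
    rw [← U.card_mul_index, hUc, mul_left_comm, mul_assoc, mul_assoc, mul_assoc, mul_assoc, mul_assoc] at h
    have h' := Nat.eq_of_mul_eq_mul_left (pow_pos S.pp.pos 36) h
    have hodd : Odd ((q ^ 2 - 1) * ((q ^ 5 + 1) * ((q ^ 6 - 1) * ((q ^ 8 - 1) * ((q ^ 9 + 1) * (q ^ 12 - 1)))))) := by
      have hm : ∀ k, k ≠ 0 → Odd (q ^ k - 1) ∧ Odd (q ^ k + 1) := fun k hk =>
        have he : Even (q ^ k) := hqeven.pow_of_ne_zero hk
        ⟨Nat.Even.sub_odd (Nat.one_le_pow _ _ S.pp.pos) he odd_one, he.add_one⟩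
      simp only [Nat.odd_mul, (hm 2 (by simp)).1, (hm 5 (by simp)).2, (hm 6 (by simp)).1, (hm 8 (by simp)).1,
        (hm 9 (by simp)).2, (hm 12 (by simp)).1, and_self]
    rw [← h'] at hodd
    exact (Nat.not_even_iff_odd.2 hodd) (even_iff_two_dvd.2 (dvd_mul_of_dvd_right hd _))
  let P : Sylow 2 G := hUp.toSylow hidx
  have hgp : IsPGroup 2 (Subgroup.zpowers (⟨g, hg⟩ : G)) := by
    obtain ⟨i, -, hi⟩ := (Nat.dvd_prime_pow Nat.prime_two).1
      (orderOf_dvd_of_pow_eq_one (x := (⟨g, hg⟩ : G)) (n := 2 ^ 1) (Subtype.ext (by simp [sq, h2])))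
    exact IsPGroup.of_card (n := i) (by rw [Nat.card_zpowers, hi])
  obtain ⟨Q, hQ⟩ := hgp.exists_le_sylow
  obtain ⟨x, hx⟩ := MulAction.exists_smul_eq G Q P
  refine ⟨(x : GL chevE6.Idx K), x.2, ?_⟩
  have h1 : x * ⟨g, hg⟩ * x⁻¹ ∈ (x • Q : Sylow 2 G) :=
    Subgroup.smul_mem_pointwise_smul (⟨g, hg⟩ : G) (MulAut.conj x) _ (hQ (Subgroup.mem_zpowers _))
  rw [hx] at h1
  exact Subgroup.mem_subgroupOf.1 (show x * ⟨g, hg⟩ * x⁻¹ ∈ U from h1)

end CfsgLib.TwistedE6Involutions
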